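/-
Bryukhanova's theorem: the common setup of the core argument (forum topic bry-s4258).
-/
import Cfsg.Agent.Lib.Gross.Final

set_option autoImplicit false

namespace Cfsg.Agent.Lib.Bry.Setup

open Module
open scoped commutatorElement

universe u v w

/-- The core configuration. `x ^ 2 ^ n` is the last power of a `2`-element. -/
structure Setup {K : Type u} [Field K] {V : Type v} [AddCommGroup V] [Module K V] {G : Type w} [Group G]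
    (ρ : G →* End K V) (n q : ℕ) (B That T₀ D R₁ Ks : Subgroup G) : Prop where
  inj : Function.Injective ρ
  exp : ∀ g : G, (∃ k, g ^ 2 ^ k = 1) → g ^ 2 ^ (n + 1) = 1
  norm : ∀ g : G, (∃ k, g ^ 2 ^ k = 1) → (ρ g - 1) ^ (2 ^ (n + 1) - 1) = 0
  q_prime : q.Prime
  q_ne : q ≠ 2
  R₁_q : IsPGroup q R₁
  That_2 : IsPGroup 2 That
  nThat : B ≤ Subgroup.normalizer (That : Set G)
  nT₀ : B ≤ Subgroup.normalizer (T₀ : Set G)
  nD : B ≤ Subgroup.normalizer (D : Set G)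
  nR₁ : B ≤ Subgroup.normalizer (R₁ : Set G)
  T₀_le : T₀ ≤ That
  That_le : That ≤ B
  D_le : D ≤ T₀
  /-- `D` contains every proper `B`-invariant subgroup of `T₀`. -/
  maxD : ∀ E : Subgroup G, E ≤ T₀ → B ≤ Subgroup.normalizer (E : Set G) → E ≤ D ∨ E = T₀
  D_ne : D ≠ T₀
  /-- `T₀` centralizes every proper `B`-invariant subgroup of `R₁`. -/
  minR : ∀ E : Subgroup G, E ≤ R₁ → B ≤ Subgroup.normalizer (E : Set G) → E ≠ R₁ →
    ∀ g ∈ T₀, ∀ a ∈ E, g * a = a * g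
  ncR : ¬ ∀ g ∈ T₀, ∀ a ∈ R₁, g * a = a * g
  /-- Last powers of `2`-elements of `B` lie in `That`. -/
  y_mem : ∀ x ∈ B, (∃ k, x ^ 2 ^ k = 1) → x ^ 2 ^ n ∈ That
  Ks_le : Ks ≤ B
  hKs : ⁅T₀, Ks⁆ = T₀
  Ks_D : ∀ s ∈ Ks, ∀ d ∈ D, s * d = d * s
  D_central : ∀ d ∈ D, ∀ g ∈ T₀, d * g = g * d
  That_T₀ : ∀ u ∈ That, ∀ g ∈ T₀, u * g * u⁻¹ * g⁻¹ ∈ D
  T₀_sq : ∀ g ∈ T₀, g * g ∈ D
  T₀_cm : ∀ a ∈ T₀, ∀ b ∈ T₀, a * b * a⁻¹ * b⁻¹ ∈ D

end Cfsg.Agent.Lib.Bry.Setup
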