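/-
Bryukhanova's theorem: first consequences of the setup.
-/
import Cfsg.Agent.Lib.Bry.Setup
import Cfsg.Agent.Lib.Coprime.Generation2

set_option autoImplicit false

namespace Cfsg.Agent.Lib.Bry.Basic

open Module Cfsg.Agent.Lib.Bry.Setup Cfsg.Agent.Lib.HallHigman.Irr Cfsg.Agent.Lib.Gross.ConfigAux
  Cfsg.Agent.Lib.Coprime.Action
open scoped commutatorElement

universe u v w

section J

variable {K : Type u} [Field K] [IsAlgClosed K] [CharP K 2] {V : Type v} [AddCommGroup V] [Module K V]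
    [FiniteDimensional K V] {G : Type w} [Group G] [Finite G]

/-- **J-ab**: the last power of a `2`-element centralizes every abelian `q`-subgroup it normalizes. -/
theorem J_ab (ρ : G →* End K V) (hρ : Function.Injective ρ) (n : ℕ) {q : ℕ} [hqp : Fact q.Prime] (hq2 : q ≠ 2)
    (A₀ : Subgroup G) (hA₀ : IsPGroup q A₀) (hab : ∀ a ∈ A₀, ∀ b ∈ A₀, a * b = b * a) (x : G)
    (hx : x ∈ Subgroup.normalizer (A₀ : Set G)) (hxL : x ^ 2 ^ (n + 1) = 1)
    (hN : (ρ x - 1) ^ (2 ^ (n + 1) - 1) = 0) :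
    ∀ a ∈ A₀, x ^ 2 ^ n * a = a * x ^ 2 ^ n := by
  classical
  haveI h2p : Fact (Nat.Prime 2) := ⟨Nat.prime_two⟩
  have hqK : (q : K) ≠ 0 := Cfsg.Agent.Lib.Gross.Config.prime_cast_ne_zero K hqp.out hq2
  set y := x ^ 2 ^ n with hy
  set Z := Subgroup.zpowers y with hZ
  have hZA : Z ≤ Subgroup.normalizer (A₀ : Set G) := Subgroup.zpowers_le.mpr (Subgroup.pow_mem _ hx _)
  have hy2 : y ^ 2 ^ 1 = 1 := by
    rw [hy, ← pow_mul, show 2 ^ n * 2 ^ 1 = 2 ^ (n + 1) by ring]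
    exact hxL
  have hZ2 : IsPGroup 2 Z := isPGroup_zpowers hy2
  have hcop : (Nat.card Z).Coprime (Nat.card A₀) := IsPGroup.coprime_card_of_ne 2 q (Ne.symm hq2) Z A₀ hZ2 hA₀
  set Q := ⁅A₀, Z⁆ with hQ
  have hQA : Q ≤ A₀ := commutator_le_of_le_normalizer hZA
  have hQq : IsPGroup q Q := hA₀.to_le hQA
  have hQt : ⁅Q, Z⁆ = Q := commutator_commutator_eq hZA hcop (Or.inl inferInstance)
  have hxZ : Subgroup.zpowers x ≤ Subgroup.normalizer (Z : Set G) :=
    Subgroup.zpowers_le.mpr (mem_normalizer_zpowers_pow x _)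
  have hxQ : x ∈ Subgroup.normalizer (Q : Set G) :=
    le_normalizer_commutator_of_le (T := Subgroup.zpowers x) (Subgroup.zpowers_le.mpr hx) hxZ (Subgroup.mem_zpowers x)
  have hQbot : Q = ⊥ := by
    by_contra hne
    obtain ⟨g₀, hg₀, hg₀1⟩ := (Subgroup.bot_or_exists_ne_one Q).resolve_left hne
    have hρg₀ : ρ g₀ ≠ 1 := fun h => hg₀1 (hρ (by rw [h, map_one]))
    obtain ⟨U₁, hU₁, hnt⟩ := Cfsg.Agent.Lib.HallHigman.Reduction.exists_irr_nontrivial hqK ρ Q hQq hg₀ hρg₀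
    obtain ⟨k, a, -, -, -, -, hfin, -⟩ :=
      Cfsg.Agent.Lib.Gross.IR.irr_props hqK hq2 hQq x hxQ n hxL hN hQt hU₁ hnt
    haveI : Nontrivial U₁ := Submodule.nontrivial_iff_ne_bot.mpr hU₁.ne_bot
    have h1 := Cfsg.Agent.Lib.HallHigman.Core.finrank_eq_one_of_comm
      (Cfsg.Agent.Lib.HallHigman.Core.resQ ρ Q U₁ hU₁.inv) (Cfsg.Agent.Lib.HallHigman.Core.resQ_irr hU₁)
      (fun g h => by
        rw [← map_mul, ← map_mul]
        have : g * h = h * g := Subtype.ext (hab _ (hQA g.2) _ (hQA h.2))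
        rw [this])
    have hq1 := hqp.out.one_lt
    omega
  intro a ha
  have h1 : ⁅a, y⁆ ∈ Q := Subgroup.commutator_mem_commutator ha (Subgroup.mem_zpowers y)
  rw [hQbot, Subgroup.mem_bot, commutatorElement_eq_one_iff_commute] at h1
  exact h1.symm.eq

end J

section Str

variable {K : Type u} [Field K] {V : Type v} [AddCommGroup V] [Module K V] {G : Type w} [Group G] [Finite G]
  {ρ : G →* End K V} {n q : ℕ} {B That T₀ D R₁ Ks : Subgroup G}

/-- The Frattini subgroup of `R₁`, as a subgroup of `G`. -/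
noncomputable def Z1 (R₁ : Subgroup G) : Subgroup G := (frattini R₁).map R₁.subtype

theorem Z1_le : Z1 R₁ ≤ R₁ := Subgroup.map_subtype_le _

theorem conj_mem_Z1 {b : G} (hb : b ∈ Subgroup.normalizer (R₁ : Set G)) {c : G} (hc : c ∈ Z1 R₁) :
    b * c * b⁻¹ ∈ Z1 R₁ := by
  obtain ⟨c', hc', rfl⟩ := hc
  let φ := Cfsg.Agent.Lib.Gross.CL.conjOn R₁ b hb
  have h1 : φ c' ∈ frattini R₁ := by
    have h2 := (frattini_characteristic (G := R₁)).fixed φ
    have h3 : c' ∈ (frattini R₁).comap φ.toMonoidHom := by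
      rw [h2]
      exact hc'
    exact h3
  exact ⟨φ c', h1, rfl⟩

theorem mem_normalizer_Z1 {b : G} (hb : b ∈ Subgroup.normalizer (R₁ : Set G)) :
    b ∈ Subgroup.normalizer ((Z1 R₁ : Subgroup G) : Set G) := by
  refine mem_normalizer_of_forall (fun g hg => conj_mem_Z1 hb hg) (fun g hg => ?_)
  have h := conj_mem_Z1 (Subgroup.inv_mem _ hb) hg
  simpa using h

theorem le_normalizer_Z1 (h : B ≤ Subgroup.normalizer (R₁ : Set G)) :
    B ≤ Subgroup.normalizer ((Z1 R₁ : Subgroup G) : Set G) := fun _ hb => mem_normalizer_Z1 (h hb)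

/-- Commutators of `R₁` lie in `Z1`. -/
theorem comm_mem_Z1 {q : ℕ} [Fact q.Prime] (hR : IsPGroup q R₁) {a b : G} (ha : a ∈ R₁) (hb : b ∈ R₁) :
    a * b * a⁻¹ * b⁻¹ ∈ Z1 R₁ := by
  have h1 := Cfsg.Agent.Lib.PGroups.Basic.commutator_le_frattini hR
  have h2 : ⁅(⟨a, ha⟩ : R₁), (⟨b, hb⟩ : R₁)⁆ ∈ frattini R₁ :=
    h1 (Subgroup.commutator_mem_commutator (by trivial) (by trivial))
  exact ⟨_, h2, rfl⟩

/-- Powers of `R₁` lie in `Z1`. -/
theorem pow_mem_Z1 {q : ℕ} [Fact q.Prime] (hR : IsPGroup q R₁) {a : G} (ha : a ∈ R₁) : a ^ q ∈ Z1 R₁ :=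
  ⟨_, Cfsg.Agent.Lib.PGroups.Basic.pow_mem_frattini hR (⟨a, ha⟩ : R₁), rfl⟩

variable (S : Setup ρ n q B That T₀ D R₁ Ks)
include S

theorem q_fact : Fact q.Prime := ⟨S.q_prime⟩

theorem T₀_le_B : T₀ ≤ B := S.T₀_le.trans S.That_le

theorem T₀_two : IsPGroup 2 T₀ := S.That_2.to_le S.T₀_le

theorem D_two : IsPGroup 2 D := S.That_2.to_le (S.D_le.trans S.T₀_le)

theorem T₀_norm_R₁ : T₀ ≤ Subgroup.normalizer (R₁ : Set G) := S.T₀_le.trans (S.That_le.trans S.nR₁)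

theorem R₁_ne_bot : R₁ ≠ ⊥ := by
  rintro rfl
  apply S.ncR
  intro g _ a ha
  rw [(Subgroup.mem_bot.mp ha), one_mul, mul_one]

theorem coprime_T₀_R₁ : (Nat.card T₀).Coprime (Nat.card R₁) := by
  haveI := q_fact S
  haveI h2p : Fact (Nat.Prime 2) := ⟨Nat.prime_two⟩
  exact IsPGroup.coprime_card_of_ne 2 q (Ne.symm S.q_ne) T₀ R₁ (T₀_two S) S.R₁_q

/-- `R₁ = [R₁, T₀]`. -/
theorem comm_R₁_T₀ : ⁅R₁, T₀⁆ = R₁ := by
  classical
  haveI := q_fact S
  have hle : ⁅R₁, T₀⁆ ≤ R₁ := commutator_le_of_le_normalizer (T₀_norm_R₁ S)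
  have hcc : ⁅⁅R₁, T₀⁆, T₀⁆ = ⁅R₁, T₀⁆ :=
    commutator_commutator_eq (T₀_norm_R₁ S) (coprime_T₀_R₁ S) (Or.inr (by
      haveI := S.R₁_q.isNilpotent
      infer_instance))
  by_contra hne
  have hc := S.minR _ hle (le_normalizer_commutator_of_le S.nR₁ S.nT₀) hne
  have hbot : ⁅R₁, T₀⁆ = ⊥ := by
    rw [← hcc, eq_bot_iff, Subgroup.commutator_le]
    intro a ha g hg
    rw [Subgroup.mem_bot, commutatorElement_eq_one_iff_commute]
    exact (hc g hg a ha).symm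
  apply S.ncR
  intro g hg a ha
  have h1 : ⁅a, g⁆ ∈ ⁅R₁, T₀⁆ := Subgroup.commutator_mem_commutator ha hg
  rw [hbot, Subgroup.mem_bot, commutatorElement_eq_one_iff_commute] at h1
  exact h1.symm.eq

theorem Z1_ne : Z1 R₁ ≠ R₁ := by
  classical
  haveI := q_fact S
  haveI : Nontrivial R₁ := (Subgroup.bot_or_nontrivial R₁).resolve_left (R₁_ne_bot S)
  intro h
  have h2 : frattini R₁ = ⊤ := by
    apply Subgroup.map_injective R₁.subtype_injective
    rw [← MonoidHom.range_eq_map, Subgroup.range_subtype]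
    exact h
  have h3 : (frattini R₁) ≠ ⊤ := by
    obtain ⟨M, hM⟩ := (inferInstance : IsCoatomic (Subgroup R₁)).eq_top_or_exists_le_coatom ⊥ |>.resolve_left bot_ne_top
    intro h4
    have h5 : frattini R₁ ≤ M := by
      exact (Order.radical_le_coatom hM.1)
    rw [h4] at h5
    exact hM.1.1 (top_le_iff.mp h5)
  exact h3 h2

/-- `T₀` centralizes `Z1`. -/
theorem T₀_Z1 : ∀ g ∈ T₀, ∀ c ∈ Z1 R₁, g * c = c * g :=
  S.minR _ Z1_le (le_normalizer_Z1 S.nR₁) (Z1_ne S)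

/-- `Z1` is central in `R₁`. -/
theorem Z1_central : ∀ c ∈ Z1 R₁, ∀ a ∈ R₁, c * a = a * c := by
  classical
  haveI := q_fact S
  have h1 : ⁅⁅R₁, T₀⁆, Z1 R₁⁆ ≤ (⊥ : Subgroup G) := by
    have hN : ∀ X : Subgroup G, X ≤ Subgroup.normalizer ((⊥ : Subgroup G) : Set G) := by
      intro X a _
      rw [Subgroup.normalizer_eq_top]
      trivial
    refine Cfsg.Agent.Lib.Coprime.Generation2.three_subgroups_rel R₁ T₀ (Z1 R₁) ⊥ ?_ ?_ (hN _) (hN _) (hN _)
    · rw [Subgroup.commutator_le]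
      intro a ha r _
      have : a = 1 := by
        obtain ha' := (show ⁅T₀, Z1 R₁⁆ ≤ ⊥ from by
          rw [Subgroup.commutator_le]
          intro g hg c hc
          rw [Subgroup.mem_bot, commutatorElement_eq_one_iff_commute]
          exact T₀_Z1 S g hg c hc) ha
        exact Subgroup.mem_bot.mp ha'
      rw [this]
      simp
    · rw [Subgroup.commutator_le]
      intro a ha g hg
      have ha' : a ∈ Z1 R₁ := by
        have h5 : ⁅Z1 R₁, R₁⁆ ≤ Z1 R₁ := commutator_le_of_le_normalizer (fun r hr =>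
          mem_normalizer_Z1 (Subgroup.le_normalizer hr))
        exact h5 ha
      rw [Subgroup.mem_bot, commutatorElement_eq_one_iff_commute]
      exact (T₀_Z1 S g hg a ha').symm
  rw [comm_R₁_T₀ S] at h1
  intro c hc a ha
  have h2 : ⁅a, c⁆ ∈ (⊥ : Subgroup G) := h1 (Subgroup.commutator_mem_commutator ha hc)
  rw [Subgroup.mem_bot, commutatorElement_eq_one_iff_commute] at h2
  exact h2.symm.eq

end Str

end Cfsg.Agent.Lib.Bry.Basic
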