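/-
Bryukhanova's theorem: the abelian case of the core claim ("abelian lines", forum topic bry-s4258).
-/
import Cfsg.Agent.Lib.Bry.Basic

set_option autoImplicit false

namespace Cfsg.Agent.Lib.Bry.AL

open Module Cfsg.Agent.Lib.Bry.Setup Cfsg.Agent.Lib.Bry.Basic
open scoped commutatorElement

universe u v w

section Abstract

/-- The quotient `R / Z` as a module, with the conjugation action of `N` (all data total on `G`). -/
structure Sect {G : Type w} [Group G] (q : ℕ) (R Z N : Subgroup G) {W : Type w} [AddCommGroup W]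
    [Module (ZMod q) W] (τ : G → End (ZMod q) W) (π : G → W) : Prop where
  τ_one : τ 1 = 1
  τ_mul : ∀ g ∈ N, ∀ h ∈ N, τ (g * h) = τ g * τ h
  π_mul : ∀ a ∈ R, ∀ b ∈ R, π (a * b) = π a + π b
  π_surj : ∀ v, ∃ a ∈ R, π a = v
  π_zero : ∀ a ∈ R, π a = 0 ↔ a ∈ Z
  τ_π : ∀ g ∈ N, ∀ a ∈ R, τ g (π a) = π (g * a * g⁻¹)

theorem exists_sect {G : Type w} [Group G] [Finite G] {q : ℕ} [hq : Fact q.Prime] (R : Subgroup G)
    (hR : IsPGroup q R) :
    ∃ (W : Type w) (_ : AddCommGroup W) (_ : Module (ZMod q) W) (τ : G → End (ZMod q) W) (π : G → W),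
      Sect q R (Z1 R) (Subgroup.normalizer (R : Set G)) τ π := by
  classical
  let N : Subgroup G := Subgroup.normalizer (R : Set G)
  let T' : Subgroup N := R.subgroupOf N
  let N' : Subgroup N := (Z1 R).subgroupOf N
  haveI hT' : T'.Normal := Subgroup.normal_in_normalizer
  haveI hN' : N'.Normal := ⟨fun a ha g => by
    rw [Subgroup.mem_subgroupOf] at ha ⊢
    exact conj_mem_Z1 g.2 ha⟩
  have hNT : N' ≤ T' := fun a ha => by
    rw [Subgroup.mem_subgroupOf] at ha ⊢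
    exact Z1_le ha
  obtain ⟨W, i1, i2, i3, ρ, π₀, h1, h2, h3, h4⟩ :=
    Cfsg.Agent.Lib.HallHigman.Section.exists_section_module (p := q) N' T' hNT
      (fun a ha b hb => by
        rw [Subgroup.mem_subgroupOf] at ha hb ⊢
        simpa using comm_mem_Z1 hR ha hb)
      (fun a ha => by
        rw [Subgroup.mem_subgroupOf] at ha ⊢
        simpa using pow_mem_Z1 hR ha)
  have hle : ∀ {a : G}, a ∈ R → a ∈ N := fun ha => Subgroup.le_normalizer ha
  have hmem : ∀ {a : G} (ha : a ∈ R), (⟨a, hle ha⟩ : N) ∈ T' := fun ha => by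
    rw [Subgroup.mem_subgroupOf]; exact ha
  let τ : G → End (ZMod q) W := fun g => if h : g ∈ N then ρ ⟨g, h⟩ else 1
  let π : G → W := fun a => if h : a ∈ R then π₀ ⟨⟨a, hle h⟩, hmem h⟩ else 0
  have hτ : ∀ {g : G} (h : g ∈ N), τ g = ρ ⟨g, h⟩ := fun h => dif_pos h
  have hπ : ∀ {a : G} (h : a ∈ R), π a = π₀ ⟨⟨a, hle h⟩, hmem h⟩ := fun h => dif_pos h
  refine ⟨W, i1, i2, τ, π, ?_, ?_, ?_, ?_, ?_, ?_⟩
  · rw [hτ N.one_mem]
    exact map_one ρ
  · intro g hg h hh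
    rw [hτ hg, hτ hh, hτ (N.mul_mem hg hh), ← map_mul]
    rfl
  · intro a ha b hb
    rw [hπ ha, hπ hb, hπ (R.mul_mem ha hb), ← h1]
    rfl
  · intro v
    obtain ⟨t, ht⟩ := h2 v
    have ht' : t.1.1 ∈ R := by
      have := t.2
      rwa [Subgroup.mem_subgroupOf] at this
    exact ⟨t.1.1, ht', by rw [hπ ht', ← ht]⟩
  · intro a ha
    rw [hπ ha, h3]
    exact Iff.rfl
  · intro g hg a ha
    have hc : g * a * g⁻¹ ∈ R := (Subgroup.mem_normalizer_iff.mp hg a).mp ha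
    rw [hτ hg, hπ ha, hπ hc]
    exact h4 ⟨g, hg⟩ _ _ rfl

variable {G : Type w} [Group G] {q n : ℕ} {R Z B T : Subgroup G} {W : Type w} [AddCommGroup W]
  [Module (ZMod q) W] {τ : G → End (ZMod q) W} {π : G → W}

theorem Sect.π_one (h : Sect q R Z B τ π) : π 1 = 0 := by
  have := h.π_mul 1 R.one_mem 1 R.one_mem
  rw [mul_one] at this
  simpa using this

theorem Sect.π_inv (h : Sect q R Z B τ π) {a : G} (ha : a ∈ R) : π a⁻¹ = -π a := by
  have := h.π_mul a⁻¹ (R.inv_mem ha) a ha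
  rw [inv_mul_cancel, h.π_one] at this
  exact eq_neg_of_add_eq_zero_left this.symm

theorem Sect.mem_of_eq (h : Sect q R Z B τ π) {a b : G} (ha : a ∈ R) (hb : b ∈ R) (he : π b = π a) :
    a⁻¹ * b ∈ Z := by
  rw [← h.π_zero _ (R.mul_mem (R.inv_mem ha) hb), h.π_mul _ (R.inv_mem ha) _ hb, h.π_inv ha, he]
  exact neg_add_cancel _

theorem Sect.mem_of_eq_neg (h : Sect q R Z B τ π) {a b : G} (ha : a ∈ R) (hb : b ∈ R) (he : π b = -π a) :
    b * a ∈ Z := by
  rw [← h.π_zero _ (R.mul_mem hb ha), h.π_mul _ hb _ ha, he]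
  exact neg_add_cancel _

/-- The data of the abelian lines argument. -/
structure Ctx (q n : ℕ) (R Z B T : Subgroup G) {W : Type w} [AddCommGroup W] [Module (ZMod q) W]
    (τ : G → End (ZMod q) W) (π : G → W) : Prop where
  sect : Sect q R Z B τ π
  TB : T ≤ B
  BT : B ≤ Subgroup.normalizer (T : Set G)
  BR : B ≤ Subgroup.normalizer (R : Set G)
  two : ∀ v : W, v = -v → v = 0
  inv : ∀ e ∈ T, ∀ v, τ e (τ e v) = v
  comm : ∀ a ∈ T, ∀ b ∈ T, ∀ v, τ a (τ b v) = τ b (τ a v)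
  Zc : ∀ c ∈ Z, ∀ a ∈ R, c * a = a * c
  Rc : ∀ a ∈ R, ∀ b ∈ R, a * b * a⁻¹ * b⁻¹ ∈ Z
  TZ : ∀ g ∈ T, ∀ c ∈ Z, g * c = c * g
  odd : ∀ c ∈ R, c * c = 1 → c = 1
  T2 : ∀ g ∈ T, ∃ k, g ^ 2 ^ k = 1
  exp : ∀ g : G, (∃ k, g ^ 2 ^ k = 1) → g ^ 2 ^ (n + 1) = 1
  J : ∀ x ∈ B, (∃ k, x ^ 2 ^ k = 1) → ∀ A₀ : Subgroup G, A₀ ≤ R → (∀ a ∈ A₀, ∀ b ∈ A₀, a * b = b * a) →
    x ∈ Subgroup.normalizer (A₀ : Set G) → ∀ a ∈ A₀, x ^ 2 ^ n * a = a * x ^ 2 ^ n

/-- There is a weight vector on which `ν` acts as `-1`. -/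
theorem Ctx.exists_weight (C : Ctx q n R Z B T τ π) [Finite G] {ν : G} (hν : ν ∈ T) (hu : ∃ u, τ ν u ≠ u) :
    ∃ v, v ≠ 0 ∧ τ ν v = -v ∧ ∀ e ∈ T, τ e v = v ∨ τ e v = -v := by
  classical
  have key : ∀ A : Finset G, (∀ e ∈ A, e ∈ T) →
      ∃ v, v ≠ 0 ∧ τ ν v = -v ∧ ∀ e ∈ A, τ e v = v ∨ τ e v = -v := by
    intro A
    induction A using Finset.induction_on with
    | empty =>
      intro _
      obtain ⟨u, hu⟩ := hu
      refine ⟨u - τ ν u, sub_ne_zero.mpr (Ne.symm hu), ?_, by simp⟩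
      rw [map_sub, C.inv ν hν, neg_sub]
    | insert e A _ ih =>
      intro hA
      obtain ⟨v, hv0, hνv, hv⟩ := ih (fun f hf => hA f (Finset.mem_insert_of_mem hf))
      have he : e ∈ T := hA e (Finset.mem_insert_self _ _)
      by_cases hev : τ e v = v
      · refine ⟨v, hv0, hνv, ?_⟩
        intro f hf
        rcases Finset.mem_insert.mp hf with hfe | hf
        · rw [hfe]
          exact Or.inl hev
        · exact hv f hf
      · refine ⟨v - τ e v, sub_ne_zero.mpr (Ne.symm hev), ?_, ?_⟩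
        · rw [map_sub, C.comm ν hν e he, hνv, map_neg]
          abel
        · intro f hf
          rcases Finset.mem_insert.mp hf with hfe | hf
          · right
            rw [hfe, map_sub, C.inv e he, neg_sub]
          · have hfT := hA f (Finset.mem_insert_of_mem hf)
            rcases hv f hf with h | h
            · left
              rw [map_sub, C.comm f hfT e he, h]
            · right
              rw [map_sub, C.comm f hfT e he, h, map_neg]
              abel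
  obtain ⟨v, hv0, hνv, hv⟩ := key (Set.toFinite (T : Set G)).toFinset (fun e he => by simpa using he)
  exact ⟨v, hv0, hνv, fun e he => hv e (by simpa using he)⟩

theorem comm_mul_left' (a z b : G) (hzb : z * b = b * z) :
    (a * z) * b * (a * z)⁻¹ * b⁻¹ = a * b * a⁻¹ * b⁻¹ := by
  calc (a * z) * b * (a * z)⁻¹ * b⁻¹ = a * (z * b) * z⁻¹ * a⁻¹ * b⁻¹ := by group
    _ = a * (b * z) * z⁻¹ * a⁻¹ * b⁻¹ := by rw [hzb]
    _ = a * b * a⁻¹ * b⁻¹ := by group

theorem comm_mul_right' (a b z : G) (hza : z * a = a * z) :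
    a * (b * z) * a⁻¹ * (b * z)⁻¹ = a * b * a⁻¹ * b⁻¹ := by
  have h : z * a⁻¹ = a⁻¹ * z := (Commute.inv_right hza)
  calc a * (b * z) * a⁻¹ * (b * z)⁻¹ = a * b * (z * a⁻¹) * z⁻¹ * b⁻¹ := by group
    _ = a * b * (a⁻¹ * z) * z⁻¹ * b⁻¹ := by rw [h]
    _ = a * b * a⁻¹ * b⁻¹ := by group

/-- Two elements on which some `e` acts with opposite signs commute. -/
theorem Ctx.comm_of_signs (C : Ctx q n R Z B T τ π) {a b e : G} (ha : a ∈ R) (hb : b ∈ R) (he : e ∈ T)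
    (h1 : τ e (π a) = π a) (h2 : τ e (π b) = -π b) : a * b = b * a := by
  have heB := C.TB he
  have heN := C.BR heB
  have ha' : e * a * e⁻¹ ∈ R := (Subgroup.mem_normalizer_iff.mp heN a).mp ha
  have hb' : e * b * e⁻¹ ∈ R := (Subgroup.mem_normalizer_iff.mp heN b).mp hb
  have hz₁ : a⁻¹ * (e * a * e⁻¹) ∈ Z := C.sect.mem_of_eq ha ha' (by rw [← C.sect.τ_π e heB a ha, h1])
  have hz₂ : (e * b * e⁻¹) * b ∈ Z := C.sect.mem_of_eq_neg hb hb' (by rw [← C.sect.τ_π e heB b hb, h2])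
  set z₁ := a⁻¹ * (e * a * e⁻¹) with hz₁d
  set z₂ := (e * b * e⁻¹) * b with hz₂d
  have ea : e * a * e⁻¹ = a * z₁ := by rw [hz₁d]; group
  have eb : e * b * e⁻¹ = z₂ * b⁻¹ := by rw [hz₂d]; group
  have eb' : e * b * e⁻¹ = b⁻¹ * z₂ := by
    rw [eb]
    exact C.Zc _ hz₂ _ (R.inv_mem hb)
  set c := a * b * a⁻¹ * b⁻¹ with hc
  have hcZ : c ∈ Z := C.Rc a ha b hb
  have hcR : c ∈ R := R.mul_mem (R.mul_mem (R.mul_mem ha hb) (R.inv_mem ha)) (R.inv_mem hb)
  have hfix : e * c * e⁻¹ = c := by rw [C.TZ e he c hcZ]; group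
  have hconj : e * c * e⁻¹ = (e * a * e⁻¹) * (e * b * e⁻¹) * (e * a * e⁻¹)⁻¹ * (e * b * e⁻¹)⁻¹ := by
    rw [hc]; group
  rw [hfix, ea] at hconj
  rw [comm_mul_left' a z₁ _ (C.Zc _ hz₁ _ hb'), eb', comm_mul_right' a b⁻¹ z₂ (C.Zc _ hz₂ _ ha)] at hconj
  have hcb : c * b = b * c := C.Zc c hcZ b hb
  have hinv : a * b⁻¹ * a⁻¹ * b⁻¹⁻¹ = c⁻¹ := by
    have h3 : a * b⁻¹ * a⁻¹ * b⁻¹⁻¹ = b⁻¹ * c⁻¹ * b := by rw [hc]; group
    rw [h3]
    have h4 : c⁻¹ * b = b * c⁻¹ := (Commute.inv_left hcb)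
    rw [mul_assoc, h4]
    group
  rw [hinv] at hconj
  have hcc : c * c = 1 := by
    nth_rewrite 1 [hconj]
    group
  have hc1 : c = 1 := C.odd c hcR hcc
  rw [hc] at hc1
  have h5 : a * b * a⁻¹ = b := mul_inv_eq_one.mp hc1
  exact mul_inv_eq_iff_eq_mul.mp h5

/-- An element congruent to `w` or `w⁻¹` commutes with `w`. -/
theorem Ctx.comm_of_sign (C : Ctx q n R Z B T τ π) {w b : G} (hw : w ∈ R) (hb : b ∈ R)
    (h : π b = π w ∨ π b = -π w) : w * b = b * w := by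
  rcases h with h | h
  · have hz := C.sect.mem_of_eq hw hb h
    have h1 : b = w * (w⁻¹ * b) := by group
    rw [h1]
    rw [mul_assoc w (w⁻¹ * b) w, C.Zc _ hz _ hw]
  · have hz := C.sect.mem_of_eq_neg hw hb h
    have h1 : b = (b * w) * w⁻¹ := by group
    rw [h1]
    have h2 := C.Zc _ hz _ hw
    calc w * (b * w * w⁻¹) = (w * (b * w)) * w⁻¹ := by group
      _ = ((b * w) * w) * w⁻¹ := by rw [← h2]
      _ = b * w := by group
      _ = b * w * w⁻¹ * w := by group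

/-- `g` fixes the weight of `v`. -/
def Fix (T : Subgroup G) (τ : G → End (ZMod q) W) (v : W) (g : G) : Prop :=
  ∀ e ∈ T, (τ (g⁻¹ * e * g) v = v ↔ τ e v = v)

theorem conj_mem_of_normalizer {B T : Subgroup G} (hBT : B ≤ Subgroup.normalizer (T : Set G)) {g e : G} (hg : g ∈ B)
    (he : e ∈ T) : g * e * g⁻¹ ∈ T := (Subgroup.mem_normalizer_iff.mp (hBT hg) e).mp he

theorem conj_inv_mem_of_normalizer {B T : Subgroup G} (hBT : B ≤ Subgroup.normalizer (T : Set G)) {g e : G} (hg : g ∈ B)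
    (he : e ∈ T) : g⁻¹ * e * g ∈ T := by
  have := conj_mem_of_normalizer hBT (B.inv_mem hg) he
  rwa [inv_inv] at this

/-- The stabilizer in `B` of the weight of `v`. -/
def stb (B T : Subgroup G) (τ : G → End (ZMod q) W) (v : W) (hBT : B ≤ Subgroup.normalizer (T : Set G)) :
    Subgroup G where
  carrier := {g | g ∈ B ∧ Fix T τ v g}
  one_mem' := ⟨B.one_mem, fun e he => by simp⟩
  mul_mem' := by
    rintro g h ⟨hg, hgF⟩ ⟨hh, hhF⟩
    refine ⟨B.mul_mem hg hh, fun e he => ?_⟩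
    have e1 : (g * h)⁻¹ * e * (g * h) = h⁻¹ * (g⁻¹ * e * g) * h := by group
    rw [e1, hhF _ (conj_inv_mem_of_normalizer hBT hg he), hgF e he]
  inv_mem' := by
    rintro g ⟨hg, hgF⟩
    refine ⟨B.inv_mem hg, fun e he => ?_⟩
    have hf := conj_mem_of_normalizer hBT hg he
    have e1 := hgF _ hf
    have e2 : g⁻¹ * (g * e * g⁻¹) * g = e := by group
    rw [e2] at e1
    rw [inv_inv]
    exact e1.symm

theorem mem_stb {B T : Subgroup G} {τ : G → End (ZMod q) W} {v : W} {hBT : B ≤ Subgroup.normalizer (T : Set G)} {g : G} :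
    g ∈ stb B T τ v hBT ↔ g ∈ B ∧ Fix T τ v g := Iff.rfl

/-- `T` fixes all weights. -/
theorem Ctx.T_le_stb (C : Ctx q n R Z B T τ π) (v : W) : T ≤ stb B T τ v C.BT := by
  intro e he
  refine ⟨C.TB he, fun f hf => ?_⟩
  have h : τ (e⁻¹ * f * e) v = τ f v := by
    have heB := C.TB he
    have hfB := C.TB hf
    have heI := T.inv_mem he
    rw [C.sect.τ_mul _ (B.mul_mem (C.TB heI) hfB) _ heB, C.sect.τ_mul _ (C.TB heI) _ hfB, Module.End.mul_apply,
      Module.End.mul_apply, C.comm _ heI _ hf, ← Module.End.mul_apply (τ e⁻¹), ← C.sect.τ_mul _ (C.TB heI) _ heB,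
      inv_mul_cancel, C.sect.τ_one, Module.End.one_apply]
  rw [h]

/-- If `g` does not fix the weight of `π w`, then `w` commutes with its `g`-conjugate. -/
theorem Ctx.comm_of_not_fix (C : Ctx q n R Z B T τ π) {w g : G} (hw : w ∈ R) (hg : g ∈ B)
    (hwt : ∀ e ∈ T, τ e (π w) = π w ∨ τ e (π w) = -π w) (hF : ¬ Fix T τ (π w) g) :
    w * (g * w * g⁻¹) = (g * w * g⁻¹) * w := by
  have hb : g * w * g⁻¹ ∈ R := (Subgroup.mem_normalizer_iff.mp (C.BR hg) w).mp hw
  unfold Fix at hF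
  push Not at hF
  obtain ⟨e, he, hne⟩ := hF
  have hf := conj_inv_mem_of_normalizer C.BT hg he
  have key : τ e (π (g * w * g⁻¹)) = τ g (τ (g⁻¹ * e * g) (π w)) := by
    rw [← C.sect.τ_π g hg w hw, ← Module.End.mul_apply, ← C.sect.τ_mul _ (C.TB he) _ hg, ← Module.End.mul_apply,
      ← C.sect.τ_mul _ hg _ (C.TB hf)]
    congr 2
    group
  have hgp : τ g (π w) = π (g * w * g⁻¹) := C.sect.τ_π g hg w hw
  rcases hne with ⟨h1, h2⟩ | ⟨h1, h2⟩
  · -- `g⁻¹ e g` positive, `e` negative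
    have h3 := (hwt e he).resolve_left h2
    exact (C.comm_of_signs hb hw he (by rw [key, h1, hgp]) h3).symm
  · -- `g⁻¹ e g` negative, `e` positive
    have h3 := (hwt _ hf).resolve_left h1
    exact C.comm_of_signs hw hb he h2 (by rw [key, h3, map_neg, hgp])

/-- The `⟨x⟩`-conjugates of `w`. -/
def conjSet (x w : G) : Set G := {c | ∃ u ∈ Subgroup.zpowers x, c = u * w * u⁻¹}

/-- If `w` commutes with all its `⟨x⟩`-conjugates, then the last power of `x` fixes `π w`. -/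
theorem Ctx.fixed_of_comm (C : Ctx q n R Z B T τ π) {x w : G} (hx : x ∈ B) (hx2 : ∃ k, x ^ 2 ^ k = 1) (hw : w ∈ R)
    (hc : ∀ u ∈ Subgroup.zpowers x, w * (u * w * u⁻¹) = (u * w * u⁻¹) * w) :
    τ (x ^ 2 ^ n) (π w) = π w := by
  have hzB : ∀ u ∈ Subgroup.zpowers x, u ∈ B := fun u hu =>
    (Subgroup.zpowers_le.mpr hx) hu
  have hle : Subgroup.closure (conjSet x w) ≤ R := by
    rw [Subgroup.closure_le]
    rintro c ⟨u, hu, rfl⟩
    exact (Subgroup.mem_normalizer_iff.mp (C.BR (hzB u hu)) w).mp hw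
  have hab : ∀ a ∈ Subgroup.closure (conjSet x w), ∀ b ∈ Subgroup.closure (conjSet x w), a * b = b * a := by
    refine Cfsg.Agent.Lib.Gross.QZero.comm_of_closure ?_
    rintro _ ⟨u₁, hu₁, rfl⟩ _ ⟨u₂, hu₂, rfl⟩
    have h := hc (u₁⁻¹ * u₂) (Subgroup.mul_mem _ (Subgroup.inv_mem _ hu₁) hu₂)
    calc u₁ * w * u₁⁻¹ * (u₂ * w * u₂⁻¹)
        = u₁ * (w * ((u₁⁻¹ * u₂) * w * (u₁⁻¹ * u₂)⁻¹)) * u₁⁻¹ := by group
      _ = u₁ * (((u₁⁻¹ * u₂) * w * (u₁⁻¹ * u₂)⁻¹) * w) * u₁⁻¹ := by rw [h]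
      _ = u₂ * w * u₂⁻¹ * (u₁ * w * u₁⁻¹) := by group
  have hconj : ∀ s ∈ Subgroup.zpowers x, ∀ a ∈ Subgroup.closure (conjSet x w),
      s * a * s⁻¹ ∈ Subgroup.closure (conjSet x w) := by
    intro s hs a ha
    induction ha using Subgroup.closure_induction with
    | mem c hc' =>
      obtain ⟨u, hu, rfl⟩ := hc'
      refine Subgroup.subset_closure ⟨s * u, Subgroup.mul_mem _ hs hu, ?_⟩
      group
    | one => simp [Subgroup.one_mem]
    | mul a b _ _ ha hb =>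
      have e1 : s * (a * b) * s⁻¹ = (s * a * s⁻¹) * (s * b * s⁻¹) := by group
      rw [e1]
      exact Subgroup.mul_mem _ ha hb
    | inv a _ ha =>
      have e1 : s * a⁻¹ * s⁻¹ = (s * a * s⁻¹)⁻¹ := by group
      rw [e1]
      exact Subgroup.inv_mem _ ha
  have hnorm : x ∈ Subgroup.normalizer ((Subgroup.closure (conjSet x w) : Subgroup G) : Set G) :=
    Cfsg.Agent.Lib.Gross.ConfigAux.mem_normalizer_of_forall
      (fun a ha => hconj x (Subgroup.mem_zpowers x) a ha)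
      (fun a ha => by
        have := hconj x⁻¹ (Subgroup.inv_mem _ (Subgroup.mem_zpowers x)) a ha
        simpa using this)
  have hwA : w ∈ Subgroup.closure (conjSet x w) := Subgroup.subset_closure ⟨1, Subgroup.one_mem _, by simp⟩
  have h := C.J x hx hx2 _ hle hab hnorm w hwA
  rw [C.sect.τ_π _ (B.pow_mem hx _) w hw, h]
  simp

/-- Main dichotomy for a commuting family. -/
theorem Ctx.fixed_of_forall (C : Ctx q n R Z B T τ π) [Finite G] {x w : G} (hx : x ∈ B) (hx2 : ∃ k, x ^ 2 ^ k = 1)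
    (hw : w ∈ R) (hwt : ∀ e ∈ T, τ e (π w) = π w ∨ τ e (π w) = -π w)
    (h : ∀ k : ℕ, x ^ k ∈ stb B T τ (π w) C.BT → τ (x ^ k) (π w) = π w ∨ τ (x ^ k) (π w) = -π w) :
    τ (x ^ 2 ^ n) (π w) = π w := by
  refine C.fixed_of_comm hx hx2 hw ?_
  intro u hu
  obtain ⟨k, rfl⟩ : ∃ k : ℕ, x ^ k = u := by
    have := (mem_powers_iff_mem_zpowers (x := x) (y := u)).mpr hu
    exact (Submonoid.mem_powers_iff _ _).mp this
  have hxk : x ^ k ∈ B := B.pow_mem hx k
  have hb : x ^ k * w * (x ^ k)⁻¹ ∈ R := (Subgroup.mem_normalizer_iff.mp (C.BR hxk) w).mp hw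
  by_cases hk : x ^ k ∈ stb B T τ (π w) C.BT
  · refine C.comm_of_sign hw hb ?_
    rw [← C.sect.τ_π _ hxk w hw]
    exact h k hk
  · exact C.comm_of_not_fix hw hxk hwt (fun hF => hk ⟨hxk, hF⟩)

theorem Ctx.pow_sign (C : Ctx q n R Z B T τ π) {y : G} {v : W} (hy : y ∈ B) (hv : τ y v = -v) (j : ℕ) :
    τ (y ^ j) v = v ∨ τ (y ^ j) v = -v := by
  induction j with
  | zero =>
    left
    rw [pow_zero, C.sect.τ_one, Module.End.one_apply]
  | succ j ih =>
    rw [pow_succ', C.sect.τ_mul _ hy _ (B.pow_mem hy j), Module.End.mul_apply]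
    rcases ih with h | h
    · right
      rw [h, hv]
    · left
      rw [h, map_neg, hv, neg_neg]

theorem dvd_of_pow_mem (H : Subgroup G) {x : G} {m d : ℕ} (hm : x ^ 2 ^ m = 1) (hd : d ≤ m) (hnot : x ^ 2 ^ d ∉ H)
    {k : ℕ} (hk : x ^ k ∈ H) : 2 ^ (d + 1) ∣ k := by
  by_contra hnd
  have hgmem : x ^ (Nat.gcd k (2 ^ m)) ∈ H := by
    have e := Nat.gcd_eq_gcd_ab k (2 ^ m)
    have h1 : x ^ ((Nat.gcd k (2 ^ m) : ℕ) : ℤ)
        = (x ^ k) ^ (Nat.gcdA k (2 ^ m)) * (x ^ (2 ^ m)) ^ (Nat.gcdB k (2 ^ m)) := by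
      rw [e, zpow_add, zpow_mul, zpow_mul, zpow_natCast, zpow_natCast]
    rw [zpow_natCast] at h1
    rw [h1, hm, one_zpow, mul_one]
    exact H.zpow_mem hk _
  obtain ⟨a, ha, hga⟩ := (Nat.dvd_prime_pow Nat.prime_two).mp (Nat.gcd_dvd_right k (2 ^ m))
  have hak : 2 ^ a ∣ k := hga ▸ Nat.gcd_dvd_left k (2 ^ m)
  have had : a ≤ d := by
    by_contra hlt
    exact hnd (Dvd.dvd.trans (pow_dvd_pow 2 (by omega)) hak)
  apply hnot
  have h2 : x ^ 2 ^ d = (x ^ 2 ^ a) ^ 2 ^ (d - a) := by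
    rw [← pow_mul, ← pow_add, Nat.add_sub_of_le had]
  rw [h2]
  exact H.pow_mem (hga ▸ hgmem) _

theorem Ctx.false_of_neg {m : ℕ} (C : Ctx q (m + 1) R Z B T τ π) [Finite G] {x w : G} (hx : x ∈ B)
    (hx2 : ∃ k, x ^ 2 ^ k = 1) (hw : w ∈ R) (hv0 : π w ≠ 0) (hwt : ∀ e ∈ T, τ e (π w) = π w ∨ τ e (π w) = -π w)
    (hy : τ (x ^ 2 ^ (m + 1)) (π w) = -π w)
    (hdiv : ∀ k, x ^ k ∈ stb B T τ (π w) C.BT → 2 ^ (m + 1) ∣ k) : False := by
  have h := C.fixed_of_forall hx hx2 hw hwt (fun k hk => by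
    obtain ⟨j, rfl⟩ := hdiv k hk
    rw [pow_mul]
    exact C.pow_sign (B.pow_mem hx _) hy j)
  rw [hy] at h
  exact hv0 (C.two _ h.symm)

/-- Powers of `t * x` modulo powers of `x`. -/
theorem Ctx.pow_mul_inv_mem (C : Ctx q n R Z B T τ π) {t x : G} (ht : t ∈ T) (hx : x ∈ B) (k : ℕ) :
    (t * x) ^ k * (x ^ k)⁻¹ ∈ T := by
  induction k with
  | zero => simp [T.one_mem]
  | succ k ih =>
    have e1 : (t * x) ^ (k + 1) * (x ^ (k + 1))⁻¹ = t * (x * ((t * x) ^ k * (x ^ k)⁻¹) * x⁻¹) := by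
      rw [pow_succ' (t * x), pow_succ' x]
      group
    rw [e1]
    exact T.mul_mem ht (conj_mem_of_normalizer C.BT hx ih)

theorem Ctx.two_element (C : Ctx q n R Z B T τ π) {t x : G} (ht : t ∈ T) (hx : x ∈ B) (hx2 : ∃ k, x ^ 2 ^ k = 1) :
    ∃ k, (t * x) ^ 2 ^ k = 1 := by
  have h1 := C.exp x hx2
  have h2 := C.pow_mul_inv_mem ht hx (2 ^ (n + 1))
  rw [h1, inv_one, mul_one] at h2
  obtain ⟨b, hb⟩ := C.T2 _ h2
  exact ⟨n + 1 + b, by rw [pow_add, pow_mul, hb]⟩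

theorem pow_two_split (g x : G) (m : ℕ) : g ^ 2 ^ (m + 1) * (x ^ 2 ^ (m + 1))⁻¹
    = (g ^ 2 ^ m * (x ^ 2 ^ m)⁻¹) * (x ^ 2 ^ m * (g ^ 2 ^ m * (x ^ 2 ^ m)⁻¹) * (x ^ 2 ^ m)⁻¹) := by
  rw [pow_succ 2 m, pow_mul, pow_mul, pow_two, pow_two]
  generalize g ^ 2 ^ m = a
  generalize x ^ 2 ^ m = b
  group

/-- The core of the argument. -/
theorem Ctx.false_of_weight {m : ℕ} (C : Ctx q (m + 1) R Z B T τ π) [Finite G] {x t : G} {v : W} (hx : x ∈ B)
    (hx2 : ∃ k, x ^ 2 ^ k = 1) (ht : t ∈ T) (hv0 : v ≠ 0) (hwt : ∀ e ∈ T, τ e v = v ∨ τ e v = -v)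
    (hν : τ ((t * x) ^ 2 ^ (m + 1) * (x ^ 2 ^ (m + 1))⁻¹) v = -v) : False := by
  obtain ⟨w, hw, rfl⟩ := C.sect.π_surj v
  have hxm : x ^ 2 ^ (m + 1 + 1) = 1 := C.exp x hx2
  have hyB : x ^ 2 ^ (m + 1) ∈ B := B.pow_mem hx _
  by_cases hyH : x ^ 2 ^ (m + 1) ∈ stb B T τ (π w) C.BT
  · by_cases huH : x ^ 2 ^ m ∈ stb B T τ (π w) C.BT
    · -- the weight is fixed by `x ^ 2 ^ m`: `ν` is a product of two terms of the same weight
      have hν₁T := C.pow_mul_inv_mem ht hx (2 ^ m)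
      have huB : x ^ 2 ^ m ∈ B := B.pow_mem hx _
      rw [pow_two_split] at hν
      generalize (t * x) ^ 2 ^ m * (x ^ 2 ^ m)⁻¹ = ν₁ at hν hν₁T
      generalize x ^ 2 ^ m = u at hν huH huB
      have hfT : u * ν₁ * u⁻¹ ∈ T := conj_mem_of_normalizer C.BT huB hν₁T
      rw [C.sect.τ_mul _ (C.TB hν₁T) _ (C.TB hfT), Module.End.mul_apply] at hν
      have hfix := (mem_stb.mp (Subgroup.inv_mem _ huH)).2 ν₁ hν₁T
      rw [inv_inv] at hfix
      by_cases hp : τ ν₁ (π w) = π w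
      · rw [hfix.mpr hp, hp] at hν
        exact hv0 (C.two _ hν)
      · have hp1 := (hwt _ hν₁T).resolve_left hp
        have hp2 := (hwt _ hfT).resolve_left (fun h => hp (hfix.mp h))
        rw [hp2, map_neg, hp1, neg_neg] at hν
        exact hv0 (C.two _ hν)
    · have hdiv : ∀ k, x ^ k ∈ stb B T τ (π w) C.BT → 2 ^ (m + 1) ∣ k := fun k hk =>
        dvd_of_pow_mem _ hxm (by omega) huH hk
      by_cases hyv : τ (x ^ 2 ^ (m + 1)) (π w) = π w
      · -- replace `x` by `t * x`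
        have htB := C.TB ht
        have hx' : t * x ∈ B := B.mul_mem htB hx
        have hν' : (t * x) ^ 2 ^ (m + 1) * (x ^ 2 ^ (m + 1))⁻¹ ∈ T := C.pow_mul_inv_mem ht hx _
        refine C.false_of_neg hx' (C.two_element ht hx hx2) hw hv0 hwt ?_ ?_
        · have e1 : (t * x) ^ 2 ^ (m + 1) = ((t * x) ^ 2 ^ (m + 1) * (x ^ 2 ^ (m + 1))⁻¹) * x ^ 2 ^ (m + 1) :=
            (inv_mul_cancel_right _ _).symm
          rw [e1, C.sect.τ_mul _ (C.TB hν') _ hyB, Module.End.mul_apply, hyv, hν]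
        · intro k hk
          apply hdiv
          have h1 := C.T_le_stb (π w) (C.pow_mul_inv_mem ht hx k)
          have e1 : x ^ k = ((t * x) ^ k * (x ^ k)⁻¹)⁻¹ * (t * x) ^ k := by simp
          rw [e1]
          exact Subgroup.mul_mem _ (Subgroup.inv_mem _ h1) hk
      · -- replace `v` by `v - y v`
        have hyy : τ (x ^ 2 ^ (m + 1)) (τ (x ^ 2 ^ (m + 1)) (π w)) = π w := by
          rw [← Module.End.mul_apply, ← C.sect.τ_mul _ hyB _ hyB, ← pow_add, ← two_mul, ← pow_succ', hxm,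
            C.sect.τ_one, Module.End.one_apply]
        obtain ⟨w', hw', hw'v⟩ := C.sect.π_surj (π w - τ (x ^ 2 ^ (m + 1)) (π w))
        have hv'0 : π w' ≠ 0 := by
          rw [hw'v]
          exact sub_ne_zero.mpr (Ne.symm hyv)
        have hsign : ∀ e ∈ T, (τ e (π w) = π w → τ e (π w') = π w') ∧ (τ e (π w) = -π w → τ e (π w') = -π w') := by
          intro e he
          have hf := conj_inv_mem_of_normalizer C.BT hyB he
          have key : τ e (τ (x ^ 2 ^ (m + 1)) (π w)) = τ (x ^ 2 ^ (m + 1)) (τ ((x ^ 2 ^ (m + 1))⁻¹ * e * x ^ 2 ^ (m + 1)) (π w)) := by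
            rw [← Module.End.mul_apply, ← C.sect.τ_mul _ (C.TB he) _ hyB, ← Module.End.mul_apply,
              ← C.sect.τ_mul _ hyB _ (C.TB hf)]
            congr 2
            group
          have hfix := (mem_stb.mp hyH).2 e he
          constructor
          · intro h1
            rw [hw'v, map_sub, h1, key, hfix.mpr h1]
          · intro h1
            have h2 : τ e (π w) ≠ π w := by
              intro h3
              rw [h1] at h3
              exact hv0 (C.two _ h3.symm)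
            have h3 := (hwt _ hf).resolve_left (fun h => h2 (hfix.mp h))
            rw [hw'v, map_sub, h1, key, h3, map_neg]
            abel
        have hwt' : ∀ e ∈ T, τ e (π w') = π w' ∨ τ e (π w') = -π w' := fun e he =>
          (hwt e he).imp (hsign e he).1 (hsign e he).2
        have hpos : ∀ e ∈ T, (τ e (π w') = π w' ↔ τ e (π w) = π w) := by
          intro e he
          constructor
          · intro h1
            by_contra h2
            have h3 := (hsign e he).2 ((hwt e he).resolve_left h2)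
            rw [h1] at h3
            exact hv'0 (C.two _ h3)
          · exact (hsign e he).1
        refine C.false_of_neg hx hx2 hw' hv'0 hwt' ?_ ?_
        · rw [hw'v, map_sub, hyy]
          abel
        · intro k hk
          apply hdiv
          refine ⟨(mem_stb.mp hk).1, fun e he => ?_⟩
          have h1 := (mem_stb.mp hk).2 e he
          have hf := conj_inv_mem_of_normalizer C.BT (mem_stb.mp hk).1 he
          rw [hpos _ hf, hpos _ he] at h1
          exact h1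
  · have hdiv : ∀ k, x ^ k ∈ stb B T τ (π w) C.BT → 2 ^ (m + 1 + 1) ∣ k := fun k hk =>
      dvd_of_pow_mem _ hxm (by omega) hyH hk
    have h := C.fixed_of_forall hx hx2 hw hwt (fun k hk => by
      left
      obtain ⟨j, rfl⟩ := hdiv k hk
      rw [pow_mul, hxm, one_pow, C.sect.τ_one, Module.End.one_apply])
    apply hyH
    refine ⟨hyB, fun e he => ?_⟩
    have hf := conj_inv_mem_of_normalizer C.BT hyB he
    have key : τ e (τ (x ^ 2 ^ (m + 1)) (π w)) = τ (x ^ 2 ^ (m + 1)) (τ ((x ^ 2 ^ (m + 1))⁻¹ * e * x ^ 2 ^ (m + 1)) (π w)) := by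
      rw [← Module.End.mul_apply, ← C.sect.τ_mul _ (C.TB he) _ hyB, ← Module.End.mul_apply,
        ← C.sect.τ_mul _ hyB _ (C.TB hf)]
      congr 2
      group
    rw [h] at key
    constructor
    · intro h1
      rw [h1, h] at key
      exact key
    · intro h1
      rw [h1] at key
      have h2 : τ (x ^ 2 ^ (m + 1)) (τ (x ^ 2 ^ (m + 1)) (τ ((x ^ 2 ^ (m + 1))⁻¹ * e * x ^ 2 ^ (m + 1)) (π w))) = π w := by
        rw [← key, h]
      have hyy : τ (x ^ 2 ^ (m + 1)) * τ (x ^ 2 ^ (m + 1)) = 1 := by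
        rw [← C.sect.τ_mul _ hyB _ hyB, ← pow_add, ← two_mul, ← pow_succ', hxm, C.sect.τ_one]
      rw [← Module.End.mul_apply, hyy, Module.End.one_apply] at h2
      exact h2

/-- An element of `T` acting trivially on the module centralizes `R`. -/
theorem Ctx.centralizes_of_trivial (C : Ctx q n R Z B T τ π) {e : G} (he : e ∈ T) (h : ∀ u, τ e u = u) :
    ∀ r ∈ R, e * r = r * e := by
  intro r hr
  have heB := C.TB he
  have hr' : e * r * e⁻¹ ∈ R := (Subgroup.mem_normalizer_iff.mp (C.BR heB) r).mp hr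
  have hz : r⁻¹ * (e * r * e⁻¹) ∈ Z := C.sect.mem_of_eq hr hr' (by rw [← C.sect.τ_π e heB r hr, h])
  set z := r⁻¹ * (e * r * e⁻¹) with hzd
  have hzR : z ∈ R := R.mul_mem (R.inv_mem hr) hr'
  have hez : e * z * e⁻¹ = z := by rw [C.TZ e he z hz]; group
  have hpow : ∀ j : ℕ, e ^ j * r * (e ^ j)⁻¹ = r * z ^ j := by
    intro j
    induction j with
    | zero => simp
    | succ j ih =>
      have e1 : e * z ^ j * e⁻¹ = z ^ j := by
        have : e * z ^ j * e⁻¹ = (e * z * e⁻¹) ^ j := by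
          rw [conj_pow]
        rw [this, hez]
      calc e ^ (j + 1) * r * (e ^ (j + 1))⁻¹ = e * (e ^ j * r * (e ^ j)⁻¹) * e⁻¹ := by
            rw [pow_succ' e]; group
        _ = e * (r * z ^ j) * e⁻¹ := by rw [ih]
        _ = (e * r * e⁻¹) * (e * z ^ j * e⁻¹) := by group
        _ = (r * z) * z ^ j := by rw [e1]; congr 1; rw [hzd]; group
        _ = r * z ^ (j + 1) := by rw [pow_succ' z]; group
  obtain ⟨k, hk⟩ := C.T2 e he
  have h1 := hpow (2 ^ k)
  rw [hk] at h1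
  have h2 : z ^ 2 ^ k = 1 := by simpa using h1
  have h3 : ∀ k : ℕ, z ^ 2 ^ k = 1 → z = 1 := by
    intro k
    induction k with
    | zero => simp
    | succ k ih =>
      intro hk
      apply ih
      apply C.odd _ (R.pow_mem hzR _)
      rw [← pow_add, ← two_mul, ← pow_succ']
      exact hk
  have h4 : z = 1 := h3 k h2
  rw [hzd] at h4
  have h5 : r = e * r * e⁻¹ := inv_mul_eq_one.mp h4
  exact (eq_mul_inv_iff_mul_eq.mp h5).symm

end Abstract

/-- **Abelian lines.** If `T₀` acts on `R₁` as an elementary abelian group, the norm `ν` centralizes `R₁`. -/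
theorem core_AL {K : Type u} [Field K] [IsAlgClosed K] [CharP K 2] {V : Type v} [AddCommGroup V] [Module K V]
    [FiniteDimensional K V] {G : Type w} [Group G] [Finite G] {ρ : G →* End K V} {n q : ℕ}
    {B That T₀ D R₁ Ks : Subgroup G} (S : Setup ρ n q B That T₀ D R₁ Ks)
    (hAb : ∀ a ∈ T₀, ∀ b ∈ T₀, ∀ r ∈ R₁, (a * b * a⁻¹ * b⁻¹) * r = r * (a * b * a⁻¹ * b⁻¹))
    (hSq : ∀ a ∈ T₀, ∀ r ∈ R₁, (a * a) * r = r * (a * a))
    (x : G) (hx : x ∈ B) (hx2 : ∃ k, x ^ 2 ^ k = 1) (t : G) (ht : t ∈ T₀) :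
    ∀ r ∈ R₁, ((t * x) ^ 2 ^ n * (x ^ 2 ^ n)⁻¹) * r = r * ((t * x) ^ 2 ^ n * (x ^ 2 ^ n)⁻¹) := by
  classical
  haveI hqF := q_fact S
  have hT2 : ∀ g ∈ T₀, ∃ k, g ^ 2 ^ k = 1 := by
    intro g hg
    obtain ⟨k, hk⟩ := T₀_two S ⟨g, hg⟩
    exact ⟨k, by simpa using congrArg Subtype.val hk⟩
  -- the case `n = 0`
  rcases Nat.eq_zero_or_pos n with rfl | hnpos
  · have hall : ∀ g : G, (∃ k, g ^ 2 ^ k = 1) → g = 1 := by
      intro g hg
      have h1 := S.norm g hg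
      have h1' : ρ g - 1 = 0 := by simpa using h1
      have h2 : ρ g = ρ 1 := by
        rw [map_one]
        exact sub_eq_zero.mp h1'
      exact S.inj h2
    rw [hall x hx2, hall t (hT2 t ht)]
    simp
  obtain ⟨m, rfl⟩ : ∃ m, n = m + 1 := ⟨n - 1, by omega⟩
  intro r hr
  by_contra hcontra
  obtain ⟨W, i1, i2, τ, π, hS⟩ := exists_sect R₁ S.R₁_q
  have hBR := S.nR₁
  have hTB := T₀_le_B S
  have hq2 : q ≠ 2 := S.q_ne
  have hS' : Sect q R₁ (Z1 R₁) B τ π :=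
    { τ_one := hS.τ_one
      τ_mul := fun g hg h hh => hS.τ_mul g (hBR hg) h (hBR hh)
      π_mul := hS.π_mul
      π_surj := hS.π_surj
      π_zero := hS.π_zero
      τ_π := fun g hg => hS.τ_π g (hBR hg) }
  have hconjR : ∀ g ∈ B, ∀ a ∈ R₁, g * a * g⁻¹ ∈ R₁ := fun g hg a ha =>
    (Subgroup.mem_normalizer_iff.mp (hBR hg) a).mp ha
  have hcop : Nat.Coprime q 2 := (Nat.coprime_primes S.q_prime Nat.prime_two).mpr hq2
  have C : Ctx q (m + 1) R₁ (Z1 R₁) B T₀ τ π :=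
    { sect := hS'
      TB := hTB
      BT := S.nT₀
      BR := hBR
      two := by
        intro v hv
        have h2 : (2 : ZMod q) ≠ 0 := by
          intro h
          have h3 : ((2 : ℕ) : ZMod q) = 0 := by exact_mod_cast h
          rw [ZMod.natCast_eq_zero_iff] at h3
          exact hq2 ((Nat.prime_dvd_prime_iff_eq S.q_prime Nat.prime_two).mp h3)
        have h3 : (2 : ZMod q) • v = 0 := by
          rw [two_smul]
          nth_rewrite 1 [hv]
          exact neg_add_cancel v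
        exact (smul_eq_zero.mp h3).resolve_left h2
      inv := by
        intro e he v
        obtain ⟨a, ha, rfl⟩ := hS'.π_surj v
        have heB := hTB he
        rw [hS'.τ_π e heB a ha, hS'.τ_π e heB _ (hconjR e heB a ha)]
        have e1 : e * (e * a * e⁻¹) * e⁻¹ = (e * e) * a * (e * e)⁻¹ := by group
        rw [e1, hSq e he a ha]
        congr 1
        group
      comm := by
        intro a ha b hb v
        obtain ⟨r', hr', rfl⟩ := hS'.π_surj v
        have haB := hTB ha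
        have hbB := hTB hb
        rw [hS'.τ_π b hbB r' hr', hS'.τ_π a haB _ (hconjR b hbB r' hr'), hS'.τ_π a haB r' hr',
          hS'.τ_π b hbB _ (hconjR a haB r' hr')]
        have hr₂ : b * (a * r' * a⁻¹) * b⁻¹ ∈ R₁ := hconjR b hbB _ (hconjR a haB r' hr')
        have h1 := hAb a ha b hb _ hr₂
        congr 1
        calc a * (b * r' * b⁻¹) * a⁻¹
            = (a * b * a⁻¹ * b⁻¹) * (b * (a * r' * a⁻¹) * b⁻¹) * (a * b * a⁻¹ * b⁻¹)⁻¹ := by group
          _ = (b * (a * r' * a⁻¹) * b⁻¹) * (a * b * a⁻¹ * b⁻¹) * (a * b * a⁻¹ * b⁻¹)⁻¹ := by rw [h1]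
          _ = b * (a * r' * a⁻¹) * b⁻¹ := by group
      Zc := Z1_central S
      Rc := fun a ha b hb => comm_mem_Z1 S.R₁_q ha hb
      TZ := T₀_Z1 S
      odd := by
        intro c hc hcc
        obtain ⟨k, hk⟩ := S.R₁_q ⟨c, hc⟩
        have h1 : c ^ q ^ k = 1 := by simpa using congrArg Subtype.val hk
        have h2 : c ^ 2 = 1 := by rw [pow_two]; exact hcc
        have h3 := pow_gcd_eq_one.mpr ⟨h1, h2⟩
        rw [(hcop.pow_left k).gcd_eq_one, pow_one] at h3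
        exact h3
      T2 := hT2
      exp := S.exp
      J := by
        intro x' _ hx2' A₀ hle hab hnorm
        exact J_ab ρ S.inj (m + 1) hq2 A₀ (S.R₁_q.to_le hle) hab x' hnorm (S.exp x' hx2') (S.norm x' hx2') }
  have hνT : (t * x) ^ 2 ^ (m + 1) * (x ^ 2 ^ (m + 1))⁻¹ ∈ T₀ := C.pow_mul_inv_mem ht hx _
  have hu : ∃ u, τ ((t * x) ^ 2 ^ (m + 1) * (x ^ 2 ^ (m + 1))⁻¹) u ≠ u := by
    by_contra hno
    push Not at hno
    exact hcontra (C.centralizes_of_trivial hνT hno r hr)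
  obtain ⟨v, hv0, hνv, hwt⟩ := C.exists_weight hνT hu
  exact C.false_of_weight hx hx2 ht hv0 hwt hνv

end Cfsg.Agent.Lib.Bry.AL
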