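/-
Bryukhanova's theorem: the norm-like products `N t i = (t x) ^ i (x ^ i)⁻¹`.
-/
import Cfsg.Agent.Lib.Bry.Basic

set_option autoImplicit false

namespace Cfsg.Agent.Lib.Bry.NormMap

open Module Cfsg.Agent.Lib.Bry.Setup Cfsg.Agent.Lib.Bry.Basic
  Cfsg.Agent.Lib.HallHigman.Irr Cfsg.Agent.Lib.Gross.ConfigAux Cfsg.Agent.Lib.Coprime.Action
open scoped commutatorElement

universe w

variable {G : Type w} [Group G]

/-- The recursion for `N`. -/
theorem N_succ (t x : G) (i : ℕ) :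
    (t * x) ^ (i + 1) * (x ^ (i + 1))⁻¹ = t * (x * ((t * x) ^ i * (x ^ i)⁻¹) * x⁻¹) := by
  rw [pow_succ' (t * x) i, pow_succ' x i]
  group

/-- `N` stays in a subgroup normalized by `x` containing `t`. -/
theorem N_mem {T : Subgroup G} {x t : G} (hx : x ∈ Subgroup.normalizer (T : Set G)) (ht : t ∈ T) (i : ℕ) :
    (t * x) ^ i * (x ^ i)⁻¹ ∈ T := by
  induction i with
  | zero => simp
  | succ i ih =>
    rw [N_succ]
    exact T.mul_mem ht (conj_mem_of_mem_normalizer hx ih)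

/-- `N t` and `N t⁻¹` are inverse modulo the derived subgroup. -/
theorem N_mul_N_inv {T : Subgroup G} {x t : G} (hx : x ∈ Subgroup.normalizer (T : Set G)) (ht : t ∈ T) (i : ℕ) :
    ((t * x) ^ i * (x ^ i)⁻¹) * ((t⁻¹ * x) ^ i * (x ^ i)⁻¹) ∈ (⁅T, T⁆ : Subgroup G) := by
  induction i with
  | zero =>
    simp
  | succ i ih =>
    rw [N_succ, N_succ]
    set A := (t * x) ^ i * (x ^ i)⁻¹ with hA
    set A' := (t⁻¹ * x) ^ i * (x ^ i)⁻¹ with hA'
    have hAT : A ∈ T := N_mem hx ht i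
    have hxA : x * A * x⁻¹ ∈ T := conj_mem_of_mem_normalizer hx hAT
    have e : t * (x * A * x⁻¹) * (t⁻¹ * (x * A' * x⁻¹)) =
        ⁅t, x * A * x⁻¹⁆ * (x * (A * A') * x⁻¹) := by
      rw [commutatorElement_def]
      group
    rw [e]
    refine Subgroup.mul_mem _ (Subgroup.commutator_mem_commutator ht hxA) ?_
    have hxT : Subgroup.zpowers x ≤ Subgroup.normalizer (T : Set G) := Subgroup.zpowers_le.mpr hx
    have hx2 : x ∈ Subgroup.normalizer (((⁅T, T⁆ : Subgroup G) : Subgroup G) : Set G) :=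
      le_normalizer_commutator_of_le hxT hxT (Subgroup.mem_zpowers x)
    exact conj_mem_of_mem_normalizer hx2 ih

/-- Elements of `T₀ ⟨x⟩` are `2`-elements. -/
theorem two_element_mul {T : Subgroup G} [Finite G] {x t : G} (hT : IsPGroup 2 T)
    (hx : x ∈ Subgroup.normalizer (T : Set G)) (ht : t ∈ T) (hx2 : ∃ k, x ^ 2 ^ k = 1) : ∃ k, (t * x) ^ 2 ^ k = 1 := by
  haveI h2p : Fact (Nat.Prime 2) := ⟨Nat.prime_two⟩
  obtain ⟨k, hk⟩ := hx2
  have hP : IsPGroup 2 ((Subgroup.zpowers x ⊔ T : Subgroup G)) :=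
    IsPGroup.to_sup_of_normal_right' (isPGroup_zpowers hk) hT (Subgroup.zpowers_le.mpr hx)
  have hmem : t * x ∈ (Subgroup.zpowers x ⊔ T : Subgroup G) :=
    Subgroup.mul_mem _ ((le_sup_right : T ≤ _) ht) ((le_sup_left : Subgroup.zpowers x ≤ _) (Subgroup.mem_zpowers x))
  obtain ⟨k, hk⟩ := hP ⟨t * x, hmem⟩
  exact ⟨k, congrArg Subtype.val hk⟩

end Cfsg.Agent.Lib.Bry.NormMap
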