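/-
Bryukhanova's theorem, abstract plane lemma (Part II of the blueprint, forum topic bry-s4258).
A group `Γ` acts on `W`; `P₁` is the `-1` eigenspace of the involution `y₀ = z ^ 2 ^ (k - 1)`.
-/
import Mathlib

set_option autoImplicit false
set_option linter.unusedSectionVars false

namespace Cfsg.Agent.Lib.Bry.Plane

open Module

universe u v w

variable {F : Type u} [Field F] {W : Type v} [AddCommGroup W] [Module F W] [FiniteDimensional F W]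
  {Γ : Type w} [Group Γ]

/-- The `-1` eigenspace of an operator. -/
abbrev minusSpace (t : End F W) : Submodule F W := LinearMap.ker (t + 1)

/-- The data of the plane lemma. -/
structure PlaneData (τ : Γ →* End F W) (T₀ D : Subgroup Γ) (z : Γ) (k : ℕ) : Prop where
  two : (2 : F) ≠ 0
  hk : 2 ≤ k
  hDT : D ≤ T₀
  h2 : ∀ g ∈ T₀, ∃ s : ℕ, g ^ 2 ^ s = 1
  hDc : ∀ d ∈ D, ∀ g ∈ T₀, d * g = g * d
  hsq : ∀ g ∈ T₀, g * g ∈ D
  hcm : ∀ a ∈ T₀, ∀ b ∈ T₀, a * b * a⁻¹ * b⁻¹ ∈ D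
  hzT : ∀ g ∈ T₀, z * g * z⁻¹ ∈ T₀
  hzT' : ∀ g ∈ T₀, z⁻¹ * g * z ∈ T₀
  hzD : ∀ d ∈ D, z * d * z⁻¹ ∈ D
  hzD' : ∀ d ∈ D, z⁻¹ * d * z ∈ D
  hy0 : ∀ g ∈ T₀, z ^ 2 ^ (k - 1) * g * (z ^ 2 ^ (k - 1))⁻¹ * g⁻¹ ∈ D
  hy2 : τ (z ^ 2 ^ (k - 1)) * τ (z ^ 2 ^ (k - 1)) = 1
  hP : finrank F (minusSpace (τ (z ^ 2 ^ (k - 1)))) = 2
  hz1 : ∀ v, τ (z ^ 2 ^ (k - 1)) v = v → τ z v = v
  hIso : ∀ t : Γ, (∀ v ∈ minusSpace (τ (z ^ 2 ^ (k - 1))), τ t v ∈ minusSpace (τ (z ^ 2 ^ (k - 1)))) →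
    (∀ v ∈ minusSpace (τ (z ^ 2 ^ (k - 1))), τ t (τ t v) = v) →
    (∀ v ∈ minusSpace (τ (z ^ 2 ^ (k - 1))), τ t v = v) ∨ (∀ v ∈ minusSpace (τ (z ^ 2 ^ (k - 1))), τ t v = -v)

/-- The set of admissible `m`: closed under `m ↦ m⁻¹ * d`. -/
structure Admissible (τ : Γ →* End F W) (T₀ D : Subgroup Γ) (z : Γ) (k : ℕ) (M : Set Γ) : Prop where
  hMT : ∀ m ∈ M, m ∈ T₀
  hMν : ∀ m ∈ M, (m * z) ^ 2 ^ (k - 1) * (z ^ 2 ^ (k - 1))⁻¹ ∈ T₀
  hM2 : ∀ m ∈ M, τ ((m * z) ^ 2 ^ (k - 1)) * τ ((m * z) ^ 2 ^ (k - 1)) = 1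
  hMr : ∀ m ∈ M, finrank F (minusSpace (τ ((m * z) ^ 2 ^ (k - 1)))) ≤ 2
  hMp : ∀ m ∈ M, ∃ d ∈ D, d * d = 1 ∧ m⁻¹ * d ∈ M

section aux

variable (τ : Γ →* End F W)

theorem mem_minus {t : End F W} {v : W} : v ∈ minusSpace t ↔ t v = -v := by
  simp only [minusSpace, LinearMap.mem_ker, LinearMap.add_apply, Module.End.one_apply]
  exact add_eq_zero_iff_eq_neg

theorem tm (a b : Γ) (v : W) : τ (a * b) v = τ a (τ b v) := by
  rw [map_mul, Module.End.mul_apply]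

theorem tii (g : Γ) (v : W) : τ g⁻¹ (τ g v) = v := by
  rw [← tm, inv_mul_cancel, map_one, Module.End.one_apply]

theorem tii' (g : Γ) (v : W) : τ g (τ g⁻¹ v) = v := by
  rw [← tm, mul_inv_cancel, map_one, Module.End.one_apply]

theorem tinj (g : Γ) {v w : W} (h : τ g v = τ g w) : v = w := by
  have := congrArg (τ g⁻¹) h
  rwa [tii, tii] at this

end aux

/-- The working context, with `y` abstracted and eigenspace membership unfolded. -/
structure Ctx (τ : Γ →* End F W) (T₀ D : Subgroup Γ) (z y : Γ) : Prop where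
  two : (2 : F) ≠ 0
  hDT : D ≤ T₀
  h2 : ∀ g ∈ T₀, ∃ s : ℕ, g ^ 2 ^ s = 1
  hDc : ∀ d ∈ D, ∀ g ∈ T₀, d * g = g * d
  hsq : ∀ g ∈ T₀, g * g ∈ D
  hcm : ∀ a ∈ T₀, ∀ b ∈ T₀, a * b * a⁻¹ * b⁻¹ ∈ D
  hzT' : ∀ g ∈ T₀, z⁻¹ * g * z ∈ T₀
  hzD' : ∀ d ∈ D, z⁻¹ * d * z ∈ D
  hy0 : ∀ g ∈ T₀, y * g * y⁻¹ * g⁻¹ ∈ D
  hy2 : ∀ v, τ y (τ y v) = v
  hne : ∃ v, τ y v = -v ∧ v ≠ 0
  hz1 : ∀ v, τ y v = v → τ z v = v
  hzy : z * y = y * z
  hIso : ∀ t : Γ, (∀ v, τ y v = -v → τ y (τ t v) = -(τ t v)) → (∀ v, τ y v = -v → τ t (τ t v) = v) →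
    (∀ v, τ y v = -v → τ t v = v) ∨ (∀ v, τ y v = -v → τ t v = -v)
  hsqz : ¬ ∀ v, τ y v = -v → τ z (τ z v) = v

namespace Ctx

variable {τ : Γ →* End F W} {T₀ D : Subgroup Γ} {z y : Γ}

theorem eq_zero (C : Ctx τ T₀ D z y) {v : W} (h : v = -v) : v = 0 := by
  have h2 : (2 : F) • v = 0 := by
    rw [two_smul]
    nth_rewrite 1 [h]
    simp
  rcases smul_eq_zero.1 h2 with h3 | h3
  · exact absurd h3 C.two
  · exact h3

theorem yinv (C : Ctx τ T₀ D z y) (v : W) : τ y⁻¹ v = τ y v := by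
  apply tinj τ y
  rw [tii', C.hy2]

theorem no_all (C : Ctx τ T₀ D z y) : ¬ ∀ v, τ y v = -v → τ y v = v := by
  intro h
  obtain ⟨v, hv, hv0⟩ := C.hne
  apply hv0
  apply C.eq_zero
  nth_rewrite 1 [← h v hv]
  exact hv

theorem z_pres (C : Ctx τ T₀ D z y) {v : W} (hv : τ y v = -v) : τ y (τ z v) = -(τ z v) := by
  rw [← tm, ← C.hzy, tm, hv, map_neg]

theorem zi_pres (C : Ctx τ T₀ D z y) {v : W} (hv : τ y v = -v) : τ y (τ z⁻¹ v) = -(τ z⁻¹ v) := by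
  have hc : y * z⁻¹ = z⁻¹ * y := by
    have := C.hzy
    calc y * z⁻¹ = z⁻¹ * (z * y) * z⁻¹ := by group
      _ = z⁻¹ * (y * z) * z⁻¹ := by rw [this]
      _ = z⁻¹ * y := by group
  rw [← tm, hc, tm, hv, map_neg]

/-- `y` inverts the powers of an element it inverts. -/
theorem inv_pow_rel (C : Ctx τ T₀ D z y) (d : Γ) (h : ∀ v, τ y (τ d (τ y v)) = τ d⁻¹ v) (n : ℕ) :
    ∀ v, τ y (τ (d ^ n) (τ y v)) = τ (d ^ n)⁻¹ v := by
  induction n with
  | zero =>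
    intro v
    simp only [pow_zero, map_one, Module.End.one_apply, inv_one]
    exact C.hy2 v
  | succ n ih =>
    intro v
    have e : (d ^ (n + 1))⁻¹ = d⁻¹ * (d ^ n)⁻¹ := by
      rw [pow_succ, mul_inv_rev]
    rw [e, pow_succ', tm, tm, ← h, ← ih, C.hy2]

theorem delta_rel (C : Ctx τ T₀ D z y) (g : Γ) (v : W) :
    τ y (τ (y * g * y⁻¹ * g⁻¹) (τ y v)) = τ (y * g * y⁻¹ * g⁻¹)⁻¹ v := by
  have e : (y * g * y⁻¹ * g⁻¹)⁻¹ = g * y * g⁻¹ * y⁻¹ := by group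
  rw [e]
  simp only [tm, C.hy2, C.yinv]

theorem dc (C : Ctx τ T₀ D z y) {d g : Γ} (hd : d ∈ D) (hg : g ∈ T₀) (v : W) :
    τ d (τ g v) = τ g (τ d v) := by
  rw [← tm, C.hDc d hd g hg, tm]

theorem zi_fix (C : Ctx τ T₀ D z y) {v : W} (hv : τ y v = v) : τ z⁻¹ v = v := by
  apply tinj τ z
  rw [tii', C.hz1 v hv]

theorem square_step (C : Ctx τ T₀ D z y) {d₁ : Γ} (hd : d₁ ∈ D)
    (h1 : ∀ v, τ y (τ d₁ (τ y v)) = τ d₁⁻¹ v)
    (hee : ∀ v, τ d₁ (τ d₁ (τ d₁ (τ d₁ v))) = v)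
    (hw : ∃ w, τ d₁ (τ d₁ w) ≠ w) : False := by
  obtain ⟨w, hw⟩ := hw
  have hL : ∀ v, τ d₁ (τ d₁ v) = -v → τ d₁⁻¹ v = -τ d₁ v := by
    intro v hv
    apply tinj τ d₁
    rw [tii', map_neg, hv, neg_neg]
  have hii : ∀ x, τ d₁⁻¹ (τ d₁⁻¹ x) = τ d₁ (τ d₁ x) := by
    intro x
    apply tinj τ d₁
    apply tinj τ d₁
    rw [tii', tii', hee]
  have hce : ∀ v, τ y (τ d₁ (τ d₁ v)) = τ d₁ (τ d₁ (τ y v)) := by
    intro v
    have a1 : τ y (τ d₁ (τ d₁ v)) = τ d₁⁻¹ (τ y (τ d₁ v)) := by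
      rw [← h1, C.hy2]
    have a2 : τ y (τ d₁ v) = τ d₁⁻¹ (τ y v) := by
      rw [← h1, C.hy2]
    rw [a1, a2, hii]
  have hex : ∃ v, τ y v = -v ∧ τ d₁ (τ d₁ v) = -v ∧ v ≠ 0 := by
    obtain ⟨u, hu⟩ : ∃ u, u = w - τ d₁ (τ d₁ w) := ⟨_, rfl⟩
    have hu0 : u ≠ 0 := by
      rw [hu]
      exact sub_ne_zero.2 (Ne.symm hw)
    have hue : τ d₁ (τ d₁ u) = -u := by
      rw [hu, map_sub, map_sub, hee]
      abel
    by_cases hx : u - τ y u = 0
    · have hyu : τ y u = u := (sub_eq_zero.1 hx).symm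
      refine ⟨τ d₁ u, ?_, ?_, ?_⟩
      · have := h1 u
        rw [hyu, hL u hue] at this
        exact this
      · rw [hue, map_neg]
      · intro h0
        apply hu0
        apply tinj τ d₁
        rw [h0, map_zero]
    · refine ⟨u - τ y u, ?_, ?_, hx⟩
      · rw [map_sub, C.hy2]
        abel
      · rw [map_sub, map_sub, ← hce, hue, map_neg]
        abel
  obtain ⟨v', hv'y, hv'e, hv'0⟩ := hex
  have hdd : ∀ x, τ (d₁ * d₁) x = τ d₁ (τ d₁ x) := fun x => tm τ _ _ _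
  have hiso := C.hIso (d₁ * d₁)
    (by
      intro v hv
      rw [hdd, hce, hv, map_neg, map_neg])
    (by
      intro v _
      rw [hdd, hdd, hee])
  have hem : ∀ v, τ y v = -v → τ d₁ (τ d₁ v) = -v := by
    rcases hiso with hp | hm
    · exfalso
      have := hp v' hv'y
      rw [hdd, hv'e] at this
      exact hv'0 (C.eq_zero this.symm)
    · intro v hv
      have := hm v hv
      rwa [hdd] at this
  have hfix : ∀ v, τ y v = -v → τ y (τ d₁ v) = τ d₁ v := by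
    intro v hv
    have a1 := h1 v
    rw [hL v (hem v hv), hv, map_neg, map_neg] at a1
    exact neg_injective a1
  -- `d₂ = z⁻¹ d₁ z`
  have hcomm := C.hDc (z⁻¹ * d₁ * z) (C.hzD' d₁ hd) d₁ (C.hDT hd)
  apply C.hsqz
  intro v hv
  have hc := congrArg (fun u => τ u v) hcomm
  simp only [tm] at hc
  -- LHS: τz⁻¹ τd₁ τz τd₁ v = τz⁻¹ τd₁ τd₁ v = -τz⁻¹ v
  rw [C.hz1 _ (hfix v hv), hem v hv, map_neg,
    C.zi_fix (hfix _ (C.z_pres hv)), hem _ (C.z_pres hv)] at hc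
  have hc' := neg_injective hc
  rw [← hc', tii']

theorem delta_sq (C : Ctx τ T₀ D z y) {g : Γ} (hg : g ∈ T₀) (v : W) :
    τ (y * g * y⁻¹ * g⁻¹) (τ (y * g * y⁻¹ * g⁻¹) v) = v := by
  have hδD := C.hy0 g hg
  obtain ⟨δ, hδ⟩ : ∃ δ, δ = y * g * y⁻¹ * g⁻¹ := ⟨_, rfl⟩
  rw [← hδ] at hδD ⊢
  have hrel : ∀ v, τ y (τ δ (τ y v)) = τ δ⁻¹ v := by
    intro v
    rw [hδ]
    exact C.delta_rel g v
  obtain ⟨s, hs⟩ := C.h2 δ (C.hDT hδD)
  classical
  have hex : ∃ j, ∀ v, τ (δ ^ 2 ^ j) (τ (δ ^ 2 ^ j) v) = v := by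
    refine ⟨s, fun v => ?_⟩
    rw [hs, map_one, Module.End.one_apply, Module.End.one_apply]
  have hj := Nat.find_spec hex
  by_cases hj0 : Nat.find hex = 0
  · rw [hj0] at hj
    simpa using hj v
  · exfalso
    obtain ⟨j, hjj⟩ : ∃ j, Nat.find hex = j + 1 := Nat.exists_eq_succ_of_ne_zero hj0
    have hmin := Nat.find_min hex (m := j) (by omega)
    rw [hjj] at hj
    have hpow : δ ^ 2 ^ (j + 1) = δ ^ 2 ^ j * δ ^ 2 ^ j := by
      rw [pow_succ, pow_mul, pow_two]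
    refine C.square_step (d₁ := δ ^ 2 ^ j) (D.pow_mem hδD _) (C.inv_pow_rel δ hrel _) ?_ ?_
    · intro x
      have := hj x
      rw [hpow] at this
      simpa only [tm] using this
    · push Not at hmin
      exact hmin

/-- The dichotomy. -/
theorem dich (C : Ctx τ T₀ D z y) {h : Γ} (hh : h ∈ T₀) :
    (∀ v, τ y v = -v → τ y (τ h v) = -(τ h v)) ∨ (∀ v, τ y v = -v → τ y (τ h v) = τ h v) := by
  have hsq := C.delta_sq (T₀.inv_mem hh)
  have hsq' : ∀ v, τ y (τ h⁻¹ (τ y⁻¹ (τ h (τ y (τ h⁻¹ (τ y⁻¹ (τ h v))))))) = v := by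
    intro v
    have := hsq v
    simpa only [tm, inv_inv] using this
  simp only [C.yinv] at hsq'
  have htt : ∀ v, τ h⁻¹ (τ y (τ h (τ h⁻¹ (τ y (τ h v))))) = v := by
    intro v
    rw [tii', C.hy2, tii]
  have hcomm : ∀ v, τ y (τ h⁻¹ (τ y (τ h v))) = τ h⁻¹ (τ y (τ h (τ y v))) := by
    intro v
    have := hsq' (τ h⁻¹ (τ y (τ h v)))
    rw [htt] at this
    rw [← this, C.hy2]
  have hiso := C.hIso (h⁻¹ * y * h)
    (by
      intro v hv
      simp only [tm]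
      rw [hcomm, hv, map_neg, map_neg, map_neg])
    (by
      intro v _
      simp only [tm]
      rw [tii', C.hy2, tii])
  rcases hiso with hp | hm
  · right
    intro v hv
    have := hp v hv
    simp only [tm] at this
    apply tinj τ h⁻¹
    rw [this, tii]
  · left
    intro v hv
    have := hm v hv
    simp only [tm] at this
    apply tinj τ h⁻¹
    rw [this, map_neg, tii]

/-- The squares commute with `y`. -/
theorem hh_comm (C : Ctx τ T₀ D z y) {h : Γ} (hh : h ∈ T₀) (v : W) :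
    τ y (τ (h * h) v) = τ (h * h) (τ y v) := by
  have hδ := C.hy0 h hh
  have e : y * (h * h) = (y * h * y⁻¹ * h⁻¹) * (y * h * y⁻¹ * h⁻¹) * (h * h) * y := by
    have hc := C.hDc _ hδ h hh
    calc y * (h * h) = (y * h * y⁻¹) * (y * h * y⁻¹) * y := by group
      _ = ((y * h * y⁻¹ * h⁻¹) * h) * ((y * h * y⁻¹ * h⁻¹) * h) * y := by group
      _ = (y * h * y⁻¹ * h⁻¹) * ((y * h * y⁻¹ * h⁻¹) * h) * h * y := by
        rw [mul_assoc (y * h * y⁻¹ * h⁻¹) h ((y * h * y⁻¹ * h⁻¹) * h), ← mul_assoc h _ h, ← hc]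
        group
      _ = (y * h * y⁻¹ * h⁻¹) * (y * h * y⁻¹ * h⁻¹) * (h * h) * y := by group
  rw [← tm, e, tm τ _ y, tm τ _ (h * h), tm τ _ (y * h * y⁻¹ * h⁻¹), C.delta_sq hh]

/-- An element moving `P₁` to the `+1` eigenspace. -/
def Mover (τ : Γ →* End F W) (y h : Γ) : Prop := ∀ v, τ y v = -v → τ y (τ h v) = τ h v

/-- An element preserving `P₁`. -/
def Fixer (τ : Γ →* End F W) (y h : Γ) : Prop := ∀ v, τ y v = -v → τ y (τ h v) = -(τ h v)

theorem mover_inv (C : Ctx τ T₀ D z y) {g : Γ} (hg : g ∈ T₀) (hm : Mover τ y g) :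
    Mover τ y g⁻¹ := by
  rcases C.dich (T₀.inv_mem hg) with hf | hm'
  · exfalso
    apply C.no_all
    intro v hv
    have := hm _ (hf v hv)
    rwa [tii'] at this
  · exact hm'

/-- For a mover `h`, `z` acts with order dividing four on `P₁`. -/
theorem mover_zinv (C : Ctx τ T₀ D z y) {h : Γ} (hh : h ∈ T₀) (hm : Mover τ y h) (v : W)
    (hv : τ y v = -v) : τ z (τ (h * h) v) = τ (h * h) (τ z v) ∧
      τ z⁻¹ (τ (h * h) v) = τ (h * h) (τ z⁻¹ v) := by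
  have hzz : ∀ u, τ y u = -u → τ (h⁻¹ * z⁻¹ * h * z) u = τ z u := by
    intro u hu
    simp only [tm]
    rw [C.zi_fix (hm _ (C.z_pres hu)), tii]
  have hg₁ : h⁻¹ * z⁻¹ * h * z ∈ T₀ := by
    have := T₀.mul_mem (T₀.inv_mem hh) (C.hzT' h hh)
    simpa only [mul_assoc] using this
  have hhh : h * h ∈ D := C.hsq h hh
  have hpres : ∀ u, τ y u = -u → τ y (τ (h * h) u) = -(τ (h * h) u) := by
    intro u hu
    rw [C.hh_comm hh, hu, map_neg]
  have key : ∀ u, τ y u = -u → τ z (τ (h * h) u) = τ (h * h) (τ z u) := by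
    intro u hu
    have a := C.dc hhh hg₁ u
    rw [hzz u hu] at a
    rw [a, hzz _ (hpres u hu)]
  refine ⟨key v hv, ?_⟩
  apply tinj τ z
  rw [tii', key _ (C.zi_pres hv), tii']

theorem mover_sq (C : Ctx τ T₀ D z y) {h : Γ} (hh : h ∈ T₀) (hm : Mover τ y h) (v : W)
    (hv : τ y v = -v) : τ z (τ z (τ z (τ z v))) = v := by
  have hzz : ∀ u, τ y u = -u → τ (h⁻¹ * z⁻¹ * h * z) u = τ z u := by
    intro u hu
    simp only [tm]
    rw [C.zi_fix (hm _ (C.z_pres hu)), tii]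
  have hg₁ : h⁻¹ * z⁻¹ * h * z ∈ T₀ := by
    have := T₀.mul_mem (T₀.inv_mem hh) (C.hzT' h hh)
    simpa only [mul_assoc] using this
  have hzh : ∀ u, τ y u = -u → τ (h⁻¹ * z⁻¹ * h * z) (τ h u) = τ h (τ z⁻¹ u) := by
    intro u hu
    simp only [tm]
    rw [C.hz1 _ (hm u hu), ← tm τ h h, (C.mover_zinv hh hm u hu).2, ← tm τ h⁻¹, ← mul_assoc,
      inv_mul_cancel, one_mul]
  have hc := C.dc (C.hsq _ hg₁) hh v
  generalize h⁻¹ * z⁻¹ * h * z = g₁ at *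
  rw [tm τ g₁ g₁, tm τ g₁ g₁, hzh v hv, hzh _ (C.zi_pres hv), hzz v hv, hzz _ (C.z_pres hv)] at hc
  have hc' := tinj τ h hc
  rw [← hc', tii', tii']

/-- An involution in `D` is not a mover. -/
theorem d_not_mover (C : Ctx τ T₀ D z y) {d : Γ} (hd : d ∈ D) (h1 : d * d = 1) :
    ¬ Mover τ y d := by
  intro hm
  apply C.hsqz
  intro v hv
  have hdd : ∀ x, τ d (τ d x) = x := by
    intro x
    rw [← tm, h1, map_one, Module.End.one_apply]
  have hcomm := C.hDc (z⁻¹ * d * z) (C.hzD' d hd) d (C.hDT hd)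
  have hc := congrArg (fun u => τ u v) hcomm
  simp only [tm] at hc
  rw [C.hz1 _ (hm v hv), hdd, C.zi_fix (hm _ (C.z_pres hv)), hdd] at hc
  rw [← hc, tii']

/-- Commutators have trivial square. -/
theorem cm_sq (C : Ctx τ T₀ D z y) {a b : Γ} (ha : a ∈ T₀) (hb : b ∈ T₀) :
    (a * b * a⁻¹ * b⁻¹) * (a * b * a⁻¹ * b⁻¹) = 1 := by
  have hcD := C.hcm a ha b hb
  obtain ⟨c, hc⟩ : ∃ c, c = a * b * a⁻¹ * b⁻¹ := ⟨_, rfl⟩
  rw [← hc] at hcD ⊢
  have h1 : a * b * a⁻¹ = c * b := by rw [hc]; group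
  have h2 : a * (b * b) * a⁻¹ = b * b := by
    rw [← C.hDc _ (C.hsq b hb) a ha]
    group
  have h3 : (c * b) * (c * b) = b * b := by
    rw [← h1, ← h2]
    group
  have h4 : (c * b) * (c * b) = c * c * (b * b) := by
    calc (c * b) * (c * b) = c * (b * c) * b := by group
      _ = c * (c * b) * b := by rw [C.hDc c hcD b hb]
      _ = c * c * (b * b) := by group
  rw [h4] at h3
  exact mul_eq_right.1 h3

/-- Rank contradiction: a moved plane and the plane itself cannot both lie in a `-1` eigenspace of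
dimension at most `2`. -/
theorem rank_contra (C : Ctx τ T₀ D z y) (hP : finrank F (minusSpace (τ y)) = 2) {X : End F W}
    (hX : finrank F (minusSpace X) ≤ 2) {g : Γ} (hg : Mover τ y g)
    (h1 : ∀ v, τ y v = -v → X v = -v) (h2 : ∀ v, τ y v = -v → X (τ g v) = -(τ g v)) : False := by
  have hinj : Function.Injective (τ g : W →ₗ[F] W) := fun a b h => tinj τ g h
  have h2' : finrank F ((minusSpace (τ y)).map (τ g : W →ₗ[F] W)) = 2 := by
    rw [← (Submodule.equivMapOfInjective (τ g : W →ₗ[F] W) hinj _).finrank_eq, hP]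
  have hinf : minusSpace (τ y) ⊓ (minusSpace (τ y)).map (τ g : W →ₗ[F] W) = ⊥ := by
    rw [Submodule.eq_bot_iff]
    rintro x ⟨hx1, hx2⟩
    obtain ⟨u, hu, rfl⟩ := hx2
    have a := mem_minus.1 hx1
    have b := hg u (mem_minus.1 hu)
    apply C.eq_zero
    nth_rewrite 1 [← b]
    exact a
  have hsup : minusSpace (τ y) ⊔ (minusSpace (τ y)).map (τ g : W →ₗ[F] W) ≤ minusSpace X := by
    apply sup_le
    · intro x hx
      exact mem_minus.2 (h1 x (mem_minus.1 hx))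
    · rintro x ⟨u, hu, rfl⟩
      exact mem_minus.2 (h2 u (mem_minus.1 hu))
  have hle := Submodule.finrank_mono hsup
  have heq := Submodule.finrank_sup_add_finrank_inf_eq (minusSpace (τ y))
    ((minusSpace (τ y)).map (τ g : W →ₗ[F] W))
  rw [hinf, finrank_bot, hP, h2'] at heq
  omega

theorem mover_eps (C : Ctx τ T₀ D z y) (hP : finrank F (minusSpace (τ y)) = 2)
    {m : Γ} (hm : m ∈ T₀) (hmv : Mover τ y m)
    (hY2 : ∀ v, τ ((m * z) * (m * z)) (τ ((m * z) * (m * z)) v) = v)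
    (hYr : finrank F (minusSpace (τ ((m * z) * (m * z)))) ≤ 2) (v : W) (hv : τ y v = -v) :
    τ (m * m) (τ z v) = v := by
  have hform : ∀ u, τ y u = -u → τ ((m * z) * (m * z)) u = τ (m * m) (τ z u) := by
    intro u hu
    simp only [tm]
    rw [C.hz1 _ (hmv _ (C.z_pres hu))]
  have hpres : ∀ u, τ y u = -u → τ y (τ ((m * z) * (m * z)) u) = -(τ ((m * z) * (m * z)) u) := by
    intro u hu
    rw [hform u hu, C.hh_comm hm, C.z_pres hu, map_neg]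
  rcases C.hIso _ hpres (fun u _ => hY2 u) with hp | hn
  · rw [← hform v hv, hp v hv]
  · exfalso
    refine C.rank_contra hP hYr hmv hn ?_
    intro u hu
    have a : τ ((m * z) * (m * z)) (τ m u) = τ m (τ z (τ m (τ z (τ m u)))) := by
      simp only [tm]
    rw [a, C.hz1 _ (hmv u hu), ← tm τ m m, (C.mover_zinv hm hmv u hu).1, ← hform u hu, hn u hu,
      map_neg]

theorem m_not_mover (C : Ctx τ T₀ D z y) (hP : finrank F (minusSpace (τ y)) = 2)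
    {m d : Γ} (hm : m ∈ T₀) (hd : d ∈ D) (hdd : d * d = 1)
    (hY2 : ∀ v, τ ((m * z) * (m * z)) (τ ((m * z) * (m * z)) v) = v)
    (hYr : finrank F (minusSpace (τ ((m * z) * (m * z)))) ≤ 2)
    (hY2' : ∀ v, τ ((m⁻¹ * d * z) * (m⁻¹ * d * z)) (τ ((m⁻¹ * d * z) * (m⁻¹ * d * z)) v) = v)
    (hYr' : finrank F (minusSpace (τ ((m⁻¹ * d * z) * (m⁻¹ * d * z)))) ≤ 2) :
    ¬ Mover τ y m := by
  intro hmv
  have hdT := C.hDT hd
  have hm'T : m⁻¹ * d ∈ T₀ := T₀.mul_mem (T₀.inv_mem hm) hdT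
  have hdf : Fixer τ y d := (C.dich hdT).resolve_right (C.d_not_mover hd hdd)
  have hdd' : ∀ x, τ d (τ d x) = x := by
    intro x
    rw [← tm, hdd, map_one, Module.End.one_apply]
  have hm'mv : Mover τ y (m⁻¹ * d) := by
    rcases C.dich hm'T with hf | hm'
    · exfalso
      apply C.no_all
      intro u hu
      have a := hf _ (hdf u hu)
      rw [tm, hdd'] at a
      have b := hmv _ a
      rwa [tii'] at b
    · exact hm'
  have hsq' : (m⁻¹ * d) * (m⁻¹ * d) = m⁻¹ * m⁻¹ := by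
    calc (m⁻¹ * d) * (m⁻¹ * d) = m⁻¹ * (d * m⁻¹) * d := by group
      _ = m⁻¹ * (m⁻¹ * d) * d := by rw [C.hDc d hd m⁻¹ (T₀.inv_mem hm)]
      _ = m⁻¹ * m⁻¹ * (d * d) := by group
      _ = m⁻¹ * m⁻¹ := by rw [hdd, mul_one]
  have e1 := C.mover_eps hP hm hmv hY2 hYr
  have e2 := C.mover_eps hP hm'T hm'mv hY2' hYr'
  rw [hsq'] at e2
  have e2' : ∀ u, τ y u = -u → τ z u = τ (m * m) u := by
    intro u hu
    have a := e2 u hu
    rw [tm] at a
    have b : τ z u = τ m (τ m (τ m⁻¹ (τ m⁻¹ (τ z u)))) := by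
      rw [tii', tii']
    rw [b, a, tm]
  apply C.hsqz
  intro u hu
  rw [e2' _ (C.z_pres hu), e1 u hu]

/-- Conclusion from a scalar action. -/
theorem final_scalar {ν g : Γ} {ε : F} (hε : ε * ε = 1) {v : W}
    (h1 : τ ν (τ g⁻¹ v) = ε • τ g⁻¹ v) (h2 : τ ν v = ε • v) :
    τ (ν * g * ν⁻¹ * g⁻¹) v = v := by
  simp only [tm]
  have h3 : τ ν⁻¹ (τ g⁻¹ v) = ε • τ g⁻¹ v := by
    apply tinj τ ν
    rw [tii', map_smul, h1, smul_smul, hε, one_smul]
  rw [h3, map_smul, tii', map_smul, h2, smul_smul, hε, one_smul]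

theorem no_mover_case (C : Ctx τ T₀ D z y) (hall : ∀ h ∈ T₀, Fixer τ y h) {Y : Γ}
    (hν : Y * y⁻¹ ∈ T₀) (hY2 : ∀ v, τ Y (τ Y v) = v) {g : Γ} (hg : g ∈ T₀) {v : W}
    (hv : τ y v = -v) : τ ((Y * y⁻¹) * g * (Y * y⁻¹)⁻¹ * g⁻¹) v = v := by
  have hνf := hall _ hν
  have hYf : ∀ u, τ y u = -u → τ Y u = -(τ (Y * y⁻¹) u) := by
    intro u hu
    rw [tm τ Y y⁻¹, C.yinv, hu, map_neg, neg_neg]
  have hpres : ∀ u, τ y u = -u → τ y (τ Y u) = -(τ Y u) := by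
    intro u hu
    rw [hYf u hu, map_neg, hνf u hu]
  have hgi := hall _ (T₀.inv_mem hg) v hv
  rcases C.hIso Y hpres (fun u _ => hY2 u) with hp | hn
  · refine final_scalar (τ := τ) (ε := -1) (by simp) ?_ ?_
    · rw [neg_one_smul]
      have := hYf _ hgi
      rw [hp _ hgi] at this
      exact (neg_eq_iff_eq_neg.2 this).symm
    · rw [neg_one_smul]
      have := hYf _ hv
      rw [hp _ hv] at this
      exact (neg_eq_iff_eq_neg.2 this).symm
  · refine final_scalar (τ := τ) (ε := 1) (by simp) ?_ ?_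
    · rw [one_smul]
      have := hYf _ hgi
      rw [hn _ hgi] at this
      exact (neg_injective this).symm
    · rw [one_smul]
      have := hYf _ hv
      rw [hn _ hv] at this
      exact (neg_injective this).symm

theorem mover_case (C : Ctx τ T₀ D z y) (hP : finrank F (minusSpace (τ y)) = 2)
    (hyz : y = z * z) {g₀ m : Γ} (hg₀ : g₀ ∈ T₀) (hmv : Mover τ y g₀) (hm : m ∈ T₀)
    (hmf : Fixer τ y m)
    (hY2 : ∀ v, τ ((m * z) * (m * z)) (τ ((m * z) * (m * z)) v) = v)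
    (hYr : finrank F (minusSpace (τ ((m * z) * (m * z)))) ≤ 2)
    {g : Γ} (hg : g ∈ T₀) {v : W} (hv : τ y v = -v) :
    τ (((m * z) * (m * z) * y⁻¹) * g * ((m * z) * (m * z) * y⁻¹)⁻¹ * g⁻¹) v = v := by
  obtain ⟨Y, hYdef⟩ : ∃ Y, Y = (m * z) * (m * z) := ⟨_, rfl⟩
  rw [← hYdef] at hY2 hYr ⊢
  have hYv : ∀ u, τ Y u = τ m (τ z (τ m (τ z u))) := by
    intro u
    rw [hYdef]
    simp only [tm]
  have hδD := C.hcm g₀⁻¹ (T₀.inv_mem hg₀) m hm
  have hδ2 := C.cm_sq (T₀.inv_mem hg₀) hm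
  rw [inv_inv] at hδD hδ2
  obtain ⟨δ, hδ⟩ : ∃ δ, δ = g₀⁻¹ * m * g₀ * m⁻¹ := ⟨_, rfl⟩
  rw [← hδ] at hδD hδ2
  have hδf : Fixer τ y δ := (C.dich (C.hDT hδD)).resolve_right (C.d_not_mover hδD hδ2)
  have hmg : m * g₀ = g₀ * δ * m := by
    rw [hδ]
    group
  have hmg' : ∀ u, τ m (τ g₀ u) = τ g₀ (τ δ (τ m u)) := by
    intro u
    rw [← tm, hmg]
    simp only [tm]
  have hmmv : ∀ u, τ y u = -u → τ y (τ m (τ g₀ u)) = τ m (τ g₀ u) := by
    intro u hu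
    rw [hmg']
    exact hmv _ (hδf _ (hmf u hu))
  have hstar : ∀ u, τ y u = -u → τ Y (τ g₀ u) = τ g₀ (τ (m * m) u) := by
    intro u hu
    rw [hYv, C.hz1 _ (hmv u hu), C.hz1 _ (hmmv u hu), ← tm τ m m, C.dc (C.hsq m hm) hg₀]
  have hmmf : Fixer τ y (m * m) := by
    intro u hu
    rw [tm]
    exact hmf _ (hmf u hu)
  have hmm2 : ∀ u, τ y u = -u → τ (m * m) (τ (m * m) u) = u := by
    intro u hu
    apply tinj τ g₀
    rw [← hstar _ (hmmf u hu), ← hstar u hu, hY2]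
  have hiso2 := C.hIso (m * m) hmmf hmm2
  have hYpres : Fixer τ y Y := by
    intro u hu
    rw [hYv]
    exact hmf _ (C.z_pres (hmf _ (C.z_pres hu)))
  have hiso1 := C.hIso Y hYpres (fun u _ => hY2 u)
  have hν : ∀ u, τ y u = -u → τ (Y * y⁻¹) u = -(τ Y u) := by
    intro u hu
    rw [tm, C.yinv, hu, map_neg]
  have hν' : ∀ u, τ y u = -u → τ (Y * y⁻¹) (τ g₀ u) = τ Y (τ g₀ u) := by
    intro u hu
    rw [tm, C.yinv, hmv u hu]
  obtain ⟨δ₀, hδ₀⟩ : ∃ δ₀, δ₀ = y * g₀ * y⁻¹ * g₀⁻¹ := ⟨_, rfl⟩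
  have hδ₀D : δ₀ ∈ D := by
    rw [hδ₀]
    exact C.hy0 g₀ hg₀
  have hδ₀sq : ∀ u, τ δ₀ (τ δ₀ u) = u := by
    intro u
    rw [hδ₀]
    exact C.delta_sq hg₀ u
  have hδ₀v : ∀ u, τ δ₀ u = τ y (τ g₀ (τ y (τ g₀⁻¹ u))) := by
    intro u
    rw [hδ₀]
    simp only [tm, C.yinv]
  have hmvi := C.mover_inv hg₀ hmv
  have hδ₀P : ∀ u, τ y u = -u → τ δ₀ u = -u := by
    intro u hu
    rw [hδ₀v, hmvi u hu, tii', hu]
  have hδ₀c : ∀ u, τ y (τ δ₀ u) = τ δ₀ (τ y u) := by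
    intro u
    have a := C.delta_rel g₀ (τ y u)
    rw [← hδ₀, C.hy2] at a
    rw [a]
    apply tinj τ δ₀
    rw [tii', hδ₀sq]
  have hscalar : ∀ ε : F, (∀ u, τ y u = -u → τ (Y * y⁻¹) u = ε • u) →
      (∀ u, τ y u = -u → τ (Y * y⁻¹) (τ g₀ u) = ε • τ g₀ u) →
      ∀ x, τ δ₀ x = -x → τ (Y * y⁻¹) x = ε • x := by
    intro ε h1 h2 x hx
    have hx₁ : τ y (x - τ y x) = -(x - τ y x) := by
      rw [map_sub, C.hy2]
      abel
    have hx₂ : τ y (x + τ y x) = x + τ y x := by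
      rw [map_add, C.hy2]
      abel
    have hx₂' : τ δ₀ (x + τ y x) = -(x + τ y x) := by
      rw [map_add, ← hδ₀c, hx, map_neg]
      abel
    have hu : τ y (τ g₀⁻¹ (x + τ y x)) = -(τ g₀⁻¹ (x + τ y x)) := by
      rw [hδ₀v] at hx₂'
      have a := congrArg (τ y) hx₂'
      rw [C.hy2, map_neg, hx₂] at a
      apply tinj τ g₀
      rw [a, map_neg, tii']
    have a1 := h1 _ hx₁
    have a2 := h2 _ hu
    rw [tii'] at a2
    have hsum : (2 : F) • x = (x - τ y x) + (x + τ y x) := by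
      rw [two_smul]
      abel
    have h3 : (2 : F) • τ (Y * y⁻¹) x = (2 : F) • (ε • x) := by
      rw [← map_smul, hsum, map_add, a1, a2, ← smul_add, ← hsum, smul_comm]
    exact smul_right_injective _ C.two h3
  have hfinal : ∀ ε : F, ε * ε = 1 → (∀ u, τ y u = -u → τ (Y * y⁻¹) u = ε • u) →
      (∀ u, τ y u = -u → τ (Y * y⁻¹) (τ g₀ u) = ε • τ g₀ u) →
      τ ((Y * y⁻¹) * g * (Y * y⁻¹)⁻¹ * g⁻¹) v = v := by
    intro ε hε h1 h2
    apply final_scalar (τ := τ) hε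
    · apply hscalar ε h1 h2
      rw [C.dc hδ₀D (T₀.inv_mem hg), hδ₀P v hv, map_neg]
    · exact h1 v hv
  rcases hiso1 with hY1 | hY1 <;> rcases hiso2 with hm1 | hm1
  · exfalso
    obtain ⟨w, hw, hw0⟩ := C.hne
    have a := hY1 w hw
    have hzw := C.z_pres hw
    have hzzw := C.z_pres hzw
    have hzzw' : τ z (τ z w) = -w := by
      rw [← hw, hyz, tm]
    rcases C.hIso m hmf (fun u hu => by
      have := hm1 u hu
      rwa [tm] at this) with hm2 | hm2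
    · rw [hYv, hm2 _ hzw, hm2 _ hzzw, hzzw'] at a
      exact hw0 (C.eq_zero a.symm)
    · rw [hYv, hm2 _ hzw, map_neg, map_neg, hm2 _ hzzw, neg_neg, hzzw'] at a
      exact hw0 (C.eq_zero a.symm)
  · apply hfinal (-1) (by simp)
    · intro u hu
      rw [hν u hu, hY1 u hu, neg_one_smul]
    · intro u hu
      rw [hν' u hu, hstar u hu, hm1 u hu, map_neg, neg_one_smul]
  · apply hfinal 1 (by simp)
    · intro u hu
      rw [hν u hu, hY1 u hu, neg_neg, one_smul]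
    · intro u hu
      rw [hν' u hu, hstar u hu, hm1 u hu, one_smul]
  · exfalso
    refine C.rank_contra hP hYr hmv hY1 ?_
    intro u hu
    rw [hstar u hu, hm1 u hu, map_neg]

end Ctx

theorem pow_fix (τ : Γ →* End F W) {u : Γ} {v : W} (h : τ u v = v) (n : ℕ) : τ (u ^ n) v = v := by
  induction n with
  | zero => simp
  | succ n ih => rw [pow_succ, tm, h, ih]

section main

variable {τ : Γ →* End F W} {T₀ D : Subgroup Γ} {z : Γ} {k : ℕ} {M : Set Γ}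

theorem PlaneData.exists_ne (hd : PlaneData τ T₀ D z k) :
    ∃ v, τ (z ^ 2 ^ (k - 1)) v = -v ∧ v ≠ 0 := by
  have hne : minusSpace (τ (z ^ 2 ^ (k - 1))) ≠ ⊥ := by
    intro h
    have := hd.hP
    rw [h, finrank_bot] at this
    omega
  obtain ⟨v, hv, hv0⟩ := Submodule.exists_mem_ne_zero_of_ne_bot hne
  exact ⟨v, mem_minus.1 hv, hv0⟩

theorem PlaneData.toCtx (hd : PlaneData τ T₀ D z k) : Ctx τ T₀ D z (z ^ 2 ^ (k - 1)) where
  two := hd.two
  hDT := hd.hDT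
  h2 := hd.h2
  hDc := hd.hDc
  hsq := hd.hsq
  hcm := hd.hcm
  hzT' := hd.hzT'
  hzD' := hd.hzD'
  hy0 := hd.hy0
  hy2 := by
    intro v
    have := LinearMap.congr_fun hd.hy2 v
    simpa only [Module.End.mul_apply, Module.End.one_apply] using this
  hne := hd.exists_ne
  hz1 := hd.hz1
  hzy := (Commute.refl z).pow_right _
  hIso := by
    intro t h1 h2
    rcases hd.hIso t (fun v hv => mem_minus.2 (h1 v (mem_minus.1 hv)))
      (fun v hv => h2 v (mem_minus.1 hv)) with h | h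
    · exact Or.inl fun v hv => h v (mem_minus.2 hv)
    · exact Or.inr fun v hv => h v (mem_minus.2 hv)
  hsqz := by
    intro h
    obtain ⟨v, hv, hv0⟩ := hd.exists_ne
    have h1 : τ (z * z) v = v := by
      rw [tm]
      exact h v hv
    have hk := hd.hk
    have e : z ^ 2 ^ (k - 1) = (z * z) ^ 2 ^ (k - 2) := by
      have : k - 1 = (k - 2) + 1 := by omega
      rw [this, pow_succ', pow_mul, pow_two]
    rw [e, pow_fix τ h1] at hv
    have hv2 : (2 : F) • v = 0 := by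
      rw [two_smul]
      nth_rewrite 1 [hv]
      simp
    rcases smul_eq_zero.1 hv2 with h3 | h3
    · exact hd.two h3
    · exact hv0 h3

/-- **Plane lemma.** -/
theorem plane_main {τ : Γ →* End F W} {T₀ D : Subgroup Γ} {z : Γ} {k : ℕ} {M : Set Γ}
    (hd : PlaneData τ T₀ D z k) (hM : Admissible τ T₀ D z k M) (m : Γ) (hm : m ∈ M) (g : Γ) (hg : g ∈ T₀)
    (v : W) (hv : v ∈ minusSpace (τ (z ^ 2 ^ (k - 1)))) :
    τ (((m * z) ^ 2 ^ (k - 1) * (z ^ 2 ^ (k - 1))⁻¹) * g * ((m * z) ^ 2 ^ (k - 1) * (z ^ 2 ^ (k - 1))⁻¹)⁻¹ * g⁻¹) v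
      = v := by
  have C := hd.toCtx
  have hv' := mem_minus.1 hv
  have hsq2 : ∀ a : Γ, τ a * τ a = 1 → ∀ v, τ a (τ a v) = v := by
    intro a ha v
    have := LinearMap.congr_fun ha v
    simpa only [Module.End.mul_apply, Module.End.one_apply] using this
  by_cases hex : ∃ g₀ ∈ T₀, Ctx.Mover τ (z ^ 2 ^ (k - 1)) g₀
  · obtain ⟨g₀, hg₀, hmv⟩ := hex
    have hk2 : k = 2 := by
      by_contra hne
      have hk := hd.hk
      apply C.no_all
      intro u hu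
      have h4 := C.mover_sq hg₀ hmv u hu
      have h1 : τ (z * z * z * z) u = u := by
        simp only [tm]
        exact h4
      have e : z ^ 2 ^ (k - 1) = (z * z * z * z) ^ 2 ^ (k - 3) := by
        have h3 : k - 1 = (k - 3) + 2 := by omega
        have h5 : z * z * z * z = z ^ (2 ^ 2) := by
          norm_num [pow_succ]
        rw [h3, pow_add, mul_comm, pow_mul, h5]
      rw [e]
      exact pow_fix τ h1 _
    subst hk2
    have e2 : ∀ a : Γ, a ^ 2 ^ (2 - 1) = a * a := by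
      intro a
      norm_num [pow_two]
    obtain ⟨d, hdD, hd1, hmem⟩ := hM.hMp m hm
    have hmT := hM.hMT m hm
    have hY2 := hsq2 _ (hM.hM2 m hm)
    have hYr := hM.hMr m hm
    have hY2' := hsq2 _ (hM.hM2 _ hmem)
    have hYr' := hM.hMr _ hmem
    rw [e2] at hY2 hYr hY2' hYr'
    have hnm := C.m_not_mover hd.hP hmT hdD hd1 hY2 hYr hY2' hYr'
    have hmf := (C.dich hmT).resolve_right hnm
    rw [e2 (m * z)]
    exact C.mover_case hd.hP (e2 z) hg₀ hmv hmT hmf hY2 hYr hg hv'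
  · have hall : ∀ h ∈ T₀, Ctx.Fixer τ (z ^ 2 ^ (k - 1)) h := by
      intro h hh
      rcases C.dich hh with hf | hm'
      · exact hf
      · exact absurd ⟨h, hh, hm'⟩ hex
    exact C.no_mover_case hall (hM.hMν m hm) (hsq2 _ (hM.hM2 m hm)) hg hv'

end main

end Cfsg.Agent.Lib.Bry.Plane
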