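/-
Bryukhanova's theorem: alternating forms with values in a group without involutions.
-/
import Mathlib

set_option autoImplicit false

namespace Cfsg.Agent.Lib.Bry.Form

open Module

universe u v

variable {q : ℕ} [hq : Fact q.Prime] {W : Type v} [AddCommGroup W] [Module (ZMod q) W]
  {A : Type u} [CommGroup A]

/-- A nondegenerate alternating form on `W` with values in a group without involutions. -/
structure IsForm (ω : W → W → A) : Prop where
  add_left : ∀ a b c, ω (a + b) c = ω a c * ω b c
  add_right : ∀ a b c, ω a (b + c) = ω a b * ω a c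
  self : ∀ a, ω a a = 1
  nd : ∀ a, (∀ b, ω a b = 1) → a = 0
  noinv : ∀ x : A, x * x = 1 → x = 1

variable {ω : W → W → A} (hω : IsForm ω)
include hω

theorem zero_left (b : W) : ω 0 b = 1 := by
  have h := hω.add_left 0 0 b
  rw [add_zero] at h
  exact (mul_eq_left.mp h.symm)

theorem zero_right (a : W) : ω a 0 = 1 := by
  have h := hω.add_right a 0 0
  rw [add_zero] at h
  exact (mul_eq_left.mp h.symm)

theorem neg_right (a b : W) : ω a (-b) = (ω a b)⁻¹ := by
  have h := hω.add_right a b (-b)
  rw [add_neg_cancel, zero_right hω] at h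
  exact (eq_inv_of_mul_eq_one_right h.symm)

theorem neg_left (a b : W) : ω (-a) b = (ω a b)⁻¹ := by
  have h := hω.add_left a (-a) b
  rw [add_neg_cancel, zero_left hω] at h
  exact (eq_inv_of_mul_eq_one_right h.symm)

theorem nsmul_right (a b : W) (n : ℕ) : ω a (n • b) = (ω a b) ^ n := by
  induction n with
  | zero => simp [zero_right hω]
  | succ n ih => rw [succ_nsmul, hω.add_right, ih, pow_succ]

theorem smul_right (a b : W) (c : ZMod q) : ω a (c • b) = (ω a b) ^ c.val := by
  have h : c • b = c.val • b := by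
    rw [← Nat.cast_smul_eq_nsmul (ZMod q), ZMod.natCast_zmod_val]
  rw [h, nsmul_right hω]

theorem smul_self_right (a : W) (c : ZMod q) : ω a (c • a) = 1 := by
  rw [smul_right hω, hω.self, one_pow]

/-- Eigenspaces of an isometric involution are orthogonal. -/
theorem orth {T : End (ZMod q) W} (hT : ∀ a b, ω (T a) (T b) = ω a b) {a b : W} (ha : T a = a) (hb : T b = -b) :
    ω a b = 1 := by
  have h := hT a b
  rw [ha, hb, neg_right hω] at h
  apply hω.noinv
  nth_rw 1 [← h]
  exact inv_mul_cancel _

theorem two_ne (hq2 : q ≠ 2) : (2 : ZMod q) ≠ 0 := by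
  intro h
  have h1 : ((2 : ℕ) : ZMod q) = 0 := by exact_mod_cast h
  rw [ZMod.natCast_eq_zero_iff] at h1
  exact hq2 ((Nat.prime_dvd_prime_iff_eq hq.out Nat.prime_two).mp h1)

/-- The `-1` eigenspace of an isometric involution is nondegenerate. -/
theorem nd_minus (hq2 : q ≠ 2) {T : End (ZMod q) W} (hT : ∀ a b, ω (T a) (T b) = ω a b)
    (hT2 : ∀ a, T (T a) = a) {a : W} (ha : T a = -a) (ha0 : a ≠ 0) :
    ∃ b, T b = -b ∧ ω a b ≠ 1 := by
  have h2 := two_ne (q := q) hω hq2
  obtain ⟨b, hb⟩ : ∃ b, ω a b ≠ 1 := by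
    by_contra hcon
    push Not at hcon
    exact ha0 (hω.nd a hcon)
  set i : ZMod q := (2 : ZMod q)⁻¹ with hi
  have hi2 : i + i = 1 := by
    rw [hi, ← two_mul, mul_inv_cancel₀ h2]
  let bp := i • (b + T b)
  let bm := i • (b - T b)
  have e : b = bp + bm := by
    simp only [bp, bm]
    rw [← smul_add]
    have : b + T b + (b - T b) = (2 : ZMod q) • b := by
      rw [two_smul]
      abel
    rw [this, smul_smul, hi, inv_mul_cancel₀ h2, one_smul]
  have hp : T bp = bp := by
    simp only [bp, map_smul, map_add, hT2]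
    rw [add_comm]
  have hm : T bm = -bm := by
    simp only [bm, map_smul, map_sub, hT2]
    rw [← smul_neg, neg_sub]
  refine ⟨bm, hm, fun h => hb ?_⟩
  rw [e, hω.add_right, h, mul_one]
  have h3 := orth hω hT hp ha
  -- `ω a bp = (ω bp a)⁻¹`
  have h4 : ω a bp * ω bp a = 1 := by
    have h5 := hω.self (a + bp)
    rw [hω.add_left, hω.add_right, hω.add_right, hω.self, hω.self, one_mul, mul_one] at h5
    exact h5
  rw [h3, mul_one] at h4
  exact h4

/-- `ω` is antisymmetric. -/
theorem anti (a b : W) : ω a b * ω b a = 1 := by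
  have h5 := hω.self (a + b)
  rw [hω.add_left, hω.add_right, hω.add_right, hω.self, hω.self, one_mul, mul_one] at h5
  exact h5

/-- Independence of a non-orthogonal pair. -/
theorem indep_of_ne {a b : W} (h : ω a b ≠ 1) : LinearIndependent (ZMod q) ![a, b] := by
  rw [LinearIndependent.pair_iff]
  intro s t hst
  have hb : t = 0 := by
    by_contra ht
    apply h
    have e : b = (-(t⁻¹ * s)) • a := by
      have h1 : t • b = -(s • a) := eq_neg_of_add_eq_zero_right hst
      calc b = t⁻¹ • (t • b) := by rw [smul_smul, inv_mul_cancel₀ ht, one_smul]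
        _ = _ := by rw [h1, smul_neg, smul_smul, neg_smul]
    rw [e, smul_self_right hω]
  subst hb
  rw [zero_smul, add_zero] at hst
  refine ⟨?_, rfl⟩
  by_contra hs
  apply h
  have ha : a = 0 := by
    calc a = s⁻¹ • (s • a) := by rw [smul_smul, inv_mul_cancel₀ hs, one_smul]
      _ = 0 := by rw [hst, smul_zero]
  rw [ha, zero_left hω]

variable [FiniteDimensional (ZMod q) W]

/-- A nonzero `-1` eigenspace has dimension at least two. -/
theorem two_le_finrank (hq2 : q ≠ 2) {T : End (ZMod q) W} (hT : ∀ a b, ω (T a) (T b) = ω a b)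
    (hT2 : ∀ a, T (T a) = a) (hne : LinearMap.ker (T + 1) ≠ ⊥) : 2 ≤ finrank (ZMod q) (LinearMap.ker (T + 1)) := by
  obtain ⟨a, ha, ha0⟩ := Submodule.exists_mem_ne_zero_of_ne_bot hne
  have ha' : T a = -a := eq_neg_of_add_eq_zero_left (by simpa using ha)
  obtain ⟨b, hb, hab⟩ := nd_minus hω hq2 hT hT2 ha' ha0
  have hind := indep_of_ne (q := q) hω hab
  have hb' : b ∈ LinearMap.ker (T + 1) := by
    simp [LinearMap.mem_ker, hb]
  have hle : Submodule.span (ZMod q) (Set.range ![a, b]) ≤ LinearMap.ker (T + 1) := by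
    rw [Submodule.span_le]
    rintro _ ⟨i, rfl⟩
    fin_cases i
    · exact ha
    · exact hb'
  have h1 := Submodule.finrank_mono hle
  rw [finrank_span_eq_card hind] at h1
  simpa using h1

/-- **Isometries of planes**: an isometry preserving a nondegenerate plane and squaring to one there is `±1`. -/
theorem plane_sign (hq2 : q ≠ 2) {T S : End (ZMod q) W} (hT : ∀ a b, ω (T a) (T b) = ω a b)
    (hT2 : ∀ a, T (T a) = a) (hfin : finrank (ZMod q) (LinearMap.ker (T + 1)) ≤ 2)
    (hS : ∀ a b, ω (S a) (S b) = ω a b) (hSP : ∀ v ∈ LinearMap.ker (T + 1), S v ∈ LinearMap.ker (T + 1))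
    (hS2 : ∀ v ∈ LinearMap.ker (T + 1), S (S v) = v) :
    (∀ v ∈ LinearMap.ker (T + 1), S v = v) ∨ (∀ v ∈ LinearMap.ker (T + 1), S v = -v) := by
  classical
  have h2 := two_ne (q := q) hω hq2
  by_contra hcon
  push Not at hcon
  obtain ⟨⟨v₁, hv₁, hv₁'⟩, ⟨v₂, hv₂, hv₂'⟩⟩ := hcon
  set P := LinearMap.ker (T + 1) with hP
  have hmem : ∀ v, v ∈ P ↔ T v = -v := by
    intro v
    rw [hP, LinearMap.mem_ker]
    simp only [LinearMap.add_apply, Module.End.one_apply]
    exact ⟨fun h => eq_neg_of_add_eq_zero_left h, fun h => by rw [h]; abel⟩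
  set em := v₁ - S v₁ with hem
  set ep := v₂ + S v₂ with hep
  have hem0 : em ≠ 0 := fun h => hv₁' (sub_eq_zero.mp h).symm
  have hep0 : ep ≠ 0 := fun h => hv₂' (eq_neg_of_add_eq_zero_right h)
  have hemP : em ∈ P := P.sub_mem hv₁ (hSP _ hv₁)
  have hepP : ep ∈ P := P.add_mem hv₂ (hSP _ hv₂)
  have hSm : S em = -em := by
    rw [hem, map_sub, hS2 _ hv₁]
    abel
  have hSp : S ep = ep := by
    rw [hep, map_add, hS2 _ hv₂]
    abel
  have h0 := orth hω hS hSp hSm
  -- `ep` is orthogonal to everything in `P`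
  obtain ⟨b, hb, hab⟩ := nd_minus hω hq2 hT hT2 ((hmem ep).mp hepP) hep0
  have hbP : b ∈ P := (hmem b).mpr hb
  -- `em` and `ep` are independent
  have hindem : LinearIndependent (ZMod q) ![ep, em] := by
    rw [LinearIndependent.pair_iff]
    intro s t hst
    have h3 := congrArg S hst
    rw [map_add, map_smul, map_smul, hSp, hSm, map_zero, smul_neg] at h3
    have h4 : (2 : ZMod q) • (s • ep) = 0 := by
      have := congrArg₂ (· + ·) hst h3
      simp only [add_zero] at this
      rw [two_smul, ← this]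
      abel
    have h5 : (2 : ZMod q) • (t • em) = 0 := by
      have := congrArg₂ (· - ·) hst h3
      simp only [sub_zero] at this
      rw [two_smul, ← this]
      abel
    have h6 : s • ep = 0 := (smul_eq_zero.mp h4).resolve_left h2
    have h7 : t • em = 0 := (smul_eq_zero.mp h5).resolve_left h2
    exact ⟨(smul_eq_zero.mp h6).resolve_right hep0, (smul_eq_zero.mp h7).resolve_right hem0⟩
  have hle : Submodule.span (ZMod q) (Set.range ![ep, em]) ≤ P := by
    rw [Submodule.span_le]
    rintro _ ⟨i, rfl⟩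
    fin_cases i
    · exact hepP
    · exact hemP
  have hrank : finrank (ZMod q) (Submodule.span (ZMod q) (Set.range ![ep, em])) = 2 := by
    rw [finrank_span_eq_card hindem]
    simp
  have heq := Submodule.eq_of_le_of_finrank_le hle (by rw [hrank]; exact hfin)
  have hbspan : b ∈ Submodule.span (ZMod q) (Set.range ![ep, em]) := by
    rw [heq]
    exact hbP
  rw [Matrix.range_cons, Matrix.range_cons, Matrix.range_empty, Set.union_empty, ← Set.insert_eq,
    Submodule.mem_span_pair] at hbspan
  obtain ⟨s, t, rfl⟩ := hbspan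
  apply hab
  rw [hω.add_right, smul_self_right hω, one_mul, smul_right hω, h0, one_pow]

end Cfsg.Agent.Lib.Bry.Form
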