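/-
Elementary abelian sections normalized by a subgroup, as modules.
-/
import Cfsg.Agent.Lib.Bry.Basic

set_option autoImplicit false

namespace Cfsg.Agent.Lib.Bry.Sec

open Module Cfsg.Agent.Lib.HallHigman.Section

universe v

variable {G : Type v} [Group G] [Finite G] {p : ℕ} [hp : Fact p.Prime]

/-- An elementary abelian section `T / N` normalized by `L` is a `ZMod p`-module for `L`. -/
theorem exists_section_module_of_le_normalizer (N T L : Subgroup G) (hNT : N ≤ T)
    (hLN : L ≤ Subgroup.normalizer (N : Set G)) (hLT : L ≤ Subgroup.normalizer (T : Set G))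
    (hcomm : ∀ a ∈ T, ∀ b ∈ T, a * b * a⁻¹ * b⁻¹ ∈ N) (hexp : ∀ a ∈ T, a ^ p ∈ N) :
    ∃ (W : Type v) (_ : AddCommGroup W) (_ : Module (ZMod p) W) (_ : FiniteDimensional (ZMod p) W)
      (τ : L →* End (ZMod p) W) (π : T → W),
      (∀ a b, π (a * b) = π a + π b) ∧ Function.Surjective π ∧ (∀ t : T, π t = 0 ↔ t.1 ∈ N) ∧
      (∀ (g : L) (t : T) (t' : T), t'.1 = g.1 * t.1 * g.1⁻¹ → τ g (π t) = π t') := by
  classical
  let N' : Subgroup T := N.subgroupOf T
  haveI hN'n : N'.Normal := by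
    constructor
    intro a ha g
    rw [Subgroup.mem_subgroupOf] at ha ⊢
    have h1 := hcomm g.1 g.2 a.1 (hNT ha)
    have e : ((g * a * g⁻¹ : T) : G) = (g.1 * a.1 * g.1⁻¹ * a.1⁻¹) * a.1 := by
      push_cast
      group
    rw [e]
    exact N.mul_mem h1 ha
  have hQc : ∀ a b : T ⧸ N', a * b = b * a := by
    intro a b
    obtain ⟨a, rfl⟩ := QuotientGroup.mk_surjective a
    obtain ⟨b, rfl⟩ := QuotientGroup.mk_surjective b
    rw [← QuotientGroup.mk_mul, ← QuotientGroup.mk_mul, QuotientGroup.eq]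
    rw [Subgroup.mem_subgroupOf]
    have e : (((a * b)⁻¹ * (b * a) : T) : G) = b.1⁻¹ * a.1⁻¹ * b.1 * a.1 := by
      push_cast
      group
    rw [e]
    have h2 := hcomm b.1⁻¹ (T.inv_mem b.2) a.1⁻¹ (T.inv_mem a.2)
    simpa using h2
  letI instC : CommGroup (T ⧸ N') := { (inferInstance : Group (T ⧸ N')) with mul_comm := hQc }
  have hpQ : ∀ a : T ⧸ N', a ^ p = 1 := by
    intro a
    obtain ⟨a, rfl⟩ := QuotientGroup.mk_surjective a
    rw [← QuotientGroup.mk_pow, QuotientGroup.eq_one_iff, Subgroup.mem_subgroupOf]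
    exact hexp a.1 a.2
  let conjT : L → T ≃* T := fun g => Cfsg.Agent.Lib.Gross.CL.conjOn T g.1 (hLT g.2)
  have hconj : ∀ (g : L) (t : T), ((conjT g t : T) : G) = g.1 * t.1 * g.1⁻¹ := fun g t => rfl
  have hN' : ∀ g : L, N' ≤ N'.comap (conjT g).toMonoidHom := by
    intro g t ht
    rw [Subgroup.mem_comap, Subgroup.mem_subgroupOf]
    change ((conjT g t : T) : G) ∈ N
    rw [hconj]
    exact Cfsg.Agent.Lib.HallHigman.Irr.conj_mem_of_mem_normalizer (hLN g.2) ht
  let act₀ : L → (T ⧸ N') →* (T ⧸ N') := fun g => QuotientGroup.map N' N' (conjT g).toMonoidHom (hN' g)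
  have hact₀ : ∀ (g : L) (t : T), act₀ g (t : T ⧸ N') = ((conjT g t : T) : T ⧸ N') := fun g t => rfl
  let act : L →* Monoid.End (T ⧸ N') :=
    { toFun := act₀
      map_one' := by
        ext a
        obtain ⟨a, rfl⟩ := QuotientGroup.mk_surjective a
        change act₀ 1 (a : T ⧸ N') = (a : T ⧸ N')
        rw [hact₀]
        congr 1
        apply Subtype.ext
        rw [hconj]
        simp
      map_mul' := by
        intro g h
        ext a
        obtain ⟨a, rfl⟩ := QuotientGroup.mk_surjective a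
        change act₀ (g * h) (a : T ⧸ N') = act₀ g (act₀ h (a : T ⧸ N'))
        rw [hact₀, hact₀, hact₀]
        congr 1
        apply Subtype.ext
        rw [hconj, hconj, hconj]
        push_cast
        group }
  obtain ⟨V, i1, i2, i3, ρ, ι, h1, h2, h3⟩ := exists_module_of_commGroup hpQ act
  refine ⟨V, i1, i2, i3, ρ, fun t => ι (t : T ⧸ N'), fun a b => h1 (a : T ⧸ N') (b : T ⧸ N'), ?_, ?_, ?_⟩
  · intro v
    obtain ⟨a, rfl⟩ := h2.2 v
    obtain ⟨a, rfl⟩ := QuotientGroup.mk_surjective a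
    exact ⟨a, rfl⟩
  · intro t
    have h0 : ι 1 = 0 := by
      have := h1 1 1
      rw [mul_one] at this
      simpa using this
    constructor
    · intro h
      have h' : ι (t : T ⧸ N') = 0 := h
      have h4 : (t : T ⧸ N') = 1 := h2.1 (by rw [h', h0])
      rwa [QuotientGroup.eq_one_iff, Subgroup.mem_subgroupOf] at h4
    · intro h
      have h4 : (t : T ⧸ N') = 1 := by
        rwa [QuotientGroup.eq_one_iff, Subgroup.mem_subgroupOf]
      change ι (t : T ⧸ N') = 0
      rw [h4, h0]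
  · intro g t t' ht'
    have e : t' = conjT g t := Subtype.ext (by rw [hconj, ht'])
    rw [e]
    exact h3 g _

end Cfsg.Agent.Lib.Bry.Sec
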