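/-
Bryukhanova's theorem: the section `R₁ / Rad` attached to a character `χ` of `Z1 R₁`.
-/
import Cfsg.Agent.Lib.Bry.Sec
import Cfsg.Agent.Lib.Bry.Form

set_option autoImplicit false

namespace Cfsg.Agent.Lib.Bry.Chi

open Module Cfsg.Agent.Lib.Bry.Setup Cfsg.Agent.Lib.Bry.Basic Cfsg.Agent.Lib.Bry.Form
  Cfsg.Agent.Lib.HallHigman.Irr Cfsg.Agent.Lib.Gross.ConfigAux Cfsg.Agent.Lib.Coprime.Action
open scoped commutatorElement

universe u v w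

section Hom

variable {K : Type u} [Field K] [IsAlgClosed K] [CharP K 2] {V : Type v} [AddCommGroup V] [Module K V]
    [FiniteDimensional K V] {H : Type w} [Group H] [Finite H]

open Cfsg.Agent.Lib.Gross.IR Cfsg.Agent.Lib.Gross.J in
/-- Irreducibles in the exceptional case, with the commutation with `Q`-homomorphisms. -/
theorem irr_props2 {ρ : H →* End K V} {Q : Subgroup H} {q : ℕ} [Fact q.Prime] (hq : (q : K) ≠ 0) (hq2 : q ≠ 2)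
    (hQ : IsPGroup q Q) (x : H) (hx : x ∈ Subgroup.normalizer (Q : Set H)) (n : ℕ)
    (hxL : x ^ 2 ^ (n + 1) = 1) (hN : (ρ x - 1) ^ (2 ^ (n + 1) - 1) = 0)
    (hQt : ⁅Q, Subgroup.zpowers (x ^ 2 ^ n)⁆ = Q)
    {U₁ : Submodule K V} (hU₁ : IsIrr ρ Q U₁) (hnt : ∃ g ∈ Q, ∃ u ∈ U₁, ρ g u ≠ u) :
    ∃ n₀ a : ℕ, 2 ^ n₀ = q + 1 ∧ n + 1 = a + n₀ ∧ (∀ u ∈ U₁, ρ (x ^ 2 ^ a) u ∈ U₁) ∧
      finrank K U₁ = q ∧ ∀ F, QH ρ Q U₁ F → ∀ u ∈ U₁, ρ (x ^ 2 ^ a) (F u) = F (ρ (x ^ 2 ^ a) u) := by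
  classical
  have hqp : q.Prime := Fact.out
  obtain ⟨k₁, a₁, hk₁, ha₁, hst, hq0, hfin₁, hη₁⟩ := irr_props hq hq2 hQ x hx n hxL hN hQt hU₁ hnt
  rcases thmJ hq (Ne.symm hq2) ρ Q hQ x hx n hxL hN hQt hU₁ hnt _ hN with h |
    ⟨n₀, m, a, U, h1, h2, h3, h4, h5, h6, hU, hyU, hU₁U, hfin, hη, hno⟩
  · have hLpos : 0 < 2 ^ (n + 1) := pow_pos (by norm_num) _
    omega
  have hn₀pos : 1 ≤ 2 ^ n₀ := Nat.one_le_pow _ _ (by norm_num)
  have hm : m = 1 := mersenne_exp_one hqp hq2 h3 (k := n₀) (by omega)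
  subst hm
  rw [pow_one] at h4 hfin
  have hq2n : 2 ^ n₀ = q + 1 := by omega
  have e1 : k₁ = n₀ := Nat.pow_right_injective (le_refl 2) (hk₁.trans hq2n.symm)
  subst e1
  have e2 : a₁ = a := by omega
  subst e2
  refine ⟨k₁, a₁, hk₁, ha₁, hst, hfin₁, ?_⟩
  have hxn : ∀ i : ℕ, x ^ i ∈ Subgroup.normalizer (Q : Set H) := fun i => Subgroup.pow_mem _ hx i
  have hno₁ : ∀ i j : Fin (2 ^ a₁), i ≠ j →
      ¬ HomNZ ρ Q (tw ρ (x ^ (i : ℕ)) U₁) (tw ρ (x ^ (j : ℕ)) U₁) := by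
    intro i j hij hc
    apply hno i j hij
    have hA := hU₁U.symm hU₁ hU
    have t1 : HomNZ ρ Q (tw ρ (x ^ (i : ℕ)) U) (tw ρ (x ^ (i : ℕ)) U₁) := hA.tw (hxn _)
    have t2 : HomNZ ρ Q (tw ρ (x ^ (j : ℕ)) U₁) (tw ρ (x ^ (j : ℕ)) U) := hU₁U.tw (hxn _)
    exact HomNZ.trans (hU₁.tw (hxn _)) (HomNZ.trans (hU₁.tw (hxn _)) t1 hc) t2
  rw [h6] at hxL hN
  have hnorm := iso_norm x hx a₁ k₁ hxL hN hU₁ hst hno₁
  have hyP : (x ^ 2 ^ a₁) ^ 2 ^ k₁ = 1 := by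
    rw [← pow_mul, ← pow_add, hxL]
  have hη' : ∃ u ∈ U₁, (((ρ (x ^ 2 ^ a₁) - 1) ^ (2 ^ k₁ - 2) : End K V)) u ≠ 0 := by
    obtain ⟨u, hu, hu0⟩ := hη₁
    refine ⟨u, hu, ?_⟩
    rw [show 2 ^ k₁ - 2 = q - 1 by omega]
    exact hu0
  exact hom_comm_y hU₁ _ (hxn _) k₁ h1 hyP hst hη' hnorm

end Hom

section Char

variable {K : Type u} [Field K] [IsAlgClosed K] [CharP K 2] {V : Type v} [AddCommGroup V] [Module K V]
    [FiniteDimensional K V] {G : Type w} [Group G] [Finite G]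

/-- A character of an abelian subgroup of invertible order, nontrivial on a given element. -/
theorem exists_char (ρ : G →* End K V) (Z : Subgroup G) {q : ℕ} [Fact q.Prime] (hq : (q : K) ≠ 0)
    (hZ : IsPGroup q Z) (hab : ∀ a ∈ Z, ∀ b ∈ Z, a * b = b * a) {c₁ : G} (hc₁ : c₁ ∈ Z) (hne : ρ c₁ ≠ 1) :
    ∃ (χ : G → Kˣ) (v₀ : V), v₀ ≠ 0 ∧ (∀ c ∈ Z, ρ c v₀ = (χ c : K) • v₀) ∧ χ c₁ ≠ 1 := by
  classical
  have hcard : (Nat.card Z : K) ≠ 0 := by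
    obtain ⟨e, he⟩ := IsPGroup.iff_card.mp hZ
    rw [he]
    push_cast
    exact pow_ne_zero _ hq
  set E₁ : Submodule K V := LinearMap.ker (ρ c₁ - 1) with hE₁
  have hmemE₁ : ∀ v, v ∈ E₁ ↔ ρ c₁ v = v := by
    intro v
    rw [hE₁, LinearMap.mem_ker]
    simp [sub_eq_zero]
  have hinv : IsInv ρ Z E₁ := by
    intro g hg w hw
    rw [hmemE₁] at hw ⊢
    rw [← Module.End.mul_apply, ← map_mul, hab c₁ hc₁ g hg, map_mul, Module.End.mul_apply, hw]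
  have hlt : E₁ < ⊤ := by
    refine lt_top_iff_ne_top.mpr (fun h => hne ?_)
    ext v
    have : v ∈ E₁ := by
      rw [h]
      trivial
    exact (hmemE₁ v).mp this
  have htop : IsInv ρ Z (⊤ : Submodule K V) := fun _ _ _ _ => trivial
  obtain ⟨A, -, hA, hdisj⟩ := Cfsg.Agent.Lib.Gross.Avg.exists_irr_inf_bot hcard hinv htop hlt
  haveI : Nontrivial A := Submodule.nontrivial_iff_ne_bot.mpr hA.ne_bot
  have h1 := Cfsg.Agent.Lib.HallHigman.Core.finrank_eq_one_of_comm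
      (Cfsg.Agent.Lib.HallHigman.Core.resQ ρ Z A hA.inv) (Cfsg.Agent.Lib.HallHigman.Core.resQ_irr hA)
      (fun g h => by
        rw [← map_mul, ← map_mul]
        have : g * h = h * g := Subtype.ext (hab _ g.2 _ h.2)
        rw [this])
  obtain ⟨v₀', hv₀', hsp⟩ := finrank_eq_one_iff'.mp h1
  set v₀ : V := v₀'.1 with hv₀
  have hv₀0 : v₀ ≠ 0 := fun h => hv₀' (Subtype.ext h)
  have hscal : ∀ c : G, ∃ u : Kˣ, c ∈ Z → ρ c v₀ = (u : K) • v₀ := by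
    intro c
    by_cases hc : c ∈ Z
    · obtain ⟨μ, hμ⟩ := hsp ⟨ρ c v₀, hA.inv c hc _ v₀'.2⟩
      have hμ' : μ • v₀ = ρ c v₀ := congrArg Subtype.val hμ
      have hμ0 : μ ≠ 0 := by
        rintro rfl
        rw [zero_smul] at hμ'
        apply hv₀0
        have := rho_inv_apply ρ c v₀
        rw [← hμ', map_zero] at this
        exact this.symm
      exact ⟨Units.mk0 μ hμ0, fun _ => hμ'.symm⟩
    · exact ⟨1, fun h => absurd h hc⟩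
  choose χ hχ using hscal
  refine ⟨χ, v₀, hv₀0, fun c hc => hχ c hc, fun h => ?_⟩
  have h2 : v₀ ∈ A ⊓ E₁ := by
    refine ⟨v₀'.2, (hmemE₁ _).mpr ?_⟩
    rw [hχ c₁ hc₁, h]
    simp
  rw [hdisj, Submodule.mem_bot] at h2
  exact hv₀0 h2

end Char

section Sec

variable {K : Type u} [Field K] {V : Type v} [AddCommGroup V] [Module K V]
    {G : Type w} [Group G]

/-- The section attached to a character. -/
structure Sec (ρ : G →* End K V) (B R₁ : Subgroup G) {q : ℕ} (χ : G → Kˣ) (E : Submodule K V) (Γ : Subgroup G)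
    {W : Type w} [AddCommGroup W] [Module (ZMod q) W] (τ : Γ →* End (ZMod q) W) (π : R₁ → W) (ω : W → W → Kˣ) : Prop where
  χ_mul : ∀ c ∈ Z1 R₁, ∀ c' ∈ Z1 R₁, χ (c * c') = χ c * χ c'
  E_ne : E ≠ ⊥
  E_inv : ∀ a ∈ R₁, ∀ v ∈ E, ρ a v ∈ E
  E_χ : ∀ c ∈ Z1 R₁, ∀ v ∈ E, ρ c v = (χ c : K) • v
  mem_Γ : ∀ t, t ∈ Γ ↔ t ∈ B ∧ ∀ c ∈ Z1 R₁, χ (t * c * t⁻¹) = χ c
  π_add : ∀ a b, π (a * b) = π a + π b
  π_surj : Function.Surjective π
  π_conj : ∀ (g : Γ) (a b : R₁), b.1 = g.1 * a.1 * g.1⁻¹ → τ g (π a) = π b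
  form : IsForm ω
  ω_π : ∀ a b : R₁, ω (π a) (π b) = χ (a.1 * b.1 * a.1⁻¹ * b.1⁻¹)
  iso : ∀ (g : Γ) (a b : W), ω (τ g a) (τ g b) = ω a b

end Sec

section Exists

variable {K : Type u} [Field K] [IsAlgClosed K] [CharP K 2] {V : Type v} [AddCommGroup V] [Module K V]
    [FiniteDimensional K V] {G : Type w} [Group G] [Finite G]
  {ρ : G →* End K V} {n q : ℕ} {B That T₀ D R₁ Ks : Subgroup G}

theorem noinv_units {K : Type u} [Field K] [CharP K 2] (x : Kˣ) (h : x * x = 1) : x = 1 := by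
  have h1 : (x : K) * x = 1 := by
    rw [← Units.val_mul, h, Units.val_one]
  have h2 : ((x : K) - 1) * ((x : K) - 1) = 0 := by
    have h3 : ((x : K) - 1) * ((x : K) - 1) = (x : K) * x - 2 * x + 1 := by ring
    rw [h3, h1, CharTwo.two_eq_zero, zero_mul, sub_zero, CharTwo.add_self_eq_zero]
  have h4 := mul_self_eq_zero.mp h2
  exact Units.ext (sub_eq_zero.mp h4)

variable (S : Setup ρ n q B That T₀ D R₁ Ks) [hqf : Fact q.Prime]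
include S

theorem q_cast_ne : (q : K) ≠ 0 := Cfsg.Agent.Lib.Gross.Config.prime_cast_ne_zero K hqf.out S.q_ne

/-- The section exists. -/
theorem exists_sec {c₁ : G} (hc₁ : c₁ ∈ Z1 R₁) (hne : ρ c₁ ≠ 1) :
    ∃ (χ : G → Kˣ) (E : Submodule K V) (Γ : Subgroup G) (W : Type w) (_ : AddCommGroup W) (_ : Module (ZMod q) W)
      (_ : FiniteDimensional (ZMod q) W) (τ : Γ →* End (ZMod q) W) (π : R₁ → W) (ω : W → W → Kˣ),
      Sec ρ B R₁ χ E Γ τ π ω ∧ χ c₁ ≠ 1 := by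
  classical
  have hZ1q : IsPGroup q (Z1 R₁) := S.R₁_q.to_le Z1_le
  have hcen := Z1_central S
  have hZab : ∀ a ∈ Z1 R₁, ∀ b ∈ Z1 R₁, a * b = b * a := fun a ha b hb => hcen a ha b (Z1_le hb)
  obtain ⟨χ, v₀, hv₀, hχv, hχc₁⟩ := exists_char ρ (Z1 R₁) (q_cast_ne (K := K) S) hZ1q hZab hc₁ hne
  have hχmul : ∀ c ∈ Z1 R₁, ∀ c' ∈ Z1 R₁, χ (c * c') = χ c * χ c' := by
    intro c hc c' hc'
    have h1 := hχv _ ((Z1 R₁).mul_mem hc hc')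
    rw [map_mul, Module.End.mul_apply, hχv c' hc', map_smul, hχv c hc, smul_smul] at h1
    have h2 : (((χ c' : K) * (χ c : K)) - (χ (c * c') : K)) • v₀ = 0 := by
      rw [sub_smul, h1, sub_self]
    have h3 := (smul_eq_zero.mp h2).resolve_right hv₀
    apply Units.ext
    rw [Units.val_mul, ← sub_eq_zero.mp h3, mul_comm]
  have hχ1 : χ 1 = 1 := by
    have h1 := hχmul 1 (Subgroup.one_mem _) 1 (Subgroup.one_mem _)
    rw [mul_one] at h1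
    exact mul_eq_left.mp h1.symm
  -- the commutator form
  have hcm : ∀ {a b : G}, a ∈ R₁ → b ∈ R₁ → a * b * a⁻¹ * b⁻¹ ∈ Z1 R₁ := fun ha hb => comm_mem_Z1 S.R₁_q ha hb
  have hβl : ∀ a ∈ R₁, ∀ a' ∈ R₁, ∀ b ∈ R₁, χ ((a * a') * b * (a * a')⁻¹ * b⁻¹) =
      χ (a * b * a⁻¹ * b⁻¹) * χ (a' * b * a'⁻¹ * b⁻¹) := by
    intro a ha a' ha' b hb
    have h1 := hcm ha' hb
    have e : (a * a') * b * (a * a')⁻¹ * b⁻¹ = (a' * b * a'⁻¹ * b⁻¹) * (a * b * a⁻¹ * b⁻¹) := by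
      calc (a * a') * b * (a * a')⁻¹ * b⁻¹ = (a * (a' * b * a'⁻¹ * b⁻¹) * a⁻¹) * (a * b * a⁻¹ * b⁻¹) := by group
        _ = _ := by rw [← hcen _ h1 a ha, mul_inv_cancel_right]
    rw [e, hχmul _ h1 _ (hcm ha hb), mul_comm]
  have hβanti : ∀ a ∈ R₁, ∀ b ∈ R₁, χ (a * b * a⁻¹ * b⁻¹) * χ (b * a * b⁻¹ * a⁻¹) = 1 := by
    intro a ha b hb
    rw [← hχmul _ (hcm ha hb) _ (hcm hb ha)]
    have e : a * b * a⁻¹ * b⁻¹ * (b * a * b⁻¹ * a⁻¹) = 1 := by group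
    rw [e, hχ1]
  have hβr : ∀ a ∈ R₁, ∀ b ∈ R₁, ∀ b' ∈ R₁, χ (a * (b * b') * a⁻¹ * (b * b')⁻¹) =
      χ (a * b * a⁻¹ * b⁻¹) * χ (a * b' * a⁻¹ * b'⁻¹) := by
    intro a ha b hb b' hb'
    have h1 := hcm ha hb'
    have e : a * (b * b') * a⁻¹ * (b * b')⁻¹ = (a * b * a⁻¹ * b⁻¹) * (a * b' * a⁻¹ * b'⁻¹) := by
      calc a * (b * b') * a⁻¹ * (b * b')⁻¹ = (a * b * a⁻¹ * b⁻¹) * (b * (a * b' * a⁻¹ * b'⁻¹) * b⁻¹) := by group
        _ = _ := by rw [← hcen _ h1 b hb, mul_inv_cancel_right]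
    rw [e, hχmul _ (hcm ha hb) _ h1]
  let Rad : Subgroup G :=
    { carrier := {a | a ∈ R₁ ∧ ∀ b ∈ R₁, χ (a * b * a⁻¹ * b⁻¹) = 1}
      mul_mem' := by
        rintro a a' ⟨ha, ha1⟩ ⟨ha', ha1'⟩
        refine ⟨R₁.mul_mem ha ha', fun b hb => ?_⟩
        rw [hβl a ha a' ha' b hb, ha1 b hb, ha1' b hb, mul_one]
      one_mem' := by
        refine ⟨R₁.one_mem, fun b _ => ?_⟩
        have e : (1 : G) * b * (1 : G)⁻¹ * b⁻¹ = 1 := by group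
        rw [e, hχ1]
      inv_mem' := by
        rintro a ⟨ha, ha1⟩
        refine ⟨R₁.inv_mem ha, fun b hb => ?_⟩
        have h1 := hβl a ha a⁻¹ (R₁.inv_mem ha) b hb
        rw [ha1 b hb, one_mul] at h1
        rw [← h1]
        have e : (a * a⁻¹) * b * (a * a⁻¹)⁻¹ * b⁻¹ = 1 := by group
        rw [e, hχ1] }
  have hRadmem : ∀ a, a ∈ Rad ↔ a ∈ R₁ ∧ ∀ b ∈ R₁, χ (a * b * a⁻¹ * b⁻¹) = 1 := fun a => Iff.rfl
  have hZRad : Z1 R₁ ≤ Rad := by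
    intro c hc
    refine (hRadmem c).mpr ⟨Z1_le hc, fun b hb => ?_⟩
    rw [hcen c hc b hb]
    have e : b * c * c⁻¹ * b⁻¹ = 1 := by group
    rw [e, hχ1]
  let Γ : Subgroup G :=
    { carrier := {t | t ∈ B ∧ ∀ c ∈ Z1 R₁, χ (t * c * t⁻¹) = χ c}
      mul_mem' := by
        rintro t t' ⟨ht, ht1⟩ ⟨ht', ht1'⟩
        refine ⟨B.mul_mem ht ht', fun c hc => ?_⟩
        have e : t * t' * c * (t * t')⁻¹ = t * (t' * c * t'⁻¹) * t⁻¹ := by group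
        rw [e, ht1 _ (conj_mem_Z1 (S.nR₁ ht') hc), ht1' c hc]
      one_mem' := by
        refine ⟨B.one_mem, fun c _ => ?_⟩
        congr 1
        group
      inv_mem' := by
        rintro t ⟨ht, ht1⟩
        refine ⟨B.inv_mem ht, fun c hc => ?_⟩
        have h1 := ht1 _ (conj_mem_Z1 (Subgroup.inv_mem _ (S.nR₁ ht)) hc)
        have e : t * (t⁻¹ * c * t⁻¹⁻¹) * t⁻¹ = c := by group
        rw [e] at h1
        exact h1.symm }
  have hΓmem : ∀ t, t ∈ Γ ↔ t ∈ B ∧ ∀ c ∈ Z1 R₁, χ (t * c * t⁻¹) = χ c := fun t => Iff.rfl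
  have hconjcm : ∀ t ∈ Γ, ∀ a ∈ R₁, ∀ b ∈ R₁, χ ((t * a * t⁻¹) * (t * b * t⁻¹) * (t * a * t⁻¹)⁻¹ * (t * b * t⁻¹)⁻¹) =
      χ (a * b * a⁻¹ * b⁻¹) := by
    intro t ht a ha b hb
    have e : (t * a * t⁻¹) * (t * b * t⁻¹) * (t * a * t⁻¹)⁻¹ * (t * b * t⁻¹)⁻¹ = t * (a * b * a⁻¹ * b⁻¹) * t⁻¹ := by group
    rw [e]
    exact ht.2 _ (hcm ha hb)
  have hΓR : Γ ≤ Subgroup.normalizer (R₁ : Set G) := fun t ht => S.nR₁ ht.1
  have hΓRad : Γ ≤ Subgroup.normalizer (Rad : Set G) := by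
    have key : ∀ t ∈ Γ, ∀ a ∈ Rad, t * a * t⁻¹ ∈ Rad := by
      intro t ht a ha
      refine (hRadmem _).mpr ⟨conj_mem_of_mem_normalizer (hΓR ht) ha.1, fun b hb => ?_⟩
      have h1 := hconjcm t ht a ha.1 (t⁻¹ * b * t) (inv_conj_mem_of_mem_normalizer (hΓR ht) hb)
      have e : t * (t⁻¹ * b * t) * t⁻¹ = b := by group
      rw [e] at h1
      rw [h1]
      exact ha.2 _ (inv_conj_mem_of_mem_normalizer (hΓR ht) hb)
    intro t ht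
    refine mem_normalizer_of_forall (key t ht) (fun g hg => ?_)
    have h := key t⁻¹ (Γ.inv_mem ht) g hg
    simpa using h
  obtain ⟨W, i1, i2, i3, τ, π, hπadd, hπsurj, hπ0, hπconj⟩ :=
    Cfsg.Agent.Lib.Bry.Sec.exists_section_module_of_le_normalizer (p := q) Rad R₁ Γ (fun a ha => ha.1) hΓRad hΓR
      (fun a ha b hb => hZRad (hcm ha hb)) (fun a ha => hZRad (pow_mem_Z1 S.R₁_q ha))
  let lift : W → R₁ := Function.surjInv hπsurj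
  have hlift : ∀ w, π (lift w) = w := Function.surjInv_eq hπsurj
  let ω : W → W → Kˣ := fun w w' => χ ((lift w).1 * (lift w').1 * (lift w).1⁻¹ * (lift w').1⁻¹)
  have hπinv : ∀ a : R₁, π a⁻¹ = - π a := by
    intro a
    have h1 : π 1 = 0 := (hπ0 1).mpr Rad.one_mem
    have h2 := hπadd a⁻¹ a
    rw [inv_mul_cancel, h1] at h2
    exact eq_neg_of_add_eq_zero_left h2.symm
  have hωπl : ∀ (a a' : R₁) (b : G), b ∈ R₁ → π a = π a' →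
      χ (a.1 * b * a.1⁻¹ * b⁻¹) = χ (a'.1 * b * a'.1⁻¹ * b⁻¹) := by
    intro a a' b hb h
    have h1 : π (a⁻¹ * a') = 0 := by
      rw [hπadd, hπinv, h, neg_add_cancel]
    have h2 := (hπ0 _).mp h1
    have e : a'.1 = a.1 * (a⁻¹ * a').1 := by
      push_cast
      group
    rw [e, hβl a.1 a.2 _ (a⁻¹ * a').2 b hb, h2.2 b hb, mul_one]
  have hωπr : ∀ (a : G) (b b' : R₁), a ∈ R₁ → π b = π b' →
      χ (a * b.1 * a⁻¹ * b.1⁻¹) = χ (a * b'.1 * a⁻¹ * b'.1⁻¹) := by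
    intro a b b' ha h
    have h1 := hωπl b b' a ha h
    have h2 := hβanti a ha b.1 b.2
    have h3 := hβanti a ha b'.1 b'.2
    rw [h1] at h2
    exact mul_right_cancel (h2.trans h3.symm)
  have hωπ : ∀ a b : R₁, ω (π a) (π b) = χ (a.1 * b.1 * a.1⁻¹ * b.1⁻¹) := by
    intro a b
    change χ ((lift (π a)).1 * (lift (π b)).1 * (lift (π a)).1⁻¹ * (lift (π b)).1⁻¹) = _
    rw [hωπl (lift (π a)) a _ (lift (π b)).2 (hlift _), hωπr a.1 (lift (π b)) b a.2 (hlift _)]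
  have hform : IsForm ω := by
    refine ⟨?_, ?_, ?_, ?_, noinv_units⟩
    · intro w₁ w₂ w₃
      obtain ⟨a, rfl⟩ := hπsurj w₁
      obtain ⟨a', rfl⟩ := hπsurj w₂
      obtain ⟨b, rfl⟩ := hπsurj w₃
      rw [← hπadd, hωπ, hωπ, hωπ]
      exact hβl a.1 a.2 a'.1 a'.2 b.1 b.2
    · intro w₁ w₂ w₃
      obtain ⟨a, rfl⟩ := hπsurj w₁
      obtain ⟨b, rfl⟩ := hπsurj w₂
      obtain ⟨b', rfl⟩ := hπsurj w₃
      rw [← hπadd, hωπ, hωπ, hωπ]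
      exact hβr a.1 a.2 b.1 b.2 b'.1 b'.2
    · intro w
      obtain ⟨a, rfl⟩ := hπsurj w
      rw [hωπ]
      have e : a.1 * a.1 * a.1⁻¹ * a.1⁻¹ = 1 := by group
      rw [e, hχ1]
    · intro w hw
      obtain ⟨a, rfl⟩ := hπsurj w
      refine (hπ0 a).mpr ((hRadmem _).mpr ⟨a.2, fun b hb => ?_⟩)
      have h1 := hw (π ⟨b, hb⟩)
      rwa [hωπ] at h1
  let E : Submodule K V :=
    { carrier := {v | ∀ c ∈ Z1 R₁, ρ c v = (χ c : K) • v}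
      add_mem' := by
        intro a b ha hb c hc
        rw [map_add, ha c hc, hb c hc, smul_add]
      zero_mem' := by
        intro c _
        simp
      smul_mem' := by
        intro s a ha c hc
        rw [map_smul, ha c hc, smul_comm] }
  have hEmem : ∀ v, v ∈ E ↔ ∀ c ∈ Z1 R₁, ρ c v = (χ c : K) • v := fun v => Iff.rfl
  refine ⟨χ, E, Γ, W, i1, i2, i3, τ, π, ω, ⟨hχmul, ?_, ?_, fun c hc v hv => hv c hc, hΓmem, hπadd, hπsurj, hπconj, hform,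
    hωπ, ?_⟩, hχc₁⟩
  · intro h
    have : v₀ ∈ E := (hEmem v₀).mpr hχv
    rw [h, Submodule.mem_bot] at this
    exact hv₀ this
  · intro a ha v hv c hc
    rw [← Module.End.mul_apply, ← map_mul, hcen c hc a ha, map_mul, Module.End.mul_apply, hv c hc, map_smul]
  · intro g w w'
    obtain ⟨a, rfl⟩ := hπsurj w
    obtain ⟨b, rfl⟩ := hπsurj w'
    have hm1 : g.1 * a.1 * g.1⁻¹ ∈ R₁ := conj_mem_of_mem_normalizer (hΓR g.2) a.2
    have hm2 : g.1 * b.1 * g.1⁻¹ ∈ R₁ := conj_mem_of_mem_normalizer (hΓR g.2) b.2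
    rw [hπconj g a ⟨_, hm1⟩ rfl, hπconj g b ⟨_, hm2⟩ rfl, hωπ, hωπ]
    exact hconjcm g.1 g.2 a.1 a.2 b.1 b.2

end Exists

end Cfsg.Agent.Lib.Bry.Chi
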