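/-
Bryukhanova's theorem: the action of the last power of a `2`-element on the section attached to a character.
-/
import Cfsg.Agent.Lib.Bry.Chi

set_option autoImplicit false

namespace Cfsg.Agent.Lib.Bry.YFacts

open Module Cfsg.Agent.Lib.Bry.Setup Cfsg.Agent.Lib.Bry.Basic Cfsg.Agent.Lib.Bry.Form Cfsg.Agent.Lib.Bry.Chi
  Cfsg.Agent.Lib.HallHigman.Irr Cfsg.Agent.Lib.Gross.ConfigAux Cfsg.Agent.Lib.Coprime.Action Cfsg.Agent.Lib.Gross.IR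
open scoped commutatorElement

universe u v w

variable {K : Type u} [Field K] [IsAlgClosed K] [CharP K 2] {V : Type v} [AddCommGroup V] [Module K V]
    [FiniteDimensional K V] {G : Type w} [Group G] [Finite G]
  {ρ : G →* End K V} {n q : ℕ} {B That T₀ D R₁ Ks : Subgroup G}
  {χ : G → Kˣ} {E : Submodule K V} {Γ : Subgroup G} {W : Type w} [AddCommGroup W] [Module (ZMod q) W]
  {τ : Γ →* End (ZMod q) W} {π : R₁ → W} {ω : W → W → Kˣ}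

section

variable (S : Setup ρ n q B That T₀ D R₁ Ks) [hqf : Fact q.Prime] (hs : Sec ρ B R₁ χ E Γ τ π ω)
include S hs

/-- The last power of a `2`-element of `B` lies in `Γ`. -/
theorem y_mem_Γ {x : G} (hx : x ∈ B) (hx2 : ∃ k, x ^ 2 ^ k = 1) : x ^ 2 ^ n ∈ Γ := by
  refine (hs.mem_Γ _).mpr ⟨Subgroup.pow_mem _ hx _, fun c hc => ?_⟩
  have h1 := J_ab ρ S.inj n S.q_ne (Z1 R₁) (S.R₁_q.to_le Z1_le)
    (fun a ha b hb => Z1_central S a ha b (Z1_le hb)) x (mem_normalizer_Z1 (S.nR₁ hx)) (S.exp x hx2) (S.norm x hx2) c hc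
  rw [h1, mul_inv_cancel_right]

theorem pi_one : π 1 = 0 := by
  have := hs.π_add 1 1
  rw [mul_one] at this
  simpa using this

theorem pi_inv (a : R₁) : π a⁻¹ = - π a := by
  have h2 := hs.π_add a⁻¹ a
  rw [inv_mul_cancel, pi_one S hs] at h2
  exact eq_neg_of_add_eq_zero_left h2.symm

theorem pi_pow (a : R₁) (i : ℕ) : π (a ^ i) = i • π a := by
  induction i with
  | zero => simp [pi_one S hs]
  | succ i ih => rw [pow_succ, hs.π_add, ih, succ_nsmul]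

variable {x : G} (hx : x ∈ B) (hx2 : ∃ k, x ^ 2 ^ k = 1)
include hx hx2

theorem y_sq : x ^ 2 ^ n * x ^ 2 ^ n = 1 := by
  have h := S.exp x hx2
  rw [pow_succ, pow_mul, pow_two] at h
  exact h

/-- `T` is an involution. -/
theorem T_invol (w : W) : τ ⟨x ^ 2 ^ n, y_mem_Γ S hs hx hx2⟩ (τ ⟨x ^ 2 ^ n, y_mem_Γ S hs hx hx2⟩ w) = w := by
  rw [← Module.End.mul_apply, ← map_mul]
  have e : (⟨x ^ 2 ^ n, y_mem_Γ S hs hx hx2⟩ * ⟨x ^ 2 ^ n, y_mem_Γ S hs hx hx2⟩ : Γ) = 1 :=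
    Subtype.ext (y_sq S hs hx hx2)
  rw [e, map_one, Module.End.one_apply]

theorem Q_le : ⁅R₁, Subgroup.zpowers (x ^ 2 ^ n)⁆ ≤ R₁ :=
  commutator_le_of_le_normalizer (Subgroup.zpowers_le.mpr (Subgroup.pow_mem _ (S.nR₁ hx) _))

theorem Q_q : IsPGroup q (⁅R₁, Subgroup.zpowers (x ^ 2 ^ n)⁆ : Subgroup G) := S.R₁_q.to_le (Q_le S hs hx hx2)

theorem Q_t : ⁅(⁅R₁, Subgroup.zpowers (x ^ 2 ^ n)⁆ : Subgroup G), Subgroup.zpowers (x ^ 2 ^ n)⁆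
    = ⁅R₁, Subgroup.zpowers (x ^ 2 ^ n)⁆ := by
  haveI h2p : Fact (Nat.Prime 2) := ⟨Nat.prime_two⟩
  have hZR : Subgroup.zpowers (x ^ 2 ^ n) ≤ Subgroup.normalizer (R₁ : Set G) :=
    Subgroup.zpowers_le.mpr (Subgroup.pow_mem _ (S.nR₁ hx) _)
  have hy2 : (x ^ 2 ^ n) ^ 2 ^ 1 = 1 := by
    rw [pow_one, pow_two]
    exact y_sq S hs hx hx2
  have hcop : (Nat.card (Subgroup.zpowers (x ^ 2 ^ n))).Coprime (Nat.card R₁) :=
    IsPGroup.coprime_card_of_ne 2 q (Ne.symm S.q_ne) _ R₁ (isPGroup_zpowers hy2) S.R₁_q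
  exact commutator_commutator_eq hZR hcop (Or.inl inferInstance)

theorem x_Q : x ∈ Subgroup.normalizer ((⁅R₁, Subgroup.zpowers (x ^ 2 ^ n)⁆ : Subgroup G) : Set G) := by
  have hxZ : Subgroup.zpowers x ≤ Subgroup.normalizer ((Subgroup.zpowers (x ^ 2 ^ n) : Subgroup G) : Set G) :=
    Subgroup.zpowers_le.mpr (mem_normalizer_zpowers_pow x _)
  exact le_normalizer_commutator_of_le (T := Subgroup.zpowers x) (Subgroup.zpowers_le.mpr (S.nR₁ hx)) hxZ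
    (Subgroup.mem_zpowers x)

theorem comm_y_mem (a : G) (ha : a ∈ R₁) : a * x ^ 2 ^ n * a⁻¹ * (x ^ 2 ^ n)⁻¹ ∈ R₁ :=
  Q_le S hs hx hx2 (Subgroup.commutator_mem_commutator ha (Subgroup.mem_zpowers _))

/-- `π` of a commutator with `y`. -/
theorem pi_comm_y (a : R₁) :
    π ⟨a.1 * x ^ 2 ^ n * a.1⁻¹ * (x ^ 2 ^ n)⁻¹, comm_y_mem S hs hx hx2 a.1 a.2⟩
      = π a - τ ⟨x ^ 2 ^ n, y_mem_Γ S hs hx hx2⟩ (π a) := by
  have hm : x ^ 2 ^ n * a.1⁻¹ * (x ^ 2 ^ n)⁻¹ ∈ R₁ :=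
    conj_mem_of_mem_normalizer (Subgroup.pow_mem _ (S.nR₁ hx) _) (R₁.inv_mem a.2)
  have e : (⟨a.1 * x ^ 2 ^ n * a.1⁻¹ * (x ^ 2 ^ n)⁻¹, comm_y_mem S hs hx hx2 a.1 a.2⟩ : R₁) = a * ⟨_, hm⟩ :=
    Subtype.ext (by
      change _ = a.1 * (x ^ 2 ^ n * a.1⁻¹ * (x ^ 2 ^ n)⁻¹)
      group)
  rw [e, hs.π_add, ← hs.π_conj ⟨x ^ 2 ^ n, y_mem_Γ S hs hx hx2⟩ a⁻¹ ⟨_, hm⟩ rfl, pi_inv S hs, map_neg, sub_eq_add_neg]

/-- `Q` maps into the `-1` eigenspace. -/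
theorem Q_minus (g : R₁) (hg : g.1 ∈ (⁅R₁, Subgroup.zpowers (x ^ 2 ^ n)⁆ : Subgroup G)) :
    τ ⟨x ^ 2 ^ n, y_mem_Γ S hs hx hx2⟩ (π g) = - π g := by
  set T := τ ⟨x ^ 2 ^ n, y_mem_Γ S hs hx hx2⟩ with hT
  have hTT := T_invol S hs hx hx2
  let M : Subgroup G :=
    { carrier := {g | ∃ h : g ∈ R₁, T (π ⟨g, h⟩) = - π ⟨g, h⟩}
      mul_mem' := by
        rintro a b ⟨ha, ha'⟩ ⟨hb, hb'⟩
        refine ⟨R₁.mul_mem ha hb, ?_⟩
        have e : (⟨a * b, R₁.mul_mem ha hb⟩ : R₁) = ⟨a, ha⟩ * ⟨b, hb⟩ := rfl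
        rw [e, hs.π_add, map_add, ha', hb', neg_add]
      one_mem' := by
        refine ⟨R₁.one_mem, ?_⟩
        have e : (⟨1, R₁.one_mem⟩ : R₁) = 1 := rfl
        rw [e, pi_one S hs, map_zero, neg_zero]
      inv_mem' := by
        rintro a ⟨ha, ha'⟩
        refine ⟨R₁.inv_mem ha, ?_⟩
        have e : (⟨a⁻¹, R₁.inv_mem ha⟩ : R₁) = (⟨a, ha⟩ : R₁)⁻¹ := rfl
        rw [e, pi_inv S hs, map_neg, ha'] }
  have hle : (⁅R₁, Subgroup.zpowers (x ^ 2 ^ n)⁆ : Subgroup G) ≤ M := by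
    rw [Subgroup.commutator_le]
    intro a ha z hz
    obtain ⟨i, rfl⟩ := Subgroup.mem_zpowers_iff.mp hz
    have hy2 := y_sq S hs hx hx2
    have hcases : (x ^ 2 ^ n) ^ i = 1 ∨ (x ^ 2 ^ n) ^ i = x ^ 2 ^ n := by
      rcases Int.even_or_odd' i with ⟨j, rfl | rfl⟩
      · left
        rw [zpow_mul, zpow_two, hy2, one_zpow]
      · right
        rw [zpow_add, zpow_mul, zpow_two, hy2, one_zpow, one_mul, zpow_one]
    rcases hcases with h | h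
    · rw [h, commutatorElement_def]
      have e : a * 1 * a⁻¹ * (1 : G)⁻¹ = 1 := by group
      rw [e]
      exact M.one_mem
    · rw [h, commutatorElement_def]
      refine ⟨comm_y_mem S hs hx hx2 a ha, ?_⟩
      rw [pi_comm_y S hs hx hx2 ⟨a, ha⟩, map_sub, hTT]
      abel
  obtain ⟨h, hh⟩ := hle hg
  exact hh

/-- `Q` maps onto the `-1` eigenspace. -/
theorem Q_lift (w : W) (hw : τ ⟨x ^ 2 ^ n, y_mem_Γ S hs hx hx2⟩ w = - w) :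
    ∃ g : R₁, g.1 ∈ (⁅R₁, Subgroup.zpowers (x ^ 2 ^ n)⁆ : Subgroup G) ∧ π g = w := by
  have hq2 : q ≠ 2 := S.q_ne
  obtain ⟨e, he⟩ := (hqf.out.odd_of_ne_two hq2)
  obtain ⟨a, rfl⟩ := hs.π_surj w
  refine ⟨⟨_, comm_y_mem S hs hx hx2 (a ^ (e + 1)).1 (a ^ (e + 1)).2⟩,
    Subgroup.commutator_mem_commutator (a ^ (e + 1)).2 (Subgroup.mem_zpowers _), ?_⟩
  rw [pi_comm_y S hs hx hx2 (a ^ (e + 1)), pi_pow S hs, map_nsmul, hw]
  have h1 : (q : ZMod q) = 0 := ZMod.natCast_self q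
  have h2 : (((e + 1) + (e + 1) : ℕ) : ZMod q) = 1 := by
    have : (e + 1) + (e + 1) = q + 1 := by omega
    rw [this]
    push_cast
    rw [h1, zero_add]
  have h3 := congrArg (fun c : ZMod q => c • π a) h2
  simp only [one_smul] at h3
  rw [Nat.cast_smul_eq_nsmul, add_nsmul] at h3
  rw [smul_neg, sub_neg_eq_add]
  exact h3

/-- Nondegeneracy on `Q`. -/
theorem Q_nd (g : R₁) (hg : g.1 ∈ (⁅R₁, Subgroup.zpowers (x ^ 2 ^ n)⁆ : Subgroup G)) (h0 : π g ≠ 0) :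
    ∃ h : R₁, h.1 ∈ (⁅R₁, Subgroup.zpowers (x ^ 2 ^ n)⁆ : Subgroup G) ∧ χ (g.1 * h.1 * g.1⁻¹ * h.1⁻¹) ≠ 1 := by
  obtain ⟨b, hb, hgb⟩ := nd_minus hs.form S.q_ne (hs.iso ⟨x ^ 2 ^ n, y_mem_Γ S hs hx hx2⟩)
    (T_invol S hs hx hx2) (Q_minus S hs hx hx2 g hg) h0
  obtain ⟨h, hh, rfl⟩ := Q_lift S hs hx hx2 b hb
  refine ⟨h, hh, ?_⟩
  rwa [hs.ω_π] at hgb

/-- The irreducible module of `Q`. -/
theorem exists_U₁ (w : W) (hw : τ ⟨x ^ 2 ^ n, y_mem_Γ S hs hx hx2⟩ w = - w) (hw0 : w ≠ 0) :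
    ∃ (U₁ : Submodule K V) (k a : ℕ), U₁ ≤ E ∧ IsIrr ρ (⁅R₁, Subgroup.zpowers (x ^ 2 ^ n)⁆ : Subgroup G) U₁ ∧
      2 ^ k = q + 1 ∧ n + 1 = a + k ∧ (∀ u ∈ U₁, ρ (x ^ 2 ^ a) u ∈ U₁) ∧ finrank K U₁ = q ∧
      ∀ F, QH ρ (⁅R₁, Subgroup.zpowers (x ^ 2 ^ n)⁆ : Subgroup G) U₁ F → ∀ u ∈ U₁,
        ρ (x ^ 2 ^ a) (F u) = F (ρ (x ^ 2 ^ a) u) := by
  classical
  set Q : Subgroup G := ⁅R₁, Subgroup.zpowers (x ^ 2 ^ n)⁆ with hQ
  obtain ⟨g, hg, rfl⟩ := Q_lift S hs hx hx2 w hw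
  obtain ⟨h, hh, hgh⟩ := Q_nd S hs hx hx2 g hg hw0
  have hEinv : IsInv ρ Q E := fun a ha v hv => hs.E_inv a (Q_le S hs hx hx2 ha) v hv
  obtain ⟨U₁, hU₁E, hU₁⟩ := Cfsg.Agent.Lib.Gross.Avg.exists_irr_le hs.E_ne hEinv
  have hnt : ∃ g ∈ Q, ∃ u ∈ U₁, ρ g u ≠ u := by
    by_contra hcon
    push Not at hcon
    obtain ⟨u, hu, hu0⟩ := Submodule.exists_mem_ne_zero_of_ne_bot hU₁.ne_bot
    apply hgh
    have hc : g.1 * h.1 * g.1⁻¹ * h.1⁻¹ ∈ Z1 R₁ := comm_mem_Z1 S.R₁_q g.2 h.2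
    have h1 := hs.E_χ _ hc u (hU₁E hu)
    have h2 : ρ (g.1 * h.1 * g.1⁻¹ * h.1⁻¹) u = u := by
      simp only [map_mul, Module.End.mul_apply]
      rw [hcon _ (Q.inv_mem hh) u hu, hcon _ (Q.inv_mem hg) u hu, hcon _ hh u hu, hcon _ hg u hu]
    rw [h2] at h1
    have h3 : ((χ (g.1 * h.1 * g.1⁻¹ * h.1⁻¹) : K) - 1) • u = 0 := by
      rw [sub_smul, ← h1, one_smul, sub_self]
    have h4 := (smul_eq_zero.mp h3).resolve_right hu0
    exact Units.ext (sub_eq_zero.mp h4)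
  obtain ⟨k, a, h1, h2, h3, h4, h5⟩ := Cfsg.Agent.Lib.Bry.Chi.irr_props2 (q_cast_ne (K := K) S) S.q_ne (Q_q S hs hx hx2) x
    (x_Q S hs hx hx2) n (S.exp x hx2) (S.norm x hx2) (Q_t S hs hx hx2) hU₁ hnt
  exact ⟨U₁, k, a, hU₁E, hU₁, h1, h2, h3, h4, h5⟩

/-- The rank bound. -/
theorem finrank_minus_le [FiniteDimensional (ZMod q) W] :
    finrank (ZMod q) (LinearMap.ker (τ ⟨x ^ 2 ^ n, y_mem_Γ S hs hx hx2⟩ + 1)) ≤ 2 := by
  classical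
  set T := τ ⟨x ^ 2 ^ n, y_mem_Γ S hs hx hx2⟩ with hT
  set P := LinearMap.ker (T + 1) with hP
  have hmemP : ∀ v, v ∈ P ↔ T v = -v := by
    intro v
    rw [hP, LinearMap.mem_ker]
    simp only [LinearMap.add_apply, Module.End.one_apply]
    exact ⟨fun h => eq_neg_of_add_eq_zero_left h, fun h => by rw [h]; abel⟩
  by_cases hP0 : P = ⊥
  · rw [hP0, finrank_bot]
    omega
  obtain ⟨w, hw, hw0⟩ := Submodule.exists_mem_ne_zero_of_ne_bot hP0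
  obtain ⟨U₁, k, a, hU₁E, hU₁, -, -, -, hfin, -⟩ := exists_U₁ S hs hx hx2 w ((hmemP w).mp hw) hw0
  set Q : Subgroup G := ⁅R₁, Subgroup.zpowers (x ^ 2 ^ n)⁆ with hQ
  have hQle : Q ≤ R₁ := Q_le S hs hx hx2
  let σ := Cfsg.Agent.Lib.HallHigman.Core.resQ ρ Q U₁ hU₁.inv
  have hσ : ∀ (g : Q) (u : U₁), ((σ g u : U₁) : V) = ρ g.1 u.1 := fun g u => rfl
  -- the trace vanishes off the radical
  have htr : ∀ g : R₁, ∀ hg : g.1 ∈ Q, π g ≠ 0 → LinearMap.trace K U₁ (σ ⟨g.1, hg⟩) = 0 := by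
    intro g hg h0
    obtain ⟨h, hh, hgh⟩ := Q_nd S hs hx hx2 g hg h0
    set c := h.1 * g.1 * h.1⁻¹ * g.1⁻¹ with hc
    have hcZ : c ∈ Z1 R₁ := comm_mem_Z1 S.R₁_q h.2 g.2
    have hcne : (χ c : K) ≠ 1 := by
      intro h1
      apply hgh
      have h2 : χ c = 1 := Units.ext h1
      have h3 : χ c * χ (g.1 * h.1 * g.1⁻¹ * h.1⁻¹) = 1 := by
        rw [← hs.χ_mul _ hcZ _ (comm_mem_Z1 S.R₁_q g.2 h.2)]
        have e : c * (g.1 * h.1 * g.1⁻¹ * h.1⁻¹) = 1 * 1 := by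
          rw [hc]
          group
        rw [e, hs.χ_mul _ (Subgroup.one_mem _) _ (Subgroup.one_mem _)]
        have h4 := hs.χ_mul 1 (Subgroup.one_mem _) 1 (Subgroup.one_mem _)
        rw [mul_one] at h4
        rw [← h4]
        exact mul_eq_left.mp h4.symm
      rw [h2, one_mul] at h3
      exact h3
    have e1 : σ ⟨h.1, hh⟩ * σ ⟨g.1, hg⟩ * σ (⟨h.1, hh⟩ : Q)⁻¹ = (χ c : K) • σ ⟨g.1, hg⟩ := by
      rw [← map_mul, ← map_mul]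
      ext u
      have e2 : (⟨h.1, hh⟩ * ⟨g.1, hg⟩ * (⟨h.1, hh⟩ : Q)⁻¹ : Q).1 = c * g.1 := by
        change h.1 * g.1 * h.1⁻¹ = c * g.1
        rw [hc]
        group
      change ρ (⟨h.1, hh⟩ * ⟨g.1, hg⟩ * (⟨h.1, hh⟩ : Q)⁻¹ : Q).1 u.1 = (χ c : K) • ρ g.1 u.1
      rw [e2, map_mul, Module.End.mul_apply]
      exact hs.E_χ c hcZ _ (hU₁E (hU₁.inv _ hg _ u.2))
    have e2 : LinearMap.trace K U₁ (σ ⟨h.1, hh⟩ * σ ⟨g.1, hg⟩ * σ (⟨h.1, hh⟩ : Q)⁻¹)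
        = LinearMap.trace K U₁ (σ ⟨g.1, hg⟩) := by
      rw [LinearMap.trace_mul_comm, ← mul_assoc, ← map_mul]
      simp
    rw [e1, map_smul, smul_eq_mul] at e2
    have e3 : ((χ c : K) - 1) * LinearMap.trace K U₁ (σ ⟨g.1, hg⟩) = 0 := by
      linear_combination e2
    exact (mul_eq_zero.mp e3).resolve_left (sub_ne_zero.mpr hcne)
  -- the lifts
  have hlift : ∀ v : P, ∃ g : R₁, g.1 ∈ Q ∧ π g = v.1 := fun v => Q_lift S hs hx hx2 v.1 ((hmemP _).mp v.2)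
  choose gg hgg hπg using hlift
  haveI : Finite W := Module.finite_of_finite (ZMod q)
  letI : Fintype P := Fintype.ofFinite P
  let f : P → End K U₁ := fun v => σ ⟨(gg v).1, hgg v⟩
  have hqK : (q : K) ≠ 0 := q_cast_ne (K := K) S
  have hind : LinearIndependent K f := by
    rw [linearIndependent_iff']
    intro s α hsum i₀ hi₀
    have h1 := congrArg (fun F : End K U₁ => LinearMap.trace K U₁ (F * σ (⟨(gg i₀).1, hgg i₀⟩ : Q)⁻¹)) hsum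
    simp only [Finset.sum_mul, map_sum, zero_mul, map_zero, smul_mul_assoc, map_smul, smul_eq_mul] at h1
    rw [Finset.sum_eq_single i₀] at h1
    · have e : f i₀ * σ (⟨(gg i₀).1, hgg i₀⟩ : Q)⁻¹ = 1 := by
        simp only [f]
        rw [← map_mul, mul_inv_cancel, map_one]
      rw [e, LinearMap.trace_one, hfin] at h1
      exact (mul_eq_zero.mp h1).resolve_right hqK
    · intro i _ hi
      have hm : (gg i).1 * (gg i₀).1⁻¹ ∈ Q := Q.mul_mem (hgg i) (Q.inv_mem (hgg i₀))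
      have e : f i * σ (⟨(gg i₀).1, hgg i₀⟩ : Q)⁻¹ = σ ⟨((gg i) * (gg i₀)⁻¹).1, hm⟩ := by
        simp only [f]
        rw [← map_mul]
        rfl
      have h0 : π ((gg i) * (gg i₀)⁻¹) ≠ 0 := by
        rw [hs.π_add, pi_inv S hs, hπg, hπg, ← sub_eq_add_neg, sub_ne_zero]
        exact fun h => hi (Subtype.ext h)
      rw [e, htr _ hm h0, mul_zero]
    · intro h
      exact absurd hi₀ h
  have hcard := hind.fintype_card_le_finrank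
  rw [Module.finrank_linearMap, hfin, Module.card_eq_pow_finrank (K := ZMod q) (V := P), ZMod.card] at hcard
  have hq1 := hqf.out.one_lt
  rw [← pow_two] at hcard
  exact (Nat.pow_le_pow_iff_right hq1).mp hcard

/-- The structure of `z = x ^ 2 ^ a`. -/
theorem z_facts (w : W) (hw : τ ⟨x ^ 2 ^ n, y_mem_Γ S hs hx hx2⟩ w = - w) (hw0 : w ≠ 0) :
    ∃ (k a : ℕ) (hz : x ^ 2 ^ a ∈ Γ), 2 ^ k = q + 1 ∧ n + 1 = a + k ∧
      ∀ v, τ ⟨x ^ 2 ^ n, y_mem_Γ S hs hx hx2⟩ v = v → τ ⟨x ^ 2 ^ a, hz⟩ v = v := by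
  classical
  obtain ⟨U₁, k, a, hU₁E, hU₁, hk, hak, hst, -, hcomm⟩ := exists_U₁ S hs hx hx2 w hw hw0
  set Q : Subgroup G := ⁅R₁, Subgroup.zpowers (x ^ 2 ^ n)⁆ with hQ
  have hQle : Q ≤ R₁ := Q_le S hs hx hx2
  set T := τ ⟨x ^ 2 ^ n, y_mem_Γ S hs hx hx2⟩ with hT
  have hTT : ∀ v, T (T v) = v := T_invol S hs hx hx2
  set z := x ^ 2 ^ a with hz
  have hzB : z ∈ B := Subgroup.pow_mem _ hx _
  have hzR : z ∈ Subgroup.normalizer (R₁ : Set G) := S.nR₁ hzB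
  obtain ⟨u₀, hu₀, hu₀0⟩ := Submodule.exists_mem_ne_zero_of_ne_bot hU₁.ne_bot
  have hzΓ : z ∈ Γ := by
    refine (hs.mem_Γ z).mpr ⟨hzB, fun c hc => ?_⟩
    have hcz := conj_mem_Z1 hzR hc
    have h1 := hs.E_χ _ hcz _ (hU₁E (hst u₀ hu₀))
    have h2 : ρ (z * c * z⁻¹) (ρ z u₀) = ρ z (ρ c u₀) := by
      rw [← Module.End.mul_apply, ← map_mul, ← Module.End.mul_apply, ← map_mul]
      congr 2
      group
    rw [h2, hs.E_χ c hc u₀ (hU₁E hu₀), map_smul] at h1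
    have hne : ρ z u₀ ≠ 0 := by
      intro h0
      apply hu₀0
      have := rho_inv_apply ρ z u₀
      rw [h0, map_zero] at this
      exact this.symm
    have h3 : ((χ c : K) - (χ (z * c * z⁻¹) : K)) • ρ z u₀ = 0 := by
      rw [sub_smul, h1, sub_self]
    have h4 := (smul_eq_zero.mp h3).resolve_right hne
    exact Units.ext (sub_eq_zero.mp h4).symm
  refine ⟨k, a, hzΓ, hk, hak, ?_⟩
  have hzP : z ^ 2 ^ k = 1 := by
    rw [hz, ← pow_mul, ← pow_add, ← hak]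
    exact S.exp x hx2
  have hzi : z⁻¹ = z ^ (2 ^ k - 1) := by
    rw [inv_eq_iff_mul_eq_one, ← pow_succ', Nat.sub_add_cancel (Nat.one_le_pow _ _ (by norm_num)), hzP]
  have hzpow : ∀ j : ℕ, ∀ u ∈ U₁, ρ (z ^ j) u ∈ U₁ := by
    intro j
    induction j with
    | zero =>
      intro u hu
      simpa using hu
    | succ j ih =>
      intro u hu
      rw [pow_succ', map_mul, Module.End.mul_apply]
      exact hst _ (ih u hu)
  have hstinv : ∀ u ∈ U₁, ρ z⁻¹ u ∈ U₁ := fun u hu => by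
    rw [hzi]
    exact hzpow _ u hu
  -- elements of the `+1` eigenspace act as `Q`-homomorphisms
  have hQH : ∀ r : R₁, T (π r) = π r → QH ρ Q U₁ (ρ r.1) := by
    intro r hr g hg u hu
    have hgR := hQle hg
    have hc : r.1 * g * r.1⁻¹ * g⁻¹ ∈ Z1 R₁ := comm_mem_Z1 S.R₁_q r.2 hgR
    have h1 : χ (r.1 * g * r.1⁻¹ * g⁻¹) = 1 := by
      have h2 := orth hs.form (hs.iso ⟨x ^ 2 ^ n, y_mem_Γ S hs hx hx2⟩) hr
        (Q_minus S hs hx hx2 ⟨g, hgR⟩ hg)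
      rwa [hs.ω_π] at h2
    have h2 : ρ r.1 (ρ g u) = ρ (r.1 * g * r.1⁻¹ * g⁻¹) (ρ g (ρ r.1 u)) := by
      simp only [← Module.End.mul_apply, ← map_mul]
      congr 2
      group
    rw [h2, hs.E_χ _ hc _ (hs.E_inv g hgR _ (hs.E_inv r.1 r.2 _ (hU₁E hu))), h1]
    simp
  have hadd : ∀ r r' : R₁, T (π r) = π r → T (π r') = π r' → T (π (r * r')) = π (r * r') := by
    intro r r' h1 h2
    rw [hs.π_add, map_add, h1, h2]
  have hstar : ∀ r r' : R₁, T (π r) = π r → T (π r') = π r' → ∀ u ∈ U₁,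
      ρ z (ρ r.1 (ρ r'.1 u)) = ρ r.1 (ρ z (ρ r'.1 u)) := by
    intro r r' h1 h2 u hu
    have h3 := hcomm _ (hQH (r * r') (hadd r r' h1 h2)) u hu
    have h4 := hcomm _ (hQH r' h2) u hu
    rw [h4]
    have e : (r * r').1 = r.1 * r'.1 := rfl
    rw [e, map_mul, Module.End.mul_apply, Module.End.mul_apply] at h3
    exact h3
  intro v hv
  obtain ⟨r, rfl⟩ := hs.π_surj v
  have hrz : z * r.1 * z⁻¹ ∈ R₁ := conj_mem_of_mem_normalizer hzR r.2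
  set e : R₁ := r⁻¹ * ⟨_, hrz⟩ with he
  have heval : ∀ b, ρ e.1 b = ρ r.1⁻¹ (ρ z (ρ r.1 (ρ z⁻¹ b))) := by
    intro b
    have e1 : e.1 = r.1⁻¹ * (z * r.1 * z⁻¹) := rfl
    rw [e1]
    simp only [map_mul, Module.End.mul_apply]
  have hfix1 : ∀ r' : R₁, T (π r') = π r' → ∀ u ∈ U₁, ρ e.1 (ρ r'.1 u) = ρ r'.1 u := by
    intro r' hr' u hu
    have hu' := hstinv u hu
    have h1 := hcomm _ (hQH r' hr') _ hu'
    rw [rho_apply_inv] at h1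
    rw [← h1, heval, rho_inv_apply, hstar r r' hv hr' _ hu', rho_inv_apply]
  have h2inv : (2 : ZMod q) ≠ 0 := two_ne (q := q) hs.form S.q_ne
  have hdec : ∀ b : R₁, ∃ r' g : R₁, T (π r') = π r' ∧ g.1 ∈ Q ∧ b = r' * g := by
    intro b
    set i : ZMod q := (2 : ZMod q)⁻¹ with hi
    have hi2 : i • (2 : ZMod q) = 1 := by
      rw [smul_eq_mul, hi, inv_mul_cancel₀ h2inv]
    set wm := i • (π b - T (π b)) with hwm
    have hTw : T wm = - wm := by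
      rw [hwm, map_smul, map_sub, hTT, ← smul_neg, neg_sub]
    obtain ⟨g, hg, hπg⟩ := Q_lift S hs hx hx2 wm hTw
    refine ⟨b * g⁻¹, g, ?_, hg, by group⟩
    rw [hs.π_add, pi_inv S hs, hπg, map_add, map_neg, hTw, neg_neg]
    have h3 : wm + wm = π b - T (π b) := by
      rw [← two_smul (ZMod q), hwm, smul_smul, mul_comm, ← smul_eq_mul, hi2, one_smul]
    have h4 : T (π b) = π b - (wm + wm) := by
      rw [h3]
      abel
    rw [h4]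
    abel
  have hfix2 : ∀ b : R₁, ∀ u ∈ U₁, ρ e.1 (ρ b.1 u) = ρ b.1 u := by
    intro b u hu
    obtain ⟨r', g, h1, h2, rfl⟩ := hdec b
    have e1 : (r' * g).1 = r'.1 * g.1 := rfl
    rw [e1, map_mul, Module.End.mul_apply]
    exact hfix1 r' h1 _ (hU₁.inv _ h2 _ hu)
  have hπe : π e = 0 := by
    apply hs.form.nd
    intro w'
    obtain ⟨b, rfl⟩ := hs.π_surj w'
    rw [hs.ω_π]
    set c := e.1 * b.1 * e.1⁻¹ * b.1⁻¹ with hc
    have hcZ : c ∈ Z1 R₁ := comm_mem_Z1 S.R₁_q e.2 b.2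
    have hv₀ : ρ b.1 u₀ ∈ E := hs.E_inv b.1 b.2 _ (hU₁E hu₀)
    have hv₀0 : ρ b.1 u₀ ≠ 0 := by
      intro h0
      apply hu₀0
      have := rho_inv_apply ρ b.1 u₀
      rw [h0, map_zero] at this
      exact this.symm
    have h1 := hs.E_χ c hcZ _ hv₀
    have h2 : ρ e.1⁻¹ u₀ = u₀ := by
      have h3 := hfix2 1 u₀ hu₀
      have e1 : ((1 : R₁) : G) = 1 := rfl
      rw [e1, map_one, Module.End.one_apply] at h3
      nth_rw 1 [← h3]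
      exact rho_inv_apply ρ e.1 u₀
    have h3 : ρ c (ρ b.1 u₀) = ρ b.1 u₀ := by
      rw [hc]
      simp only [map_mul, Module.End.mul_apply]
      rw [rho_inv_apply, h2]
      exact hfix2 b u₀ hu₀
    rw [h3] at h1
    have h4 : ((χ c : K) - 1) • ρ b.1 u₀ = 0 := by
      rw [sub_smul, ← h1, one_smul, sub_self]
    have h5 := (smul_eq_zero.mp h4).resolve_right hv₀0
    exact Units.ext (sub_eq_zero.mp h5)
  rw [he, hs.π_add, pi_inv S hs, ← hs.π_conj ⟨z, hzΓ⟩ r ⟨_, hrz⟩ rfl] at hπe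
  have h6 := neg_add_eq_zero.mp hπe
  exact h6.symm

end

end Cfsg.Agent.Lib.Bry.YFacts
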