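/-
Bryukhanova's theorem: the commutators of the norm centralize `R₁`.
-/
import Cfsg.Agent.Lib.Bry.Plane
import Cfsg.Agent.Lib.Bry.YFacts
import Cfsg.Agent.Lib.Bry.NormMap

set_option autoImplicit false

namespace Cfsg.Agent.Lib.Bry.CLq

open Module Cfsg.Agent.Lib.Bry.Setup Cfsg.Agent.Lib.Bry.Basic Cfsg.Agent.Lib.Bry.Form Cfsg.Agent.Lib.Bry.Chi
  Cfsg.Agent.Lib.Bry.YFacts Cfsg.Agent.Lib.Bry.NormMap Cfsg.Agent.Lib.Bry.Plane
  Cfsg.Agent.Lib.HallHigman.Irr Cfsg.Agent.Lib.Gross.ConfigAux Cfsg.Agent.Lib.Coprime.Action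
open scoped commutatorElement

universe u v w

variable {K : Type u} [Field K] [IsAlgClosed K] [CharP K 2] {V : Type v} [AddCommGroup V] [Module K V]
    [FiniteDimensional K V] {G : Type w} [Group G] [Finite G]
  {ρ : G →* End K V} {n q : ℕ} {B That T₀ D R₁ Ks : Subgroup G}

/-- Squares of commutators vanish. -/
theorem comm_sq (S : Setup ρ n q B That T₀ D R₁ Ks) : ∀ d ∈ (⁅T₀, T₀⁆ : Subgroup G), d ∈ D ∧ d * d = 1 := by
  intro d hd
  have hle : (⁅T₀, T₀⁆ : Subgroup G) ≤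
      { carrier := {d | d ∈ D ∧ d * d = 1}
        mul_mem' := by
          rintro a b ⟨ha, ha'⟩ ⟨hb, hb'⟩
          refine ⟨D.mul_mem ha hb, ?_⟩
          have hc : a * b = b * a := S.D_central a ha b (S.D_le hb)
          calc a * b * (a * b) = a * (b * a) * b := by group
            _ = a * (a * b) * b := by rw [hc]
            _ = (a * a) * (b * b) := by group
            _ = 1 := by rw [ha', hb', one_mul]
        one_mem' := ⟨D.one_mem, mul_one 1⟩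
        inv_mem' := by
          rintro a ⟨ha, ha'⟩
          refine ⟨D.inv_mem ha, ?_⟩
          rw [← mul_inv_rev, ha', inv_one] } := by
    rw [Subgroup.commutator_le]
    intro a ha b hb
    rw [commutatorElement_def]
    have hc := S.T₀_cm a ha b hb
    refine ⟨hc, ?_⟩
    set c := a * b * a⁻¹ * b⁻¹ with hcdef
    have hcc : ∀ g ∈ T₀, c * g = g * c := S.D_central c hc
    have h1 : a * b * a⁻¹ = c * b := by
      rw [hcdef]
      group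
    have h2 : (a * a) * b * (a * a)⁻¹ = c * c * b := by
      calc (a * a) * b * (a * a)⁻¹ = a * (a * b * a⁻¹) * a⁻¹ := by group
        _ = a * (c * b) * a⁻¹ := by rw [h1]
        _ = a * c * b * a⁻¹ := by group
        _ = c * a * b * a⁻¹ := by rw [hcc a ha]
        _ = c * (a * b * a⁻¹) := by group
        _ = c * (c * b) := by rw [h1]
        _ = _ := by group
    have h3 := S.D_central _ (S.T₀_sq a ha) b hb
    have h4 : (a * a) * b * (a * a)⁻¹ = b := by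
      rw [h3, mul_inv_cancel_right]
    rw [h4] at h2
    exact (mul_eq_right.mp h2.symm)
  exact hle hd

section Sect

variable {χ : G → Kˣ} {E : Submodule K V} {Γ : Subgroup G} {W : Type w} [AddCommGroup W] [Module (ZMod q) W]
  [hqf : Fact q.Prime] [FiniteDimensional (ZMod q) W]
  {τ : Γ →* End (ZMod q) W} {π : R₁ → W} {ω : W → W → Kˣ}

variable (S : Setup ρ n q B That T₀ D R₁ Ks) (hs : Sec ρ B R₁ χ E Γ τ π ω)
include S hs

theorem T₀_le_Γ : T₀ ≤ Γ := fun g hg =>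
  (hs.mem_Γ g).mpr ⟨T₀_le_B S hg, fun c hc => by rw [T₀_Z1 S g hg c hc, mul_inv_cancel_right]⟩

/-- The plane lemma in the application. -/
theorem plane_app {x : G} (hx : x ∈ B) (hx2 : ∃ k, x ^ 2 ^ k = 1) {t : G} (ht : t ∈ T₀) (g : Γ) (hg : g.1 ∈ T₀)
    (ch : Γ) (hc : ch.1 = ((t * x) ^ 2 ^ n * (x ^ 2 ^ n)⁻¹) * g.1 * ((t * x) ^ 2 ^ n * (x ^ 2 ^ n)⁻¹)⁻¹ * g.1⁻¹)
    (v : W) (hv : τ ⟨x ^ 2 ^ n, y_mem_Γ S hs hx hx2⟩ v = - v) : τ ch v = v := by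
  classical
  by_cases hv0 : v = 0
  · rw [hv0, map_zero]
  obtain ⟨k, a, hz, hk, hak, hz1⟩ := z_facts S hs hx hx2 v hv hv0
  have hq3 : 3 ≤ q := by
    have h1 := hqf.out.two_le
    have h2 := S.q_ne
    omega
  have hk2 : 2 ≤ k := by
    by_contra hlt
    have hk1 : k = 0 ∨ k = 1 := by omega
    rcases hk1 with rfl | rfl <;> omega
  set zh : Γ := ⟨x ^ 2 ^ a, hz⟩ with hzh
  have hnak : 2 ^ a * 2 ^ (k - 1) = 2 ^ n := by
    rw [← pow_add]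
    congr 1
    omega
  have ezh : zh ^ 2 ^ (k - 1) = ⟨x ^ 2 ^ n, y_mem_Γ S hs hx hx2⟩ := by
    apply Subtype.ext
    change (x ^ 2 ^ a) ^ 2 ^ (k - 1) = x ^ 2 ^ n
    rw [← pow_mul, hnak]
  have hTΓ := T₀_le_Γ S hs
  have hzB : x ^ 2 ^ a ∈ B := Subgroup.pow_mem _ hx _
  have hzB' : (x ^ 2 ^ a)⁻¹ ∈ B := B.inv_mem hzB
  have hy2 := T_invol S hs hx hx2
  have hd : PlaneData τ (T₀.subgroupOf Γ) (D.subgroupOf Γ) zh k := by
    refine ⟨two_ne (q := q) hs.form S.q_ne, hk2, ?_, ?_, ?_, ?_, ?_, ?_, ?_, ?_, ?_, ?_, ?_, ?_, ?_, ?_⟩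
    · intro d hd
      exact S.D_le hd
    · intro g hg
      obtain ⟨s, hs'⟩ := T₀_two S ⟨g.1, hg⟩
      exact ⟨s, Subtype.ext (congrArg Subtype.val hs' : g.1 ^ 2 ^ s = (1 : G))⟩
    · intro d hd g hg
      exact Subtype.ext (S.D_central d.1 hd g.1 hg)
    · intro g hg
      exact S.T₀_sq g.1 hg
    · intro a ha b hb
      exact S.T₀_cm a.1 ha b.1 hb
    · intro g hg
      exact (conj_mem_of_mem_normalizer (S.nT₀ hzB) hg : x ^ 2 ^ a * g.1 * (x ^ 2 ^ a)⁻¹ ∈ T₀)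
    · intro g hg
      exact (inv_conj_mem_of_mem_normalizer (S.nT₀ hzB) hg : (x ^ 2 ^ a)⁻¹ * g.1 * x ^ 2 ^ a ∈ T₀)
    · intro d hd
      exact (conj_mem_of_mem_normalizer (S.nD hzB) hd : x ^ 2 ^ a * d.1 * (x ^ 2 ^ a)⁻¹ ∈ D)
    · intro d hd
      exact (inv_conj_mem_of_mem_normalizer (S.nD hzB) hd : (x ^ 2 ^ a)⁻¹ * d.1 * x ^ 2 ^ a ∈ D)
    · intro g hg
      rw [ezh]
      exact S.That_T₀ _ (S.y_mem x hx hx2) g.1 hg
    · rw [ezh]
      ext w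
      exact hy2 w
    · rw [ezh]
      have h1 := finrank_minus_le S hs hx hx2
      have h2 := two_le_finrank (q := q) hs.form S.q_ne (hs.iso ⟨x ^ 2 ^ n, y_mem_Γ S hs hx hx2⟩) hy2 (by
        intro h
        have : v ∈ LinearMap.ker (τ ⟨x ^ 2 ^ n, y_mem_Γ S hs hx hx2⟩ + 1) := by
          simp [LinearMap.mem_ker, hv]
        rw [h, Submodule.mem_bot] at this
        exact hv0 this)
      exact le_antisymm h1 h2
    · rw [ezh]
      exact hz1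
    · rw [ezh]
      intro s hs1 hs2
      exact plane_sign hs.form S.q_ne (hs.iso ⟨x ^ 2 ^ n, y_mem_Γ S hs hx hx2⟩) hy2 (finrank_minus_le S hs hx hx2)
        (hs.iso s) hs1 hs2
  let M : Set Γ := {m | ∃ t' ∈ T₀, m.1 = (t' * x) ^ 2 ^ a * (x ^ 2 ^ a)⁻¹}
  have hxT : x ∈ Subgroup.normalizer (T₀ : Set G) := S.nT₀ hx
  have htx : ∀ t' ∈ T₀, t' * x ∈ B := fun t' ht' => B.mul_mem (T₀_le_B S ht') hx
  have htx2 : ∀ t' ∈ T₀, ∃ k, (t' * x) ^ 2 ^ k = 1 := fun t' ht' => two_element_mul (T₀_two S) hxT ht' hx2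
  have eM : ∀ m : Γ, ∀ t' (ht' : t' ∈ T₀), m.1 = (t' * x) ^ 2 ^ a * (x ^ 2 ^ a)⁻¹ →
      (m * zh) ^ 2 ^ (k - 1) = ⟨(t' * x) ^ 2 ^ n, y_mem_Γ S hs (htx t' ht') (htx2 t' ht')⟩ := by
    intro m t' ht' hm
    apply Subtype.ext
    have e1 : (m * zh).1 = (t' * x) ^ 2 ^ a := by
      change m.1 * x ^ 2 ^ a = _
      rw [hm, inv_mul_cancel_right]
    change ((m * zh).1) ^ 2 ^ (k - 1) = _
    rw [e1, ← pow_mul, hnak]
  have hM : Admissible τ (T₀.subgroupOf Γ) (D.subgroupOf Γ) zh k M := by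
    refine ⟨?_, ?_, ?_, ?_, ?_⟩
    · rintro m ⟨t', ht', hm⟩
      change m.1 ∈ T₀
      rw [hm]
      exact N_mem hxT ht' _
    · rintro m ⟨t', ht', hm⟩
      rw [eM m t' ht' hm, ezh]
      exact N_mem hxT ht' _
    · rintro m ⟨t', ht', hm⟩
      rw [eM m t' ht' hm]
      ext w
      exact T_invol S hs (htx t' ht') (htx2 t' ht') w
    · rintro m ⟨t', ht', hm⟩
      rw [eM m t' ht' hm]
      exact finrank_minus_le S hs (htx t' ht') (htx2 t' ht')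
    · rintro m ⟨t', ht', hm⟩
      have hm'T : (t'⁻¹ * x) ^ 2 ^ a * (x ^ 2 ^ a)⁻¹ ∈ T₀ := N_mem hxT (T₀.inv_mem ht') _
      have hprod := N_mul_N_inv hxT ht' (2 ^ a)
      obtain ⟨hd1, hd2⟩ := comm_sq S _ hprod
      have hm1 : m.1 * ((t'⁻¹ * x) ^ 2 ^ a * (x ^ 2 ^ a)⁻¹) ∈ Γ := Γ.mul_mem m.2 (hTΓ hm'T)
      refine ⟨⟨_, hm1⟩, ?_, ?_, ?_⟩
      · change m.1 * ((t'⁻¹ * x) ^ 2 ^ a * (x ^ 2 ^ a)⁻¹) ∈ D
        rw [hm]
        exact hd1
      · apply Subtype.ext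
        change (m.1 * ((t'⁻¹ * x) ^ 2 ^ a * (x ^ 2 ^ a)⁻¹)) * (m.1 * ((t'⁻¹ * x) ^ 2 ^ a * (x ^ 2 ^ a)⁻¹)) = 1
        rw [hm]
        exact hd2
      · refine ⟨t'⁻¹, T₀.inv_mem ht', ?_⟩
        change m.1⁻¹ * (m.1 * ((t'⁻¹ * x) ^ 2 ^ a * (x ^ 2 ^ a)⁻¹)) = _
        rw [inv_mul_cancel_left]
  have hmem : (⟨(t * x) ^ 2 ^ a * (x ^ 2 ^ a)⁻¹, hTΓ (N_mem hxT ht _)⟩ : Γ) ∈ M := ⟨t, ht, rfl⟩
  have hvP : v ∈ minusSpace (τ (zh ^ 2 ^ (k - 1))) := by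
    rw [ezh]
    simp [LinearMap.mem_ker, hv]
  have hmain := plane_main hd hM _ hmem g hg v hvP
  rw [eM _ t ht rfl, ezh] at hmain
  convert hmain using 2
  congr 1
  apply Subtype.ext
  rw [hc]
  rfl

/-- The commutator acts trivially on the section. -/
theorem tau_c_eq_one {x : G} (hx : x ∈ B) (hx2 : ∃ k, x ^ 2 ^ k = 1) {t : G} (ht : t ∈ T₀) (g : Γ) (hg : g.1 ∈ T₀)
    (ch : Γ) (hc : ch.1 = ((t * x) ^ 2 ^ n * (x ^ 2 ^ n)⁻¹) * g.1 * ((t * x) ^ 2 ^ n * (x ^ 2 ^ n)⁻¹)⁻¹ * g.1⁻¹) :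
    τ ch = 1 := by
  classical
  have hxT : x ∈ Subgroup.normalizer (T₀ : Set G) := S.nT₀ hx
  have hTΓ := T₀_le_Γ S hs
  have htxB : t * x ∈ B := B.mul_mem (T₀_le_B S ht) hx
  have htx2 : ∃ k, (t * x) ^ 2 ^ k = 1 := two_element_mul (T₀_two S) hxT ht hx2
  set ν : G := (t * x) ^ 2 ^ n * (x ^ 2 ^ n)⁻¹ with hν
  have hνT : ν ∈ T₀ := N_mem hxT ht _
  set c : G := ν * g.1 * ν⁻¹ * g.1⁻¹ with hcdef
  have hcD : c ∈ D := S.T₀_cm ν hνT g.1 hg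
  have hcc : ∀ g' ∈ T₀, c * g' = g' * c := S.D_central c hcD
  have hcT : c ∈ T₀ := S.D_le hcD
  set T := τ ⟨x ^ 2 ^ n, y_mem_Γ S hs hx hx2⟩ with hT
  set T' := τ ⟨(t * x) ^ 2 ^ n, y_mem_Γ S hs htxB htx2⟩ with hT'
  have hTT : ∀ v, T (T v) = v := T_invol S hs hx hx2
  have hTT' : ∀ v, T' (T' v) = v := T_invol S hs htxB htx2
  set C := τ ch with hC
  have hP1 : ∀ v, T v = -v → C v = v := fun v hv => plane_app S hs hx hx2 ht g hg ch hc v hv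
  -- the second plane
  have hP2 : ∀ v, T' v = -v → C v = v := by
    intro v hv
    have hc1 : ν⁻¹ * g.1 * ν⁻¹⁻¹ * g.1⁻¹ ∈ Γ := hTΓ (T₀.mul_mem (T₀.mul_mem (T₀.mul_mem (T₀.inv_mem hνT) hg)
      (T₀.inv_mem (T₀.inv_mem hνT))) (T₀.inv_mem hg))
    have h1 := plane_app S hs htxB htx2 (T₀.inv_mem ht) g hg ⟨_, hc1⟩ (by
      change ν⁻¹ * g.1 * ν⁻¹⁻¹ * g.1⁻¹ = _
      rw [inv_mul_cancel_left, hν]
      group) v hv
    have e1 : ν⁻¹ * g.1 * ν⁻¹⁻¹ * g.1⁻¹ = c⁻¹ := by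
      have h2 : ν * g.1 * ν⁻¹ = c * g.1 := by
        rw [hcdef]
        group
      have h3 : c * (ν⁻¹ * g.1 * ν) = g.1 := by
        have h4 := hcc ν⁻¹ (T₀.inv_mem hνT)
        calc c * (ν⁻¹ * g.1 * ν) = (c * ν⁻¹) * g.1 * ν := by group
          _ = (ν⁻¹ * c) * g.1 * ν := by rw [h4]
          _ = ν⁻¹ * (c * g.1) * ν := by group
          _ = ν⁻¹ * (ν * g.1 * ν⁻¹) * ν := by rw [h2]
          _ = g.1 := by group
      rw [inv_inv]
      have h5 : ν⁻¹ * g.1 * ν = c⁻¹ * g.1 := by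
        rw [eq_inv_mul_iff_mul_eq]
        exact h3
      rw [h5]
      group
    have e2 : (⟨_, hc1⟩ : Γ) = ch⁻¹ := Subtype.ext (by
      change ν⁻¹ * g.1 * ν⁻¹⁻¹ * g.1⁻¹ = (ch.1)⁻¹
      rw [e1, hc])
    rw [e2] at h1
    have h2 := rho_apply_inv τ ch v
    rw [h1] at h2
    exact h2
  -- the action of `ν`
  set νh : Γ := ⟨ν, hTΓ hνT⟩ with hνh
  have hνe : νh = ⟨(t * x) ^ 2 ^ n, y_mem_Γ S hs htxB htx2⟩ * (⟨x ^ 2 ^ n, y_mem_Γ S hs hx hx2⟩ : Γ)⁻¹ := rfl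
  have hTinv : ∀ w, τ (⟨x ^ 2 ^ n, y_mem_Γ S hs hx hx2⟩ : Γ)⁻¹ w = T w := by
    intro w
    have h1 := rho_inv_apply τ (⟨x ^ 2 ^ n, y_mem_Γ S hs hx hx2⟩ : Γ) (T w)
    rw [← hT, hTT] at h1
    exact h1
  have hν1 : ∀ w, C (τ νh w - w) = τ νh w - w := by
    intro w
    have e : τ νh w = T' (T w) := by
      rw [hνe, map_mul, Module.End.mul_apply, hTinv]
    set p := T w - w with hp
    set p' := T' (T w) - T w with hp'
    have hpP : T p = -p := by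
      rw [hp, map_sub, hTT]
      abel
    have hpP' : T' p' = -p' := by
      rw [hp', map_sub, hTT']
      abel
    have e2 : τ νh w - w = p' + p := by
      rw [e, hp, hp']
      abel
    rw [e2, map_add, hP1 p hpP, hP2 p' hpP']
  have hν2 : ∀ w, C (τ νh⁻¹ w - w) = τ νh⁻¹ w - w := by
    intro w
    have h1 := hν1 (τ νh⁻¹ w)
    rw [rho_apply_inv] at h1
    have e : τ νh⁻¹ w - w = -(w - τ νh⁻¹ w) := by abel
    rw [e, map_neg, h1]
  have hch : ch = νh * g * νh⁻¹ * g⁻¹ := Subtype.ext hc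
  have hcg : ch * g = g * ch := Subtype.ext (by
    change ch.1 * g.1 = g.1 * ch.1
    rw [hc]
    exact hcc g.1 hg)
  have hfixg : ∀ v, C v = v → C (τ g v) = τ g v := by
    intro v hv
    rw [hC, ← Module.End.mul_apply, ← map_mul, hcg, map_mul, Module.End.mul_apply, ← hC, hv]
  have hmain : ∀ w, C (C w - w) = C w - w := by
    intro w
    set w₁ := τ g⁻¹ w with hw₁
    set δ := τ νh⁻¹ w₁ - w₁ with hδ
    have hδfix : C δ = δ := hν2 w₁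
    set u := τ g (τ νh⁻¹ w₁) with hu
    have e1 : u = w + τ g δ := by
      rw [hu, hδ, map_sub, hw₁, rho_apply_inv]
      abel
    have e2 : C w = τ νh u := by
      rw [hC, hch, hu, hw₁]
      simp only [map_mul, Module.End.mul_apply]
    have e3 : C w - w = (τ νh u - u) + τ g δ := by
      rw [e2, e1]
      abel
    rw [e3, map_add, hν1 u, hfixg δ hδfix]
  obtain ⟨s, hs'⟩ := T₀_two S ⟨c, hcT⟩
  have hs1 : ch ^ 2 ^ s = 1 := Subtype.ext (by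
    change (ch.1) ^ 2 ^ s = 1
    rw [hc]
    exact congrArg Subtype.val hs')
  have hpow : ∀ (j : ℕ) (w : W), (C ^ j) w = w + j • (C w - w) := by
    intro j w
    induction j with
    | zero => simp
    | succ j ih =>
      rw [pow_succ', Module.End.mul_apply, ih, map_add, map_nsmul, hmain, succ_nsmul]
      abel
  ext w
  have h1 := hpow (2 ^ s) w
  have h2 : C ^ 2 ^ s = 1 := by
    rw [hC, ← map_pow, hs1, map_one]
  rw [h2, Module.End.one_apply] at h1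
  have h3 : (2 ^ s) • (C w - w) = 0 := by
    have := h1.symm
    exact (add_eq_left.mp this)
  rw [← Nat.cast_smul_eq_nsmul (ZMod q)] at h3
  have h4 : (((2 ^ s : ℕ) : ZMod q)) ≠ 0 := by
    push_cast
    exact pow_ne_zero _ (two_ne (q := q) hs.form S.q_ne)
  have h5 := (smul_eq_zero.mp h3).resolve_left h4
  rw [Module.End.one_apply]
  exact sub_eq_zero.mp h5

end Sect

/-- **The commutators of the norm centralize `R₁`.** -/
theorem core_CL (S : Setup ρ n q B That T₀ D R₁ Ks) {x : G} (hx : x ∈ B) (hx2 : ∃ k, x ^ 2 ^ k = 1) {t : G} (ht : t ∈ T₀)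
    {g : G} (hg : g ∈ T₀) :
    ∀ r ∈ R₁, (((t * x) ^ 2 ^ n * (x ^ 2 ^ n)⁻¹) * g * ((t * x) ^ 2 ^ n * (x ^ 2 ^ n)⁻¹)⁻¹ * g⁻¹) * r =
      r * (((t * x) ^ 2 ^ n * (x ^ 2 ^ n)⁻¹) * g * ((t * x) ^ 2 ^ n * (x ^ 2 ^ n)⁻¹)⁻¹ * g⁻¹) := by
  classical
  haveI hqf : Fact q.Prime := q_fact S
  have hxT : x ∈ Subgroup.normalizer (T₀ : Set G) := S.nT₀ hx
  have htxB : t * x ∈ B := B.mul_mem (T₀_le_B S ht) hx
  have htx2 : ∃ k, (t * x) ^ 2 ^ k = 1 := two_element_mul (T₀_two S) hxT ht hx2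
  set ν : G := (t * x) ^ 2 ^ n * (x ^ 2 ^ n)⁻¹ with hν
  have hνT : ν ∈ T₀ := N_mem hxT ht _
  set c : G := ν * g * ν⁻¹ * g⁻¹ with hcdef
  have hcT : c ∈ T₀ := S.D_le (S.T₀_cm ν hνT g hg)
  by_cases hab : ∀ a ∈ R₁, ∀ b ∈ R₁, a * b = b * a
  · -- the abelian case
    have h1 := J_ab ρ S.inj n S.q_ne R₁ S.R₁_q hab x (S.nR₁ hx) (S.exp x hx2) (S.norm x hx2)
    have h2 := J_ab ρ S.inj n S.q_ne R₁ S.R₁_q hab (t * x) (S.nR₁ htxB) (S.exp _ htx2) (S.norm _ htx2)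
    have hνc : ∀ r ∈ R₁, ν * r = r * ν := by
      intro r hr
      have h3 : Commute (x ^ 2 ^ n) r := h1 r hr
      have h4 : Commute ((t * x) ^ 2 ^ n) r := h2 r hr
      exact (h4.mul_left h3.inv_left).eq
    have hgn : g ∈ Subgroup.normalizer (R₁ : Set G) := T₀_norm_R₁ S hg
    intro r hr
    have h3 : Commute ν r := hνc r hr
    have h4 : Commute ν (g⁻¹ * r * g) := hνc _ (inv_conj_mem_of_mem_normalizer hgn hr)
    have h5 : Commute (g * ν⁻¹ * g⁻¹) r := by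
      have h6 : Commute ν⁻¹ (g⁻¹ * r * g) := h4.inv_left
      change g * ν⁻¹ * g⁻¹ * r = r * (g * ν⁻¹ * g⁻¹)
      have h7 := h6.eq
      calc g * ν⁻¹ * g⁻¹ * r = g * (ν⁻¹ * (g⁻¹ * r * g)) * g⁻¹ := by group
        _ = g * ((g⁻¹ * r * g) * ν⁻¹) * g⁻¹ := by rw [h7]
        _ = _ := by group
    have e : c = ν * (g * ν⁻¹ * g⁻¹) := by
      rw [hcdef]
      group
    rw [e]
    exact (h3.mul_left h5).eq
  -- the nonabelian case: the centre of `R₁`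
  let Zc : Subgroup G := R₁ ⊓ Subgroup.centralizer (R₁ : Set G)
  have hZcmem : ∀ a, a ∈ Zc ↔ a ∈ R₁ ∧ ∀ b ∈ R₁, a * b = b * a := by
    intro a
    rw [Subgroup.mem_inf, Subgroup.mem_centralizer_iff]
    exact ⟨fun h => ⟨h.1, fun b hb => (h.2 b hb).symm⟩, fun h => ⟨h.1, fun b hb => (h.2 b hb).symm⟩⟩
  have hZcn : B ≤ Subgroup.normalizer (Zc : Set G) := by
    intro b hb
    have hbR := S.nR₁ hb
    have key : ∀ b ∈ Subgroup.normalizer (R₁ : Set G), ∀ a ∈ Zc, b * a * b⁻¹ ∈ Zc := by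
      intro b hbR a ha
      obtain ⟨h1, h2⟩ := (hZcmem a).mp ha
      refine (hZcmem _).mpr ⟨conj_mem_of_mem_normalizer hbR h1, fun r hr => ?_⟩
      have h3 := h2 _ (inv_conj_mem_of_mem_normalizer hbR hr)
      calc b * a * b⁻¹ * r = b * (a * (b⁻¹ * r * b)) * b⁻¹ := by group
        _ = b * ((b⁻¹ * r * b) * a) * b⁻¹ := by rw [h3]
        _ = _ := by group
    refine mem_normalizer_of_forall (key b hbR) (fun a ha => ?_)
    have h1 := key b⁻¹ (Subgroup.inv_mem _ hbR) a ha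
    simpa using h1
  have hZcne : Zc ≠ R₁ := by
    intro h
    apply hab
    intro a ha b hb
    rw [← h] at ha
    exact ((hZcmem a).mp ha).2 b hb
  have hT₀Zc := S.minR Zc inf_le_left hZcn hZcne
  have hcR : c ∈ Subgroup.normalizer (R₁ : Set G) := T₀_norm_R₁ S hcT
  -- the key claim
  have hclaim : ∀ a ∈ R₁, c * a * c⁻¹ * a⁻¹ ∈ Zc := by
    intro a ha
    have hca : c * a * c⁻¹ ∈ R₁ := conj_mem_of_mem_normalizer hcR ha
    have heR : c * a * c⁻¹ * a⁻¹ ∈ R₁ := R₁.mul_mem hca (R₁.inv_mem ha)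
    refine (hZcmem _).mpr ⟨heR, fun b hb => ?_⟩
    by_contra hne
    set e := c * a * c⁻¹ * a⁻¹ with he
    have hc₁ : e * b * e⁻¹ * b⁻¹ ∈ Z1 R₁ := comm_mem_Z1 S.R₁_q heR hb
    have hρne : ρ (e * b * e⁻¹ * b⁻¹) ≠ 1 := by
      intro h1
      apply hne
      have h2 : e * b * e⁻¹ * b⁻¹ = 1 := S.inj (by rw [h1, map_one])
      calc e * b = (e * b * e⁻¹ * b⁻¹) * (b * e) := by group
        _ = b * e := by rw [h2, one_mul]
    obtain ⟨χ, E, Γ, W, i1, i2, i3, τ, π, ω, hs, hχ⟩ := exists_sec S hc₁ hρne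
    have hTΓ := T₀_le_Γ S hs
    have hgΓ : g ∈ Γ := hTΓ hg
    have h1 := tau_c_eq_one S hs hx hx2 ht ⟨g, hgΓ⟩ hg ⟨c, hTΓ hcT⟩ rfl
    have h2 := hs.π_conj ⟨c, hTΓ hcT⟩ ⟨a, ha⟩ ⟨_, hca⟩ rfl
    rw [h1, Module.End.one_apply] at h2
    have h3 : π ⟨e, heR⟩ = 0 := by
      have e1 : (⟨e, heR⟩ : R₁) = ⟨_, hca⟩ * (⟨a, ha⟩ : R₁)⁻¹ := rfl
      rw [e1, hs.π_add, pi_inv S hs, ← h2]
      abel
    apply hχ
    have h4 := hs.ω_π ⟨e, heR⟩ ⟨b, hb⟩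
    rw [h3, zero_left hs.form] at h4
    exact h4.symm
  intro r hr
  set n₀ := c * r * c⁻¹ * r⁻¹ with hn₀
  have hn₀Z := hclaim r hr
  have hn₀R : n₀ ∈ R₁ := ((hZcmem _).mp hn₀Z).1
  have hcn : c * n₀ = n₀ * c := hT₀Zc c hcT n₀ hn₀Z
  have hnr : n₀ * r = r * n₀ := ((hZcmem _).mp hn₀Z).2 r hr
  have hpow : ∀ j : ℕ, c ^ j * r * (c ^ j)⁻¹ = n₀ ^ j * r := by
    intro j
    induction j with
    | zero => simp
    | succ j ih =>
      have h1 : c * r * c⁻¹ = n₀ * r := by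
        rw [hn₀]
        group
      have hcnj : Commute c (n₀ ^ j) := Commute.pow_right hcn j
      calc c ^ (j + 1) * r * (c ^ (j + 1))⁻¹ = c * (c ^ j * r * (c ^ j)⁻¹) * c⁻¹ := by
            rw [pow_succ']
            group
        _ = c * (n₀ ^ j * r) * c⁻¹ := by rw [ih]
        _ = (c * n₀ ^ j * c⁻¹) * (c * r * c⁻¹) := by group
        _ = n₀ ^ j * (n₀ * r) := by rw [hcnj.eq, mul_inv_cancel_right, h1]
        _ = n₀ ^ (j + 1) * r := by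
            rw [pow_succ]
            group
  obtain ⟨s, hs'⟩ := T₀_two S ⟨c, hcT⟩
  have hcs : c ^ 2 ^ s = 1 := congrArg Subtype.val hs'
  have h1 := hpow (2 ^ s)
  rw [hcs] at h1
  have h2 : n₀ ^ 2 ^ s = 1 := by
    have : (1 : G) * r * 1⁻¹ = r := by group
    rw [this] at h1
    exact (mul_eq_right.mp h1.symm)
  obtain ⟨e, he⟩ := S.R₁_q ⟨n₀, hn₀R⟩
  have h3 : n₀ ^ q ^ e = 1 := congrArg Subtype.val he
  have h4 := pow_gcd_eq_one.mpr ⟨h2, h3⟩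
  have h5 : Nat.gcd (2 ^ s) (q ^ e) = 1 := by
    apply Nat.Coprime.pow
    exact (Nat.coprime_primes Nat.prime_two hqf.out).mpr (Ne.symm S.q_ne)
  rw [h5, pow_one] at h4
  have h6 : c * r * c⁻¹ = r := by
    rw [hn₀] at h4
    exact mul_inv_eq_one.mp h4
  exact mul_inv_eq_iff_eq_mul.mp h6

end Cfsg.Agent.Lib.Bry.CLq
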