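/-
Bryukhanova's theorem: the core claim.
-/
import Cfsg.Agent.Lib.Bry.AL
import Cfsg.Agent.Lib.Bry.CLq

set_option autoImplicit false

namespace Cfsg.Agent.Lib.Bry.Core

open Module Cfsg.Agent.Lib.Bry.Setup Cfsg.Agent.Lib.Bry.Basic Cfsg.Agent.Lib.Bry.NormMap
  Cfsg.Agent.Lib.HallHigman.Irr Cfsg.Agent.Lib.Gross.ConfigAux Cfsg.Agent.Lib.Coprime.Action
open scoped commutatorElement

universe u v w

/-- **Core claim.** -/
theorem core {K : Type u} [Field K] [IsAlgClosed K] [CharP K 2] {V : Type v} [AddCommGroup V] [Module K V]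
    [FiniteDimensional K V] {G : Type w} [Group G] [Finite G] {ρ : G →* End K V} {n q : ℕ}
    {B That T₀ D R₁ Ks : Subgroup G} (S : Setup ρ n q B That T₀ D R₁ Ks) (x : G) (hx : x ∈ B)
    (hx2 : ∃ k, x ^ 2 ^ k = 1) (t : G) (ht : t ∈ T₀) : (t * x) ^ 2 ^ n * (x ^ 2 ^ n)⁻¹ ∈ D := by
  classical
  have hxT : x ∈ Subgroup.normalizer (T₀ : Set G) := S.nT₀ hx
  set ν : G := (t * x) ^ 2 ^ n * (x ^ 2 ^ n)⁻¹ with hν
  have hνT : ν ∈ T₀ := N_mem hxT ht _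
  -- the centralizer of `R₁` in `T₀`
  let D₀ : Subgroup G := T₀ ⊓ Subgroup.centralizer (R₁ : Set G)
  have hD₀mem : ∀ a, a ∈ D₀ ↔ a ∈ T₀ ∧ ∀ r ∈ R₁, a * r = r * a := by
    intro a
    rw [Subgroup.mem_inf, Subgroup.mem_centralizer_iff]
    exact ⟨fun h => ⟨h.1, fun b hb => (h.2 b hb).symm⟩, fun h => ⟨h.1, fun b hb => (h.2 b hb).symm⟩⟩
  have hD₀conj : ∀ b ∈ B, ∀ a ∈ D₀, b * a * b⁻¹ ∈ D₀ := by
    intro b hb a ha
    obtain ⟨h1, h2⟩ := (hD₀mem a).mp ha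
    have hbR := S.nR₁ hb
    refine (hD₀mem _).mpr ⟨conj_mem_of_mem_normalizer (S.nT₀ hb) h1, fun r hr => ?_⟩
    have h3 := h2 _ (inv_conj_mem_of_mem_normalizer hbR hr)
    calc b * a * b⁻¹ * r = b * (a * (b⁻¹ * r * b)) * b⁻¹ := by group
      _ = b * ((b⁻¹ * r * b) * a) * b⁻¹ := by rw [h3]
      _ = _ := by group
  have hD₀n : B ≤ Subgroup.normalizer (D₀ : Set G) := by
    intro b hb
    refine mem_normalizer_of_forall (hD₀conj b hb) (fun a ha => ?_)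
    have h1 := hD₀conj b⁻¹ (B.inv_mem hb) a ha
    simpa using h1
  have hD₀D : D₀ ≤ D := by
    rcases S.maxD D₀ inf_le_left hD₀n with h | h
    · exact h
    · exfalso
      apply S.ncR
      intro g hg a ha
      rw [← h] at hg
      exact ((hD₀mem g).mp hg).2 a ha
  have hT₀B := T₀_le_B S
  -- the second centre
  let Z₂ : Subgroup G :=
    { carrier := {u | u ∈ T₀ ∧ ∀ g ∈ T₀, u * g * u⁻¹ * g⁻¹ ∈ D₀}
      mul_mem' := by
        rintro a b ⟨ha, ha'⟩ ⟨hb, hb'⟩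
        refine ⟨T₀.mul_mem ha hb, fun g hg => ?_⟩
        have e : (a * b) * g * (a * b)⁻¹ * g⁻¹ = (a * (b * g * b⁻¹ * g⁻¹) * a⁻¹) * (a * g * a⁻¹ * g⁻¹) := by group
        rw [e]
        exact D₀.mul_mem (hD₀conj a (hT₀B ha) _ (hb' g hg)) (ha' g hg)
      one_mem' := by
        refine ⟨T₀.one_mem, fun g _ => ?_⟩
        have e : (1 : G) * g * (1 : G)⁻¹ * g⁻¹ = 1 := by group
        rw [e]
        exact D₀.one_mem
      inv_mem' := by
        rintro a ⟨ha, ha'⟩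
        refine ⟨T₀.inv_mem ha, fun g hg => ?_⟩
        have e : a⁻¹ * g * a⁻¹⁻¹ * g⁻¹ = a⁻¹ * (g * a * g⁻¹ * a⁻¹) * a := by group
        rw [e]
        have h1 := D₀.inv_mem (ha' g hg)
        have e2 : (a * g * a⁻¹ * g⁻¹)⁻¹ = g * a * g⁻¹ * a⁻¹ := by group
        rw [e2] at h1
        have h2 := hD₀conj a⁻¹ (hT₀B (T₀.inv_mem ha)) _ h1
        simpa using h2 }
  have hZ₂mem : ∀ u, u ∈ Z₂ ↔ u ∈ T₀ ∧ ∀ g ∈ T₀, u * g * u⁻¹ * g⁻¹ ∈ D₀ := fun u => Iff.rfl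
  have hZ₂conj : ∀ b ∈ B, ∀ u ∈ Z₂, b * u * b⁻¹ ∈ Z₂ := by
    intro b hb u hu
    obtain ⟨h1, h2⟩ := (hZ₂mem u).mp hu
    refine (hZ₂mem _).mpr ⟨conj_mem_of_mem_normalizer (S.nT₀ hb) h1, fun g hg => ?_⟩
    have h3 := h2 _ (inv_conj_mem_of_mem_normalizer (S.nT₀ hb) hg)
    have h4 := hD₀conj b hb _ h3
    have e : b * (u * (b⁻¹ * g * b) * u⁻¹ * (b⁻¹ * g * b)⁻¹) * b⁻¹ = b * u * b⁻¹ * g * (b * u * b⁻¹)⁻¹ * g⁻¹ := by group
    rwa [e] at h4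
  have hZ₂n : B ≤ Subgroup.normalizer (Z₂ : Set G) := by
    intro b hb
    refine mem_normalizer_of_forall (hZ₂conj b hb) (fun a ha => ?_)
    have h1 := hZ₂conj b⁻¹ (B.inv_mem hb) a ha
    simpa using h1
  have hνZ₂ : ν ∈ Z₂ := by
    refine (hZ₂mem ν).mpr ⟨hνT, fun g hg => (hD₀mem _).mpr ⟨?_, ?_⟩⟩
    · exact S.D_le (S.T₀_cm ν hνT g hg)
    · exact Cfsg.Agent.Lib.Bry.CLq.core_CL S hx hx2 ht hg
  rcases S.maxD Z₂ (fun u hu => hu.1) hZ₂n with h | h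
  · exact h hνZ₂
  -- the abelian case
  have hAb : ∀ a ∈ T₀, ∀ b ∈ T₀, a * b * a⁻¹ * b⁻¹ ∈ D₀ := by
    intro a ha b hb
    rw [← h] at ha
    exact ha.2 b hb
  have hSq : ∀ a ∈ T₀, a * a ∈ D₀ := by
    let S₂ : Subgroup G :=
      { carrier := {u | u ∈ T₀ ∧ u * u ∈ D₀}
        mul_mem' := by
          rintro a b ⟨ha, ha'⟩ ⟨hb, hb'⟩
          refine ⟨T₀.mul_mem ha hb, ?_⟩
          have e : (a * b) * (a * b) = (a * (b * a * b⁻¹ * a⁻¹) * a⁻¹) * (a * a) * (b * b) := by group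
          rw [e]
          exact D₀.mul_mem (D₀.mul_mem (hD₀conj a (hT₀B ha) _ (hAb b hb a ha)) ha') hb'
        one_mem' := ⟨T₀.one_mem, by rw [mul_one]; exact D₀.one_mem⟩
        inv_mem' := by
          rintro a ⟨ha, ha'⟩
          refine ⟨T₀.inv_mem ha, ?_⟩
          have h1 := D₀.inv_mem ha'
          have e : (a * a)⁻¹ = a⁻¹ * a⁻¹ := by group
          rwa [e] at h1 }
    have hle : ⁅T₀, Ks⁆ ≤ S₂ := by
      rw [Subgroup.commutator_le]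
      intro a ha s hs
      have hsB := S.Ks_le hs
      have hb : s * a⁻¹ * s⁻¹ ∈ T₀ := conj_mem_of_mem_normalizer (S.nT₀ hsB) (T₀.inv_mem ha)
      rw [commutatorElement_def]
      have e0 : a * s * a⁻¹ * s⁻¹ = a * (s * a⁻¹ * s⁻¹) := by group
      rw [e0]
      refine ⟨T₀.mul_mem ha hb, ?_⟩
      set b := s * a⁻¹ * s⁻¹ with hbdef
      have hsq : a * a ∈ D := S.T₀_sq a ha
      have hbb : (a * a) * (b * b) = 1 := by
        have h1 := S.Ks_D s hs _ hsq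
        have e1 : b * b = s * (a * a)⁻¹ * s⁻¹ := by
          rw [hbdef]
          group
        have h2 : s * (a * a)⁻¹ * s⁻¹ = (a * a)⁻¹ := by
          have h3 : Commute s (a * a) := h1
          rw [h3.inv_right.eq, mul_inv_cancel_right]
        rw [e1, h2, mul_inv_cancel]
      have e : (a * b) * (a * b) = (a * (b * a * b⁻¹ * a⁻¹) * a⁻¹) * ((a * a) * (b * b)) := by group
      rw [e, hbb, mul_one]
      exact hD₀conj a (hT₀B ha) _ (hAb b hb a ha)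
    rw [S.hKs] at hle
    exact fun a ha => (hle ha).2
  have h1 := Cfsg.Agent.Lib.Bry.AL.core_AL S (fun a ha b hb r hr => ((hD₀mem _).mp (hAb a ha b hb)).2 r hr)
    (fun a ha r hr => ((hD₀mem _).mp (hSq a ha)).2 r hr) x hx hx2 t ht
  exact hD₀D ((hD₀mem ν).mpr ⟨hνT, h1⟩)

end Cfsg.Agent.Lib.Bry.Core
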