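/-
Bryukhanova's theorem: the frame around the core claim (Module F, forum topic bry-s4258).
-/
import Cfsg.Agent.Lib.Bry.Core
import Cfsg.Agent.Lib.Coprime.Generation2

set_option autoImplicit false
set_option linter.unusedSectionVars false
set_option linter.unusedVariables false

namespace Cfsg.Agent.Lib.Bry.Frame

open Cfsg
open Module Cfsg.Agent.Lib.HallHigman.Irr Cfsg.Agent.Lib.Gross.ConfigAux
  Cfsg.Agent.Lib.Coprime.Action Cfsg.Agent.Lib.Core.Basic Cfsg.Agent.Lib.Core.PSolvable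
  Cfsg.Agent.Lib.Core.PSolvable2 Cfsg.Agent.Lib.Core.PLength Cfsg.Agent.Lib.Core.Series
  Cfsg.Agent.Lib.HallHigman.Exponent Cfsg.Agent.Lib.HallHigman.Core Cfsg.Agent.Lib.Bry.Setup
open scoped commutatorElement

universe u v w

section Groups

variable {G : Type w} [Group G] [Finite G]

/-- An odd element acting trivially on `P` modulo a subgroup it centralizes centralizes the `2`-group `P`. -/
theorem comm_of_section {P X : Subgroup G} (hP : IsPGroup 2 P) {s : G} (hs : Odd (orderOf s))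
    (hsP : s ∈ Subgroup.normalizer (P : Set G)) (hX : ∀ t ∈ P, s * t * s⁻¹ * t⁻¹ ∈ X)
    (hsX : ∀ a ∈ X, s * a = a * s) : ∀ t ∈ P, s * t = t * s := by
  classical
  haveI : Fact (Nat.Prime 2) := ⟨Nat.prime_two⟩
  set Z := Subgroup.zpowers s with hZ
  have hZP : Z ≤ Subgroup.normalizer (P : Set G) := Subgroup.zpowers_le.mpr hsP
  have hcop : (Nat.card Z).Coprime (Nat.card P) := by
    rw [hZ, Nat.card_zpowers]
    obtain ⟨k, hk⟩ := IsPGroup.iff_card.mp hP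
    rw [hk]
    exact Nat.Coprime.pow_right _ (Nat.coprime_two_right.mpr hs)
  have h1 := commutator_commutator_eq hZP hcop (Or.inl inferInstance)
  let Y : Subgroup G := X ⊓ Subgroup.centralizer {s}
  have hYc : ∀ a ∈ Y, s * a = a * s := by
    intro a ha
    exact (Subgroup.mem_centralizer_singleton_iff.mp ha.2).symm
  have hsY : s ∈ TrivMod P Y := by
    refine mem_trivMod.mpr ⟨hsP, ?_, fun c hc => ?_⟩
    · refine mem_normalizer_of_forall (fun g hg => ?_) (fun g hg => ?_)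
      · rw [hYc g hg, mul_inv_cancel_right]
        exact hg
      · have h3 : s⁻¹ * g = g * s⁻¹ := (Commute.inv_left (show Commute s g from hYc g hg)).eq
        rw [h3, mul_assoc, inv_mul_cancel, mul_one]
        exact hg
    · refine ⟨hX c hc, Subgroup.mem_centralizer_singleton_iff.mpr (hsX _ (hX c hc)).symm⟩
  have hZT : Z ≤ TrivMod P Y := Subgroup.zpowers_le.mpr hsY
  have hCY : ⁅P, Z⁆ ≤ Y := by
    rw [Subgroup.commutator_le]
    intro c hc z hz
    have h2 := (mem_trivMod.mp (hZT hz)).2.2 c hc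
    have h3 := Y.inv_mem h2
    have e : (z * c * z⁻¹ * c⁻¹)⁻¹ = ⁅c, z⁆ := by
      rw [commutatorElement_def]
      group
    rwa [e] at h3
  have hbot : ⁅P, Z⁆ = ⊥ := by
    rw [← h1, eq_bot_iff, Subgroup.commutator_le]
    intro a ha z hz
    have h2 := hYc a (hCY ha)
    obtain ⟨k, rfl⟩ := Subgroup.mem_zpowers_iff.mp hz
    have h3 : Commute (s ^ k) a := (show Commute s a from h2).zpow_left k
    rw [Subgroup.mem_bot, commutatorElement_eq_one_iff_commute]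
    exact h3.symm
  intro t ht
  have h2 : ⁅t, s⁆ ∈ ⁅P, Z⁆ := Subgroup.commutator_mem_commutator ht (Subgroup.mem_zpowers s)
  rw [hbot, Subgroup.mem_bot, commutatorElement_eq_one_iff_commute] at h2
  exact h2.symm.eq

/-- `[Q, P] ≠ Q` for a nontrivial subgroup `Q` normal in the `2`-group `P`. -/
theorem commutator_ne_self {P Q : Subgroup G} (hP : IsPGroup 2 P) (hQP : Q ≤ P)
    (hne : Q ≠ ⊥) : ⁅Q, P⁆ ≠ Q := by
  intro hq
  have h2p : Fact (Nat.Prime 2) := ⟨Nat.prime_two⟩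
  have hnil : Group.IsNilpotent P := hP.isNilpotent
  obtain ⟨n, hn⟩ := (Subgroup.isNilpotent_iff_lowerCentralSeries P).mp hnil
  have hle : ∀ k, Q ≤ P.lowerCentralSeries k := by
    intro k
    induction k with
    | zero => exact hQP
    | succ k ih =>
      rw [← hq, Subgroup.lowerCentralSeries_succ]
      exact Subgroup.commutator_mono ih le_rfl
  apply hne
  rw [eq_bot_iff, ← hn]
  exact hle n

/-- The Frattini subgroup of a subgroup normalized by `B` is normalized by `B`. -/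
theorem le_normalizer_frattini {T B : Subgroup G} (h : B ≤ Subgroup.normalizer (T : Set G)) :
    B ≤ Subgroup.normalizer (((frattini T).map T.subtype : Subgroup G) : Set G) := by
  have key : ∀ b ∈ B, ∀ g ∈ (frattini T).map T.subtype, b * g * b⁻¹ ∈ (frattini T).map T.subtype := by
    rintro b hb _ ⟨g, hg, rfl⟩
    let φ : T ≃* T := Cfsg.Agent.Lib.Gross.CL.conjOn T b (h hb)
    have h1 : φ g ∈ frattini T := by
      have h2 := (inferInstance : (frattini T).Characteristic).fixed φ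
      rw [← h2] at hg
      exact hg
    exact ⟨φ g, h1, rfl⟩
  intro b hb
  refine mem_normalizer_of_forall (key b hb) (fun g hg => ?_)
  have := key b⁻¹ (B.inv_mem hb) g hg
  simpa using this

/-- The frame: `T₀` minimal among `B`-invariant subgroups of `U` not centralized by `𝒮`,
and `D` its largest proper `B`-invariant subgroup. -/
theorem exists_frame (B U : Subgroup G) (𝒮 : Set G) (hU2 : IsPGroup 2 U) (hUB : U ≤ B)
    (hBU : B ≤ Subgroup.normalizer (U : Set G)) (h𝒮B : 𝒮 ⊆ B) (h𝒮odd : ∀ s ∈ 𝒮, Odd (orderOf s))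
    (h𝒮conj : ∀ b ∈ B, ∀ s ∈ 𝒮, b * s * b⁻¹ ∈ 𝒮) (hnc : ¬ ∀ s ∈ 𝒮, ∀ u ∈ U, s * u = u * s) :
    ∃ T₀ D : Subgroup G, T₀ ≤ U ∧ D ≤ T₀ ∧ D ≠ T₀ ∧ B ≤ Subgroup.normalizer (T₀ : Set G) ∧
      B ≤ Subgroup.normalizer (D : Set G) ∧
      (∀ E : Subgroup G, E ≤ T₀ → B ≤ Subgroup.normalizer (E : Set G) → E ≤ D ∨ E = T₀) ∧
      ⁅T₀, Subgroup.closure 𝒮⁆ = T₀ ∧
      (∀ s ∈ Subgroup.closure 𝒮, ∀ d ∈ D, s * d = d * s) ∧
      (∀ d ∈ D, ∀ g ∈ T₀, d * g = g * d) ∧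
      (∀ u ∈ U, ∀ g ∈ T₀, u * g * u⁻¹ * g⁻¹ ∈ D) ∧
      (∀ g ∈ T₀, g * g ∈ D) ∧ (∀ a ∈ T₀, ∀ b ∈ T₀, a * b * a⁻¹ * b⁻¹ ∈ D) ∧
      ¬ ∀ s ∈ 𝒮, ∀ t ∈ T₀, s * t = t * s := by
  classical
  haveI h2p : Fact (Nat.Prime 2) := ⟨Nat.prime_two⟩
  let 𝓕 : Set (Subgroup G) := {X | X ≤ U ∧ B ≤ Subgroup.normalizer (X : Set G) ∧
    ¬ ∀ s ∈ 𝒮, ∀ u ∈ X, s * u = u * s}
  have h𝓕 : 𝓕.Nonempty := ⟨U, le_rfl, hBU, hnc⟩
  obtain ⟨T₀, hT₀⟩ := (Set.toFinite 𝓕).exists_minimal h𝓕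
  obtain ⟨⟨hT₀U, hT₀N, hT₀nc⟩, hT₀min⟩ := hT₀
  have hmin : ∀ E : Subgroup G, E ≤ T₀ → B ≤ Subgroup.normalizer (E : Set G) → E ≠ T₀ →
      ∀ s ∈ 𝒮, ∀ u ∈ E, s * u = u * s := by
    intro E hE hEN hne
    by_contra hcon
    exact hne (le_antisymm hE (hT₀min ⟨hE.trans hT₀U, hEN, hcon⟩ hE))
  have hT₀2 : IsPGroup 2 T₀ := hU2.to_le hT₀U
  have hT₀ne : T₀ ≠ ⊥ := by
    rintro rfl
    apply hT₀nc
    intro s _ u hu
    rw [Subgroup.mem_bot.mp hu, mul_one, one_mul]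
  let D : Subgroup G := T₀ ⊓ Subgroup.centralizer 𝒮
  have hDm : ∀ d, d ∈ D ↔ d ∈ T₀ ∧ ∀ s ∈ 𝒮, s * d = d * s := by
    intro d
    rw [Subgroup.mem_inf, Subgroup.mem_centralizer_iff]
  have hDT : D ≤ T₀ := inf_le_left
  have hDne : D ≠ T₀ := by
    intro h
    apply hT₀nc
    intro s hs u hu
    rw [← h] at hu
    exact ((hDm u).mp hu).2 s hs
  have hDN : B ≤ Subgroup.normalizer (D : Set G) := by
    have key : ∀ b ∈ B, ∀ d ∈ D, b * d * b⁻¹ ∈ D := by
      intro b hb d hd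
      obtain ⟨h1, h2⟩ := (hDm d).mp hd
      refine (hDm _).mpr ⟨conj_mem_of_mem_normalizer (hT₀N hb) h1, fun s hs => ?_⟩
      have h3 := h2 _ (h𝒮conj b⁻¹ (B.inv_mem hb) s hs)
      simp only [inv_inv] at h3
      calc s * (b * d * b⁻¹) = b * (b⁻¹ * s * b * d) * b⁻¹ := by group
        _ = b * (d * (b⁻¹ * s * b)) * b⁻¹ := by rw [h3]
        _ = _ := by group
    intro b hb
    refine mem_normalizer_of_forall (key b hb) (fun g hg => ?_)
    have := key b⁻¹ (B.inv_mem hb) g hg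
    simpa using this
  have hmaxD : ∀ E : Subgroup G, E ≤ T₀ → B ≤ Subgroup.normalizer (E : Set G) → E ≤ D ∨ E = T₀ := by
    intro E hE hEN
    by_cases hEq : E = T₀
    · exact Or.inr hEq
    · exact Or.inl (fun u hu => (hDm u).mpr ⟨hE hu, fun s hs => hmin E hE hEN hEq s hs u hu⟩)
  set Ks := Subgroup.closure 𝒮 with hKsdef
  have hKsB : Ks ≤ B := (Subgroup.closure_le _).mpr h𝒮B
  have hKsN : B ≤ Subgroup.normalizer (Ks : Set G) := by
    have key : ∀ b ∈ B, ∀ g ∈ Ks, b * g * b⁻¹ ∈ Ks := by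
      intro b hb g hg
      have h1 : Ks ≤ Ks.comap (MulAut.conj b).toMonoidHom := by
        rw [hKsdef, Subgroup.closure_le]
        intro s hs
        exact Subgroup.subset_closure (h𝒮conj b hb s hs)
      exact h1 hg
    intro b hb
    refine mem_normalizer_of_forall (key b hb) (fun g hg => ?_)
    have := key b⁻¹ (B.inv_mem hb) g hg
    simpa using this
  have hKsD : ∀ s ∈ Ks, ∀ d ∈ D, s * d = d * s := by
    intro s hs d hd
    have h1 : Ks ≤ Subgroup.centralizer {d} := by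
      rw [hKsdef, Subgroup.closure_le]
      intro t ht
      exact Subgroup.mem_centralizer_singleton_iff.mpr (((hDm d).mp hd).2 t ht)
    exact Subgroup.mem_centralizer_singleton_iff.mp (h1 hs)
  -- `[T₀, Ks] = T₀`
  have hKsT₀ : ⁅T₀, Ks⁆ = T₀ := by
    by_contra hcon
    have hle : ⁅T₀, Ks⁆ ≤ T₀ := commutator_le_of_le_normalizer (hKsB.trans hT₀N)
    have hNC : B ≤ Subgroup.normalizer ((⁅T₀, Ks⁆ : Subgroup G) : Set G) :=
      le_normalizer_commutator_of_le hT₀N hKsN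
    have hCD := (hmaxD _ hle hNC).resolve_right hcon
    apply hT₀nc
    intro s hs
    refine comm_of_section hT₀2 (h𝒮odd s hs) (hT₀N (h𝒮B hs)) (X := D) (fun t ht => ?_)
      (fun a ha => ((hDm a).mp ha).2 s hs)
    have h1 : ⁅t, s⁆ ∈ ⁅T₀, Ks⁆ := Subgroup.commutator_mem_commutator ht (Subgroup.subset_closure hs)
    have h2 := D.inv_mem (hCD h1)
    have e : ⁅t, s⁆⁻¹ = s * t * s⁻¹ * t⁻¹ := by
      rw [commutatorElement_def]
      group
    rwa [e] at h2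
  -- The Frattini subgroup lies in `D`
  set Φ := (frattini T₀).map T₀.subtype with hΦ
  have hΦT : Φ ≤ T₀ := Subgroup.map_subtype_le _
  have hΦne : Φ ≠ T₀ := by
    intro h
    have h1 : frattini T₀ = ⊤ := by
      apply Subgroup.map_injective T₀.subtype_injective
      rw [← MonoidHom.range_eq_map, Subgroup.range_subtype]
      exact h
    have h3 : (⊥ : Subgroup T₀) ⊔ frattini T₀ = ⊤ := by rw [h1, sup_top_eq]
    have h4 : (⊥ : Subgroup T₀) = ⊤ := frattini_nongenerating h3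
    apply hT₀ne
    rw [eq_bot_iff]
    intro x hx
    have h5 : (⟨x, hx⟩ : T₀) ∈ (⊥ : Subgroup T₀) := by
      rw [h4]
      trivial
    have h6 : (⟨x, hx⟩ : T₀) = 1 := Subgroup.mem_bot.mp h5
    exact Subgroup.mem_bot.mpr (congrArg Subtype.val h6)
  have hΦD : Φ ≤ D := (hmaxD Φ hΦT (le_normalizer_frattini hT₀N)).resolve_right hΦne
  have hsq : ∀ g ∈ T₀, g * g ∈ D := by
    intro g hg
    refine hΦD ⟨_, Cfsg.Agent.Lib.PGroups.Basic.pow_mem_frattini hT₀2 (⟨g, hg⟩ : T₀), ?_⟩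
    change g ^ 2 = g * g
    rw [pow_two]
  have hcm : ∀ a ∈ T₀, ∀ b ∈ T₀, a * b * a⁻¹ * b⁻¹ ∈ D := by
    intro a ha b hb
    have h1 := Cfsg.Agent.Lib.PGroups.Basic.commutator_le_frattini hT₀2
    have h2 : ⁅(⟨a, ha⟩ : T₀), (⟨b, hb⟩ : T₀)⁆ ∈ frattini T₀ :=
      h1 (Subgroup.commutator_mem_commutator (by trivial) (by trivial))
    exact hΦD ⟨_, h2, rfl⟩
  -- `[T₀, D] = 1`
  have hcent : ∀ d ∈ D, ∀ g ∈ T₀, d * g = g * d := by
    have h1 : ⁅⁅Ks, D⁆, T₀⁆ ≤ ⊥ := by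
      have h2 : ⁅Ks, D⁆ = ⊥ := by
        rw [eq_bot_iff, Subgroup.commutator_le]
        intro s hs d hd
        rw [Subgroup.mem_bot, commutatorElement_eq_one_iff_commute]
        exact hKsD s hs d hd
      rw [h2, Subgroup.commutator_bot_left]
    have h2 : ⁅⁅D, T₀⁆, Ks⁆ ≤ ⊥ := by
      have h3 : ⁅D, T₀⁆ ≤ D := by
        rw [Subgroup.commutator_le]
        intro d hd g hg
        rw [commutatorElement_def]
        exact hcm d (hDT hd) g hg
      rw [Subgroup.commutator_le]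
      intro a ha s hs
      rw [Subgroup.mem_bot, commutatorElement_eq_one_iff_commute]
      exact (hKsD s hs a (h3 ha)).symm
    have hb : ∀ X : Subgroup G, X ≤ Subgroup.normalizer (((⊥ : Subgroup G) : Subgroup G) : Set G) := by
      intro X x _
      rw [Subgroup.normalizer_eq_top]
      trivial
    have h3 := Cfsg.Agent.Lib.Coprime.Generation2.three_subgroups_rel T₀ Ks D ⊥ h1 h2 (hb _) (hb _) (hb _)
    rw [hKsT₀] at h3
    intro d hd g hg
    have h4 := h3 (Subgroup.commutator_mem_commutator hg hd)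
    rw [Subgroup.mem_bot, commutatorElement_eq_one_iff_commute] at h4
    exact h4.symm.eq
  -- `[U, T₀] ≤ D`
  have hUT : ∀ u ∈ U, ∀ g ∈ T₀, u * g * u⁻¹ * g⁻¹ ∈ D := by
    have hle : ⁅T₀, U⁆ ≤ T₀ := commutator_le_of_le_normalizer (hUB.trans hT₀N)
    have hNC : B ≤ Subgroup.normalizer ((⁅T₀, U⁆ : Subgroup G) : Set G) :=
      le_normalizer_commutator_of_le hT₀N hBU
    have hCD := (hmaxD _ hle hNC).resolve_right (commutator_ne_self hU2 hT₀U hT₀ne)
    intro u hu g hg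
    have h1 : ⁅g, u⁆ ∈ ⁅T₀, U⁆ := Subgroup.commutator_mem_commutator hg hu
    have h2 := D.inv_mem (hCD h1)
    have e : ⁅g, u⁆⁻¹ = u * g * u⁻¹ * g⁻¹ := by
      rw [commutatorElement_def]
      group
    rwa [e] at h2
  exact ⟨T₀, D, hT₀U, hDT, hDne, hT₀N, hDN, hmaxD, hKsT₀, hKsD, hcent, hUT, hsq, hcm, hT₀nc⟩

/-- The section `R₁` of the Fitting subgroup. -/
theorem exists_R₁ [Group.IsSolvable G] (hO2 : pCore 2 G = ⊥) (B T₀ : Subgroup G) (hT₀2 : IsPGroup 2 T₀)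
    (hne : T₀ ≠ ⊥) :
    ∃ (q : ℕ) (R₁ : Subgroup G), q.Prime ∧ q ≠ 2 ∧ IsPGroup q R₁ ∧ B ≤ Subgroup.normalizer (R₁ : Set G) ∧
      (∀ E : Subgroup G, E ≤ R₁ → B ≤ Subgroup.normalizer (E : Set G) → E ≠ R₁ →
        ∀ g ∈ T₀, ∀ a ∈ E, g * a = a * g) ∧ ¬ ∀ g ∈ T₀, ∀ a ∈ R₁, g * a = a * g := by
  classical
  haveI h2p : Fact (Nat.Prime 2) := ⟨Nat.prime_two⟩
  have h1 : ∃ r : ℕ, ∃ _ : Fact r.Prime, r ≠ 2 ∧ ¬ T₀ ≤ Subgroup.centralizer (pCore r G : Set G) := by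
    by_contra hcon
    push Not at hcon
    refine Cfsg.Agent.Lib.Gross.Config.not_centralizes hO2 hT₀2 hne 2 hcon ?_
    intro a _
    rw [Subgroup.mem_centralizer_iff]
    intro c hc
    have hc' : c = 1 := by
      rw [hO2] at hc
      exact hc
    rw [hc', one_mul, mul_one]
  obtain ⟨r, hr, hr2, hrc⟩ := h1
  let 𝓕 : Set (Subgroup G) := {X | X ≤ pCore r G ∧ B ≤ Subgroup.normalizer (X : Set G) ∧
    ¬ ∀ g ∈ T₀, ∀ a ∈ X, g * a = a * g}
  have h𝓕 : 𝓕.Nonempty := by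
    refine ⟨pCore r G, le_rfl, ?_, ?_⟩
    · intro b _
      rw [Subgroup.normalizer_eq_top]
      trivial
    · intro h
      apply hrc
      intro g hg
      rw [Subgroup.mem_centralizer_iff]
      intro a ha
      exact (h g hg a ha).symm
  obtain ⟨R₁, hR₁⟩ := (Set.toFinite 𝓕).exists_minimal h𝓕
  obtain ⟨⟨hR₁le, hR₁N, hR₁nc⟩, hR₁min⟩ := hR₁
  refine ⟨r, R₁, hr.out, hr2, pCore_isPGroup.to_le hR₁le, hR₁N, ?_, hR₁nc⟩
  intro E hE hEN hne
  by_contra hcon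
  exact hne (le_antisymm hE (hR₁min ⟨hE.trans hR₁le, hEN, hcon⟩ hE))

/-- The `p`-part of a lift of a `2`-element. -/
theorem exists_two_element_lift {Y : Type*} [Group Y] (π : G →* Y) (x : G) {k : ℕ} (hk : π x ^ 2 ^ k = 1) :
    ∃ a ∈ Subgroup.zpowers x, (∃ j, a ^ 2 ^ j = 1) ∧ π a = π x := by
  haveI h2p : Fact (Nat.Prime 2) := ⟨Nat.prime_two⟩
  obtain ⟨a, b, hab, -, ha2, hbo, haz, hbz⟩ :=
    Cfsg.Agent.Lib.Core.Residual.exists_pPart_pPrimePart 2 x (isOfFinOrder_of_finite _)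
  refine ⟨a, haz, ha2, ?_⟩
  have hπb : π b = 1 := by
    have h1 : (π b) ^ orderOf b = 1 := by rw [← map_pow, pow_orderOf_eq_one, map_one]
    obtain ⟨i, hi⟩ := Subgroup.mem_zpowers_iff.mp hbz
    have h2 : (π b) ^ 2 ^ k = 1 := by
      rw [← hi, map_zpow, ← zpow_natCast, zpow_comm, zpow_natCast, hk, one_zpow]
    have h3 := pow_gcd_eq_one.mpr ⟨h1, h2⟩
    have h4 : Nat.gcd (orderOf b) (2 ^ k) = 1 := Nat.Coprime.pow_right _ hbo
    rwa [h4, pow_one] at h3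
  rw [← hab, map_mul, hπb, mul_one]

/-- The odd part of a lift of an element of odd order. -/
theorem exists_odd_lift {Y : Type*} [Group Y] (π : G →* Y) (x : G) {m : ℕ} (hm : Odd m) (hk : π x ^ m = 1) :
    ∃ b ∈ Subgroup.zpowers x, Odd (orderOf b) ∧ π b = π x := by
  haveI h2p : Fact (Nat.Prime 2) := ⟨Nat.prime_two⟩
  obtain ⟨a, b, hab, -, ⟨k, hk2⟩, hbo, haz, hbz⟩ :=
    Cfsg.Agent.Lib.Core.Residual.exists_pPart_pPrimePart 2 x (isOfFinOrder_of_finite _)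
  refine ⟨b, hbz, Nat.coprime_two_right.mp hbo, ?_⟩
  have hπa : π a = 1 := by
    have h1 : (π a) ^ 2 ^ k = 1 := by rw [← map_pow, hk2, map_one]
    obtain ⟨i, hi⟩ := Subgroup.mem_zpowers_iff.mp haz
    have h2 : (π a) ^ m = 1 := by
      rw [← hi, map_zpow, ← zpow_natCast, zpow_comm, zpow_natCast, hk, one_zpow]
    have h3 := pow_gcd_eq_one.mpr ⟨h1, h2⟩
    have h4 : Nat.gcd (2 ^ k) m = 1 := Nat.Coprime.pow_left _ (Nat.coprime_two_left.mpr hm)
    rwa [h4, pow_one] at h3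
  rw [← hab, map_mul, hπa, one_mul]

end Groups

section Norm

variable {X : Type w} [Group X] {T : Subgroup X} [hTn : T.Normal] {p : ℕ} [Fact p.Prime]
  {V : Type v} [AddCommGroup V] [Module (ZMod p) V]

/-- The norm computation in a section. -/
theorem section_norm (ρ₁ : X →* End (ZMod p) V) (π : T → V) (hπadd : ∀ a b, π (a * b) = π a + π b)
    (hπact : ∀ (g : X) (t : T) (t' : T), t'.1 = g * t.1 * g⁻¹ → ρ₁ g (π t) = π t') (x : X) (t : T) (m : ℕ)
    (w : T) (hw : w.1 = (t.1 * x) ^ m * (x ^ m)⁻¹) : π w = ∑ i ∈ Finset.range m, ((ρ₁ x) ^ i) (π t) := by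
  have hπ1 : π 1 = 0 := by
    have := hπadd 1 1
    rw [mul_one] at this
    simpa using this
  induction m generalizing w with
  | zero =>
    have : w = 1 := Subtype.ext (by simpa using hw)
    rw [this, hπ1]
    simp
  | succ m ih =>
    have hmem : (t.1 * x) ^ m * (x ^ m)⁻¹ ∈ T := by
      have h1 : ((t.1 * x : X) : X ⧸ T) = (x : X ⧸ T) := by
        rw [QuotientGroup.eq]
        have e : (t.1 * x)⁻¹ * x = x⁻¹ * t.1⁻¹ * x := by group
        rw [e]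
        have := hTn.conj_mem t.1⁻¹ (T.inv_mem t.2) x⁻¹
        simpa using this
      have h2 : (((t.1 * x) ^ m : X) : X ⧸ T) = ((x ^ m : X) : X ⧸ T) := by
        rw [QuotientGroup.mk_pow, QuotientGroup.mk_pow, h1]
      rw [QuotientGroup.eq] at h2
      have h3 := hTn.conj_mem _ h2 ((t.1 * x) ^ m)
      have e : (t.1 * x) ^ m * (((t.1 * x) ^ m)⁻¹ * x ^ m) * ((t.1 * x) ^ m)⁻¹
          = x ^ m * ((t.1 * x) ^ m)⁻¹ := by group
      rw [e] at h3
      have h4 := T.inv_mem h3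
      simpa using h4
    have hih := ih ⟨_, hmem⟩ rfl
    have hmem2 : x * ((t.1 * x) ^ m * (x ^ m)⁻¹) * x⁻¹ ∈ T := hTn.conj_mem _ hmem x
    have h5 := hπact x ⟨_, hmem⟩ ⟨_, hmem2⟩ rfl
    have e : w = t * ⟨_, hmem2⟩ := by
      apply Subtype.ext
      rw [hw]
      change _ = t.1 * (x * ((t.1 * x) ^ m * (x ^ m)⁻¹) * x⁻¹)
      rw [pow_succ', pow_succ']
      group
    rw [e, hπadd, ← h5, hih, Finset.sum_range_succ', pow_zero, Module.End.one_apply, map_sum,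
      add_comm]
    congr 1
    refine Finset.sum_congr rfl (fun i _ => ?_)
    rw [pow_succ', Module.End.mul_apply]

end Norm

section Main

variable {G : Type w} [Group G] [Finite G] [Group.IsSolvable G]

/-- `Key.key` for a module over `ZMod 2`. -/
theorem key_F2 (hO2 : pCore 2 G = ⊥) {V : Type w} [AddCommGroup V] [Module (ZMod 2) V]
    [FiniteDimensional (ZMod 2) V] (ρ : G →* End (ZMod 2) V) (hρ : Function.Injective ρ) (n : ℕ)
    (hexp : ∀ g : G, (∃ k, g ^ 2 ^ k = 1) → g ^ 2 ^ (n + 1) = 1)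
    (hN : ∀ g : G, (∃ k, g ^ 2 ^ k = 1) → (ρ g - 1) ^ (2 ^ (n + 1) - 1) = 0)
    (x : G) (hx2 : ∃ k, x ^ 2 ^ k = 1) : x ^ 2 ^ n ∈ pPrimePCore 2 G := by
  let K := AlgebraicClosure (ZMod 2)
  let b := Module.End.baseChangeHom (ZMod 2) K V
  let ρ' := (b.toMonoidHom).comp ρ
  have hρ' : Function.Injective ρ' := fun h₁ h₂ h => hρ (LinearMap.baseChangeHom_injective (ZMod 2) V K h)
  refine Cfsg.Agent.Lib.Gross.Key.key hO2 ρ' hρ' n hexp ?_ x hx2
  intro g hg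
  have h1 := congrArg b (hN g hg)
  rw [map_pow, map_sub, map_one, map_zero] at h1
  exact h1

/-- The section attached to a nontrivial element of `A = G / O_{2',2}(G)`. -/
theorem exists_rep_for (hO2 : pCore 2 G = ⊥) {V : Type w} [AddCommGroup V] [Module (ZMod 2) V]
    [FiniteDimensional (ZMod 2) V] (ρ : G →* End (ZMod 2) V) (hρ : Function.Injective ρ) (n : ℕ)
    (hexp : ∀ g : G, (∃ k, g ^ 2 ^ k = 1) → g ^ 2 ^ (n + 1) = 1)
    (hN : ∀ g : G, (∃ k, g ^ 2 ^ k = 1) → (ρ g - 1) ^ (2 ^ (n + 1) - 1) = 0)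
    (a : (G ⧸ pPrimeCore 2 G) ⧸ pCore 2 (G ⧸ pPrimeCore 2 G)) (ha : a ≠ 1) :
    ∃ (W : Type w) (_ : AddCommGroup W) (_ : Module (ZMod 2) W) (_ : FiniteDimensional (ZMod 2) W)
      (ρa : ((G ⧸ pPrimeCore 2 G) ⧸ pCore 2 (G ⧸ pPrimeCore 2 G)) →* End (ZMod 2) W),
      ρa a ≠ 1 ∧ ∀ x, (∃ k, x ^ 2 ^ k = 1) → (ρa x - 1) ^ (2 ^ n - 1) = 0 := by
  classical
  haveI h2p : Fact (Nat.Prime 2) := ⟨Nat.prime_two⟩
  -- base change
  let K := AlgebraicClosure (ZMod 2)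
  let bc := Module.End.baseChangeHom (ZMod 2) K V
  let ρ' : G →* End K (TensorProduct (ZMod 2) K V) := (bc.toMonoidHom).comp ρ
  have hρ' : Function.Injective ρ' := fun h₁ h₂ h => hρ (LinearMap.baseChangeHom_injective (ZMod 2) V K h)
  have hN' : ∀ g : G, (∃ k, g ^ 2 ^ k = 1) → (ρ' g - 1) ^ (2 ^ (n + 1) - 1) = 0 := by
    intro g hg
    have h1 := congrArg bc (hN g hg)
    rw [map_pow, map_sub, map_one, map_zero] at h1
    exact h1
  -- the quotients
  let N := pPrimeCore 2 G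
  let T : Subgroup (G ⧸ N) := pCore 2 (G ⧸ N)
  let f₁ : G →* G ⧸ N := QuotientGroup.mk' N
  let f₂ : (G ⧸ N) →* (G ⧸ N) ⧸ T := QuotientGroup.mk' T
  let π : G →* (G ⧸ N) ⧸ T := f₂.comp f₁
  have hπs : Function.Surjective π := (QuotientGroup.mk'_surjective T).comp (QuotientGroup.mk'_surjective N)
  have hπker : ∀ g, π g = 1 ↔ g ∈ pPrimePCore 2 G := fun g => QuotientGroup.eq_one_iff _
  let M := pPrimePCore 2 G
  haveI hMn : M.Normal := pPrimePCore_normal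
  obtain ⟨P⟩ : Nonempty (Sylow 2 M) := inferInstance
  let U : Subgroup G := (P : Subgroup M).map M.subtype
  have hU : IsPGroup 2 U := P.isPGroup'.map _
  have hFr : Subgroup.normalizer (U : Set G) ⊔ M = ⊤ := Sylow.normalizer_sup_eq_top P
  let B : Subgroup G := Subgroup.normalizer (U : Set G)
  have hUB : U ≤ B := Subgroup.le_normalizer
  have hlift : ∀ g : G, ∃ g₀ ∈ B, π g₀ = π g := by
    intro g
    have hg : g ∈ B ⊔ M := by
      rw [show B ⊔ M = ⊤ from hFr]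
      trivial
    obtain ⟨a, ha, b, hb, rfl⟩ := Subgroup.mem_sup_of_normal_right.mp hg
    exact ⟨a, ha, by rw [map_mul, (hπker b).mpr hb, mul_one]⟩
  have hTU : U.map f₁ = T := by
    have hr : (f₁.comp M.subtype).range = T := by
      rw [MonoidHom.range_comp, Subgroup.range_subtype]
      exact map_mk_pPrimePCore
    have h1 := Cfsg.Agent.Lib.Gross.Key.map_sylow_eq (f₁.comp M.subtype) T pCore_isPGroup hr P
    rw [← h1]
    exact Subgroup.map_map _ _ _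
  have hUN : U ⊓ N = ⊥ := inf_eq_bot_of_isPGroup_of_coprime hU pPrimeCore_coprime
  -- elements of `B` in the kernel
  have hdec : ∀ c ∈ B, π c = 1 → ∃ u ∈ U, ∃ d ∈ B, c = u * d ∧ d ∈ N ∧ ∀ u' ∈ U, d * u' = u' * d := by
    intro c hcB hc
    have h1 : f₁ c ∈ T := (QuotientGroup.eq_one_iff _).mp hc
    rw [← hTU] at h1
    obtain ⟨u, hu, hue⟩ := h1
    have hdN : u⁻¹ * c ∈ N := by
      rw [← QuotientGroup.eq]
      exact hue
    refine ⟨u, hu, u⁻¹ * c, B.mul_mem (B.inv_mem (hUB hu)) hcB, by group, hdN, fun u' hu' => ?_⟩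
    set d := u⁻¹ * c with hd
    have hdB : d ∈ B := B.mul_mem (B.inv_mem (hUB hu)) hcB
    have h2 : d * u' * d⁻¹ * u'⁻¹ ∈ U :=
      U.mul_mem (conj_mem_of_mem_normalizer hdB hu') (U.inv_mem hu')
    have hNn : N.Normal := inferInstance
    have h3 : d * u' * d⁻¹ * u'⁻¹ ∈ N := by
      have h4 := hNn.conj_mem _ (N.inv_mem hdN) u'
      have e : d * u' * d⁻¹ * u'⁻¹ = d * (u' * d⁻¹ * u'⁻¹) := by group
      rw [e]
      exact N.mul_mem hdN h4
    have h4 : d * u' * d⁻¹ * u'⁻¹ ∈ U ⊓ N := ⟨h2, h3⟩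
    rw [hUN, Subgroup.mem_bot] at h4
    have h5 : d * u' * d⁻¹ = u' := mul_inv_eq_one.mp h4
    exact mul_inv_eq_iff_eq_mul.mp h5
  -- last powers
  have hy_mem : ∀ x ∈ B, (∃ k, x ^ 2 ^ k = 1) → x ^ 2 ^ n ∈ U := by
    intro x hxB hx2
    have h1 : x ^ 2 ^ n ∈ pPrimePCore 2 G := key_F2 hO2 ρ hρ n hexp hN x hx2
    obtain ⟨u, hu, d, hdB, he, hdN, hdc⟩ := hdec _ (B.pow_mem hxB _) ((hπker _).mpr h1)
    have hy2 : (x ^ 2 ^ n) ^ 2 = 1 := by
      rw [← pow_mul, show 2 ^ n * 2 = 2 ^ (n + 1) by ring]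
      exact hexp x hx2
    have hcomm : Commute u d := (hdc u hu).symm
    rw [he, hcomm.mul_pow] at hy2
    have hd2 : d ^ 2 = (u ^ 2)⁻¹ := eq_inv_of_mul_eq_one_right hy2
    have hd2U : d ^ 2 ∈ U ⊓ N := by
      refine ⟨?_, N.pow_mem hdN 2⟩
      rw [hd2]
      exact U.inv_mem (U.pow_mem hu 2)
    rw [hUN, Subgroup.mem_bot] at hd2U
    have hd1 : d = 1 := by
      have h3 : Subgroup.zpowers d ⊓ N = ⊥ :=
        inf_eq_bot_of_isPGroup_of_coprime (isPGroup_zpowers (k := 1) (by simpa using hd2U)) pPrimeCore_coprime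
      have h4 : d ∈ Subgroup.zpowers d ⊓ N := ⟨Subgroup.mem_zpowers d, hdN⟩
      rw [h3] at h4
      exact h4
    rw [he, hd1, mul_one]
    exact hu
  -- the normal closure of `a`
  let L : Subgroup ((G ⧸ N) ⧸ T) := Subgroup.normalClosure {a}
  haveI hLn : L.Normal := inferInstance
  have haL : a ∈ L := Subgroup.subset_normalClosure rfl
  have hL2 : ¬ IsPGroup 2 L := by
    intro h
    have h1 : L ≤ pCore 2 ((G ⧸ N) ⧸ T) := le_pCore hLn h
    have h2 : pCore 2 ((G ⧸ N) ⧸ T) = ⊥ := pCore_quotient_eq_bot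
    rw [h2] at h1
    exact ha (h1 haL)
  have hodd : ∃ s₀ ∈ L, s₀ ≠ 1 ∧ Odd (orderOf s₀) := by
    unfold IsPGroup at hL2
    push Not at hL2
    obtain ⟨x, hx⟩ := hL2
    obtain ⟨a₀, b₀, hab, -, ⟨k, hk⟩, hbo, -, hbz⟩ :=
      Cfsg.Agent.Lib.Core.Residual.exists_pPart_pPrimePart 2 (x : (G ⧸ N) ⧸ T) (isOfFinOrder_of_finite _)
    refine ⟨b₀, (Subgroup.zpowers_le.mpr x.2) hbz, ?_, Nat.coprime_two_right.mp hbo⟩
    rintro rfl
    rw [mul_one] at hab
    apply hx k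
    apply Subtype.ext
    rw [Subgroup.coe_pow, ← hab, hk]
    rfl
  obtain ⟨s₀, hs₀L, hs₀1, hs₀o⟩ := hodd
  obtain ⟨g₀, rfl⟩ := hπs s₀
  obtain ⟨g₁, hg₁B, hg₁⟩ := hlift g₀
  obtain ⟨s, hsz, hso, hsπ⟩ := exists_odd_lift π g₁ (m := orderOf (π g₀)) hs₀o
    (by rw [hg₁, pow_orderOf_eq_one])
  have hsB : s ∈ B := (Subgroup.zpowers_le.mpr hg₁B) hsz
  have hsπ' : π s = π g₀ := hsπ.trans hg₁
  -- the odd elements
  let 𝒮 : Set G := {s | s ∈ B ∧ Odd (orderOf s) ∧ π s ∈ L}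
  have h𝒮B : 𝒮 ⊆ B := fun s hs => hs.1
  have h𝒮odd : ∀ s ∈ 𝒮, Odd (orderOf s) := fun s hs => hs.2.1
  have h𝒮conj : ∀ b ∈ B, ∀ s ∈ 𝒮, b * s * b⁻¹ ∈ 𝒮 := by
    rintro b hb s ⟨h1, h2, h3⟩
    refine ⟨B.mul_mem (B.mul_mem hb h1) (B.inv_mem hb), ?_, ?_⟩
    · have h4 : orderOf (b * s * b⁻¹) = orderOf s :=
        orderOf_injective (MulAut.conj b).toMonoidHom (MulEquiv.injective _) s
      rw [h4]
      exact h2
    · rw [map_mul, map_mul, map_inv]
      exact hLn.conj_mem _ h3 _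
  have hnc : ¬ ∀ s ∈ 𝒮, ∀ u ∈ U, s * u = u * s := by
    intro h
    have h1 : f₁ s ∈ Subgroup.centralizer (T : Set (G ⧸ N)) := by
      rw [Subgroup.mem_centralizer_iff]
      intro τ hτ
      rw [SetLike.mem_coe, ← hTU] at hτ
      obtain ⟨u, hu, rfl⟩ := hτ
      have h2 := h s ⟨hsB, hso, by rw [hsπ']; exact hs₀L⟩ u hu
      rw [← map_mul, ← map_mul, h2]
    have h2 := centralizer_pCore_le_of_isPSolvable (p := 2) (G := G ⧸ N) isPSolvable_of_isSolvable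
      pPrimeCore_quotient_eq_bot h1
    apply hs₀1
    rw [← hsπ']
    exact (QuotientGroup.eq_one_iff _).mpr h2
  obtain ⟨T₀, D, hT₀U, hDT, hDne, hT₀N, hDN, hmaxD, hKsT₀, hKsD, hcent, hUT, hsq, hcm, hT₀nc⟩ :=
    exists_frame B U 𝒮 hU hUB le_rfl h𝒮B h𝒮odd h𝒮conj hnc
  have hT₀2 : IsPGroup 2 T₀ := hU.to_le hT₀U
  have hT₀ne : T₀ ≠ ⊥ := by
    rintro rfl
    exact hDne (le_bot_iff.mp hDT)
  obtain ⟨q, R₁, hq, hq2, hR₁q, hR₁N, hminR, hncR⟩ := exists_R₁ hO2 B T₀ hT₀2 hT₀ne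
  have S : Setup ρ' n q B U T₀ D R₁ (Subgroup.closure 𝒮) :=
    { inj := hρ'
      exp := hexp
      norm := hN'
      q_prime := hq
      q_ne := hq2
      R₁_q := hR₁q
      That_2 := hU
      nThat := le_rfl
      nT₀ := hT₀N
      nD := hDN
      nR₁ := hR₁N
      T₀_le := hT₀U
      That_le := hUB
      D_le := hDT
      maxD := hmaxD
      D_ne := hDne
      minR := hminR
      ncR := hncR
      y_mem := hy_mem
      Ks_le := (Subgroup.closure_le _).mpr h𝒮B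
      hKs := hKsT₀
      Ks_D := hKsD
      D_central := hcent
      That_T₀ := hUT
      T₀_sq := hsq
      T₀_cm := hcm }
  have hcore : ∀ x ∈ B, (∃ k, x ^ 2 ^ k = 1) → ∀ t ∈ T₀, (t * x) ^ 2 ^ n * (x ^ 2 ^ n)⁻¹ ∈ D :=
    fun x hx hx2 t ht => Cfsg.Agent.Lib.Bry.Core.core S x hx hx2 t ht
  -- the section
  let Tb : Subgroup B := T₀.subgroupOf B
  let Db : Subgroup B := D.subgroupOf B
  haveI hTbn : Tb.Normal := Subgroup.normal_subgroupOf_of_le_normalizer hT₀N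
  haveI hDbn : Db.Normal := Subgroup.normal_subgroupOf_of_le_normalizer hDN
  have hDTb : Db ≤ Tb := fun x hx => hDT hx
  obtain ⟨W, i1, i2, i3, ρ₁, ϖ, hadd, hsurj, h0, hact⟩ :=
    Cfsg.Agent.Lib.HallHigman.Section.exists_section_module (p := 2) Db Tb hDTb
      (fun a ha b hb => hcm a.1 ha b.1 hb)
      (fun a ha => by
        change ((a ^ 2 : B) : G) ∈ D
        rw [Subgroup.coe_pow, pow_two]
        exact hsq a.1 ha)
  have hϖ1 : ϖ 1 = 0 := by
    have := hadd 1 1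
    rw [mul_one] at this
    simpa using this
  have hϖinv : ∀ t, ϖ t⁻¹ = - ϖ t := by
    intro t
    have := hadd t⁻¹ t
    rw [inv_mul_cancel, hϖ1] at this
    exact (eq_neg_of_add_eq_zero_left this.symm)
  have hϖcomm : ∀ (c : B) (t : Tb) (t' : Tb), t'.1 = c * t.1 * c⁻¹ →
      ρ₁ c (ϖ t) - ϖ t = ϖ (t' * t⁻¹) := by
    intro c t t' ht'
    rw [hact c t t' ht', hadd, hϖinv]
    abel
  have htriv : ∀ c : B, (∀ t ∈ T₀, c.1 * t * c.1⁻¹ * t⁻¹ ∈ D) → ρ₁ c = 1 := by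
    intro c hc
    ext v
    obtain ⟨t, rfl⟩ := hsurj v
    have hmem : c * t.1 * c⁻¹ ∈ Tb := hTbn.conj_mem t.1 t.2 c
    have h1 := hϖcomm c t ⟨_, hmem⟩ rfl
    have h2 : ϖ (⟨_, hmem⟩ * t⁻¹) = 0 := (h0 _).mpr (hc t.1.1 t.2)
    rw [h2, sub_eq_zero] at h1
    rw [h1]
    rfl
  have hnontriv : ∀ c : B, ρ₁ c = 1 → ∀ t ∈ T₀, c.1 * t * c.1⁻¹ * t⁻¹ ∈ D := by
    intro c hc t ht
    let t₀ : Tb := ⟨⟨t, hUB (hT₀U ht)⟩, ht⟩
    have hmem : c * t₀.1 * c⁻¹ ∈ Tb := hTbn.conj_mem t₀.1 t₀.2 c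
    have h1 := hϖcomm c t₀ ⟨_, hmem⟩ rfl
    rw [hc, Module.End.one_apply, sub_self] at h1
    exact (h0 _).mp h1.symm
  -- the descent to the quotient
  let π' : B →* (G ⧸ N) ⧸ T := π.comp B.subtype
  have hπ's : Function.Surjective π' := by
    intro y
    obtain ⟨g, rfl⟩ := hπs y
    obtain ⟨g₂, hg₂B, hg₂⟩ := hlift g
    exact ⟨⟨g₂, hg₂B⟩, hg₂⟩
  have hker : π'.ker ≤ ρ₁.ker := by
    intro c hc
    rw [MonoidHom.mem_ker] at hc ⊢
    obtain ⟨u, hu, d, hdB, he, hdN, hdc⟩ := hdec c.1 c.2 hc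
    refine htriv c (fun t ht => ?_)
    have h1 := hUT u hu t ht
    rw [he]
    have e : (u * d) * t * (u * d)⁻¹ * t⁻¹ = u * (d * t) * d⁻¹ * u⁻¹ * t⁻¹ := by group
    rw [e, hdc t (hT₀U ht)]
    have e2 : u * (t * d) * d⁻¹ * u⁻¹ * t⁻¹ = u * t * u⁻¹ * t⁻¹ := by group
    rw [e2]
    exact h1
  let e₀ : (B ⧸ π'.ker) ≃* ((G ⧸ N) ⧸ T) := QuotientGroup.quotientKerEquivOfSurjective π' hπ's
  let ρa : ((G ⧸ N) ⧸ T) →* End (ZMod 2) W :=
    (QuotientGroup.lift π'.ker ρ₁ hker).comp e₀.symm.toMonoidHom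
  have hρa : ∀ c : B, ρa (π' c) = ρ₁ c := by
    intro c
    have h1 : e₀.symm (π' c) = (c : B ⧸ π'.ker) := (e₀.symm_apply_eq).mpr rfl
    change QuotientGroup.lift π'.ker ρ₁ hker (e₀.symm (π' c)) = ρ₁ c
    rw [h1]
    rfl
  refine ⟨W, i1, i2, i3, ρa, ?_, ?_⟩
  · intro hρ1
    have hkL : L ≤ ρa.ker := by
      refine Subgroup.normalClosure_le_normal ?_
      rintro _ rfl
      exact hρ1
    apply hT₀nc
    intro s hs
    refine comm_of_section hT₀2 hs.2.1 (hT₀N hs.1) (X := D) (fun t ht => ?_)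
      (fun d hd => hKsD s (Subgroup.subset_closure hs) d hd) 
    have h1 : ρ₁ ⟨s, hs.1⟩ = 1 := by
      rw [← hρa]
      exact hkL hs.2.2
    exact hnontriv _ h1 t ht
  · rintro x ⟨k, hk⟩
    obtain ⟨g, rfl⟩ := hπs x
    obtain ⟨g₂, hg₂B, hg₂⟩ := hlift g
    obtain ⟨y, hyz, hy2, hyπ⟩ := exists_two_element_lift π g₂ (k := k) (by rw [hg₂, hk])
    have hyB : y ∈ B := (Subgroup.zpowers_le.mpr hg₂B) hyz
    let c : B := ⟨y, hyB⟩
    have hc : π' c = π g := hyπ.trans hg₂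
    rw [← hc, hρa]
    rw [← Cfsg.Agent.Lib.HallHigman.Core.sum_pow_eq (K := ZMod 2) (p := 2)]
    ext v
    obtain ⟨t, rfl⟩ := hsurj v
    have h1 := hcore y hyB hy2 t.1.1 t.2
    have hw : ((t.1 * c) ^ 2 ^ n * (c ^ 2 ^ n)⁻¹ : B) ∈ Tb := hDTb h1
    have h2 := section_norm ρ₁ ϖ hadd hact c t (2 ^ n) ⟨_, hw⟩ rfl
    have h3 : ϖ ⟨_, hw⟩ = 0 := (h0 _).mpr h1
    rw [h3] at h2
    simp only [LinearMap.sum_apply, LinearMap.zero_apply]
    exact h2.symm

end Main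

section Product

/-- Nontrivial modules for every nontrivial element assemble into a faithful module. -/
theorem exists_faithful_product {A : Type w} [Group A] [Finite A] (m : ℕ)
    (h : ∀ a : A, a ≠ 1 → ∃ (W : Type w) (_ : AddCommGroup W) (_ : Module (ZMod 2) W)
      (_ : FiniteDimensional (ZMod 2) W) (ρa : A →* End (ZMod 2) W),
      ρa a ≠ 1 ∧ ∀ x, (∃ k, x ^ 2 ^ k = 1) → (ρa x - 1) ^ m = 0) :
    ∃ (V : Type w) (_ : AddCommGroup V) (_ : Module (ZMod 2) V) (_ : FiniteDimensional (ZMod 2) V)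
      (ρ : A →* End (ZMod 2) V), Function.Injective ρ ∧ ∀ x, (∃ k, x ^ 2 ^ k = 1) → (ρ x - 1) ^ m = 0 := by
  classical
  let I := {a : A // a ≠ 1}
  choose W i1 i2 i3 ρa hne hnorm using (fun i : I => h i.1 i.2)
  letI : ∀ i, AddCommGroup (W i) := i1
  letI : ∀ i, Module (ZMod 2) (W i) := i2
  haveI : ∀ i, FiniteDimensional (ZMod 2) (W i) := i3
  let ρ : A →* End (ZMod 2) (∀ i, W i) :=
    { toFun := fun x => LinearMap.pi (fun i => (ρa i x).comp (LinearMap.proj i))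
      map_one' := by
        ext i w j
        simp only [LinearMap.coe_comp, Function.comp_apply, LinearMap.pi_apply, LinearMap.coe_proj,
          LinearMap.coe_single, Function.eval, map_one, Module.End.one_apply]
      map_mul' := by
        intro x y
        ext i w j
        simp only [LinearMap.coe_comp, Function.comp_apply, LinearMap.pi_apply, LinearMap.coe_proj,
          LinearMap.coe_single, Function.eval, map_mul, Module.End.mul_apply] }
  have hρ : ∀ x v i, ρ x v i = ρa i x (v i) := fun x v i => rfl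
  have hpow : ∀ (x : A) (k : ℕ) (v : ∀ i, W i) (i : I), ((ρ x - 1) ^ k) v i = ((ρa i x - 1) ^ k) (v i) := by
    intro x k
    induction k with
    | zero =>
      intro v i
      simp
    | succ k ih =>
      intro v i
      rw [pow_succ, pow_succ, Module.End.mul_apply, Module.End.mul_apply, ih]
      congr 1
  refine ⟨∀ i, W i, inferInstance, inferInstance, inferInstance, ρ, ?_, ?_⟩
  · intro x y hxy
    by_contra hne'
    have hz : x⁻¹ * y ≠ 1 := by
      intro h1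
      exact hne' (inv_mul_eq_one.mp h1)
    let i : I := ⟨x⁻¹ * y, hz⟩
    have h1 : ρ (x⁻¹ * y) = 1 := by
      rw [map_mul, ← hxy, ← map_mul, inv_mul_cancel, map_one]
    apply hne i
    ext w
    have h2 := congrArg (fun t : End (ZMod 2) (∀ i, W i) => t (Pi.single i w) i) h1
    simp only [hρ, Module.End.one_apply, Pi.single_eq_same] at h2
    exact h2
  · intro x hx
    ext i w j
    have h1 := hpow x m (LinearMap.single (ZMod 2) W i w) j
    rw [hnorm j x hx] at h1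
    simpa using h1

end Product

section Induction

/-- **The induction.** -/
theorem main (f : ℕ) : ∀ (G : Type w) [Group G] [Finite G] [Group.IsSolvable G], pCore 2 G = ⊥ →
    ∀ (V : Type w) [AddCommGroup V] [Module (ZMod 2) V] [FiniteDimensional (ZMod 2) V]
      (ρ : G →* End (ZMod 2) V), Function.Injective ρ →
      (∀ g : G, (∃ k, g ^ 2 ^ k = 1) → g ^ 2 ^ (f + 1) = 1) →
      (∀ g : G, (∃ k, g ^ 2 ^ k = 1) → (ρ g - 1) ^ (2 ^ (f + 1) - 1) = 0) → PLengthLE 2 f G := by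
  classical
  have h2p : Fact (Nat.Prime 2) := ⟨Nat.prime_two⟩
  induction f with
  | zero =>
    intro G _ _ _ hO2 V _ _ _ ρ hρ hexp hN
    rw [pLengthLE_zero_iff, Nat.coprime_comm, Nat.Prime.coprime_iff_not_dvd Nat.prime_two]
    intro hd
    obtain ⟨x, hx⟩ := exists_prime_orderOf_dvd_card' (G := G) 2 hd
    have hx1 : x ^ 2 ^ 1 = 1 := by
      have h0 := pow_orderOf_eq_one x
      rw [hx] at h0
      simpa using h0
    have h1 := hN x ⟨1, hx1⟩
    have h2 : ρ x = 1 := by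
      simpa [sub_eq_zero] using h1
    have h3 : x = 1 := hρ (by rw [h2, map_one])
    rw [h3, orderOf_one] at hx
    omega
  | succ f ih =>
    intro G _ _ _ hO2 V _ _ _ ρ hρ hexp hN
    have h2 : PLengthLE 2 (1 + f) G := by
      apply Cfsg.Agent.Lib.Gross.Final.of_quot
      obtain ⟨W, i1, i2, i3, ρW, hinj, hnorm⟩ := exists_faithful_product (2 ^ (f + 1) - 1)
        (fun a ha => exists_rep_for hO2 ρ hρ (f + 1) hexp hN a ha)
      refine ih _ pCore_quotient_eq_bot W ρW hinj ?_ hnorm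
      rintro x ⟨k, hk⟩
      let π : G →* (G ⧸ pPrimeCore 2 G) ⧸ pCore 2 (G ⧸ pPrimeCore 2 G) :=
        (QuotientGroup.mk' (pCore 2 (G ⧸ pPrimeCore 2 G))).comp (QuotientGroup.mk' (pPrimeCore 2 G))
      have hπs : Function.Surjective π :=
        (QuotientGroup.mk'_surjective _).comp (QuotientGroup.mk'_surjective _)
      obtain ⟨g, rfl⟩ := hπs x
      obtain ⟨y, -, hy2, hyπ⟩ := exists_two_element_lift π g hk
      rw [← hyπ, ← map_pow]
      exact (QuotientGroup.eq_one_iff _).mpr (key_F2 hO2 ρ hρ (f + 1) hexp hN y hy2)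
    rwa [add_comm] at h2

/-- Bryukhanova's theorem for solvable groups. -/
theorem bryukhanova {G : Type w} [Group G] [Finite G] [Group.IsSolvable G] (e : ℕ)
    (hexp : ∀ (P : Sylow 2 G), ∀ x ∈ (P : Subgroup G), x ^ 2 ^ e = 1) : PLengthLE 2 e G := by
  classical
  have h2p : Fact (Nat.Prime 2) := ⟨Nat.prime_two⟩
  cases e with
  | zero =>
    rw [pLengthLE_zero_iff, Nat.coprime_comm, Nat.Prime.coprime_iff_not_dvd Nat.prime_two]
    intro hd
    obtain ⟨x, hx⟩ := exists_prime_orderOf_dvd_card' (G := G) 2 hd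
    have hx1 : x ^ 2 ^ 1 = 1 := by
      have h0 := pow_orderOf_eq_one x
      rw [hx] at h0
      simpa using h0
    have h1 := Cfsg.Agent.Lib.Gross.Final.exp_two_element hexp x ⟨1, hx1⟩
    rw [pow_zero, pow_one] at h1
    rw [h1, orderOf_one] at hx
    omega
  | succ e =>
    have h2 : PLengthLE 2 (1 + e) G := by
      apply Cfsg.Agent.Lib.Gross.Final.of_quot
      obtain ⟨V, i1, i2, i3, ρ, hinj, hnorm⟩ :=
        Cfsg.Agent.Lib.Gross.Final.exists_rep_of_exp (G := G) isPSolvable_of_isSolvable (e + 1) hexp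
      refine main e _ pCore_quotient_eq_bot V ρ hinj ?_ hnorm
      have hf : Function.Surjective ((QuotientGroup.mk' (pCore 2 (G ⧸ pPrimeCore 2 G))).comp
          (QuotientGroup.mk' (pPrimeCore 2 G))) :=
        (QuotientGroup.mk'_surjective _).comp (QuotientGroup.mk'_surjective _)
      exact Cfsg.Agent.Lib.Gross.Final.exp_two_element (exponent_of_surjective _ hf hexp)
    rwa [add_comm] at h2

end Induction

end Cfsg.Agent.Lib.Bry.Frame
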